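import Cfsg.Agent.Fus.AbIdxNum2

/-!
S5257: structure of `S` when some essential subgroup differs from the abelian subgroup `A` of index `p`.
-/

set_option autoImplicit false

namespace Cfsg
namespace FusionSystem

open Cfsg.Agent.Fus

variable {Ω : Type*} [Group Ω] {S : Subgroup Ω} [Finite S]

theorem essential_struct2 {p : ℕ} [Fact p.Prime] (hS : IsPGroup p S) (F : FusionSystem S)
    (hF : F.IsSaturated p) {A : Subgroup Ω} (hAS : A ≤ S) (hAab : ∀ a ∈ A, ∀ b ∈ A, a * b = b * a)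
    (hAn : ∀ s ∈ S, ∀ a ∈ A, s * a * s⁻¹ ∈ A) (hcard : Nat.card S = p * Nat.card A)
    (hna : ¬ ∀ a ∈ S, ∀ b ∈ S, a * b = b * a)
    (huniq : ∀ B : Subgroup Ω, B ≤ S → (∀ a ∈ B, ∀ b ∈ B, a * b = b * a) → Nat.card S = p * Nat.card B → B = A)
    {P : Subgroup Ω} (hP : F.IsEssential p P) (hPA : P ≠ A) :
    ∃ x ∈ S, x ∉ A ∧ centralizerIn S S ≤ A ∧ (Subgroup.upperCentralSeries ↥S 2).map S.subtype ≤ A ∧
      ∃ t ∈ (Subgroup.upperCentralSeries ↥S 2).map S.subtype, t ∉ centralizerIn S S ∧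
        t ^ p ∈ centralizerIn S S ∧ ∀ c ∈ (Subgroup.upperCentralSeries ↥S 2).map S.subtype,
          ∃ j : ℤ, ∃ d ∈ centralizerIn S S, c = t ^ j * d := by
  have hp : p.Prime := Fact.out
  have hPS : P ≤ S := hP.1.1
  have hfP : Finite P := finite_of_le hPS
  have hcen : centralizerIn S P ≤ P := hP.1.2 P (IsConj.refl F hPS)
  have hPne : P ≠ S := IsEssential.ne_self hS hF hP
  have hUA := F.autInducedBy_le_autGroup hPS
  obtain ⟨x₁, hx₁P, hx₁A⟩ : ∃ x ∈ P, x ∉ A := by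
    by_contra hcon
    push Not at hcon
    apply hPA
    exact le_antisymm hcon (fun a ha => hcen (mem_centralizerIn.2 ⟨hAS ha,
      fun x hx => hAab x (hcon x hx) a ha⟩))
  have hdec : ∀ x ∈ S, x ∉ A → ∀ s ∈ S, ∃ i : ℤ, ∃ a ∈ A, s = x ^ i * a := fun x hx hxA =>
    (exists_zpow_mul_of_card hAS hAn hcard hx hxA).1
  have hdecP : ∀ x ∈ P, x ∉ A → ∀ y ∈ P, ∃ i : ℤ, ∃ a ∈ A, a ∈ P ∧ y = x ^ i * a := by
    intro x hx hxA y hy
    obtain ⟨i, a, ha, rfl⟩ := hdec x (hPS hx) hxA y (hPS hy)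
    refine ⟨i, a, ha, ?_, rfl⟩
    have := P.mul_mem (P.inv_mem (P.zpow_mem hx i)) hy
    rwa [inv_mul_cancel_left] at this
  have hZP : centralizerIn S S ≤ P := fun c hc => hcen (mem_centralizerIn.2
    ⟨(mem_centralizerIn.1 hc).1, fun x hx => (mem_centralizerIn.1 hc).2 x (hPS hx)⟩)
  have hZA : centralizerIn S S ≤ A := by
    intro c hc
    by_contra hcA
    apply hna
    obtain ⟨hcS, hcc⟩ := mem_centralizerIn.1 hc
    intro u hu v hv
    obtain ⟨i, a, ha, rfl⟩ := hdec c hcS hcA u hu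
    obtain ⟨j, b, hb, rfl⟩ := hdec c hcS hcA v hv
    have e1 : ∀ s ∈ S, Commute c s := fun s hs => (hcc s hs).symm
    have ca : Commute (c ^ i) (c ^ j * b) := (e1 _ (S.mul_mem (S.zpow_mem hcS j) (hAS hb))).zpow_left i
    have cb : Commute a (c ^ j) := ((e1 a (hAS ha)).zpow_left j).symm
    have cc : Commute a b := hAab a ha b hb
    exact (ca.mul_left (cb.mul_right cc)).eq
  obtain ⟨W, hW⟩ : ∃ W : Subgroup P, W = A.subgroupOf P := ⟨_, rfl⟩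
  have hmemW : ∀ e : P, e ∈ W ↔ (e : Ω) ∈ A := fun e => by rw [hW, Subgroup.mem_subgroupOf]
  have hWn : W.Normal := ⟨fun w hw e => by
    rw [hmemW] at hw ⊢
    exact hAn e (hPS e.2) w hw⟩
  have hcardP : Nat.card P = p * Nat.card W := by
    have h1 := card_eq_of_cyclic_quot (p := p) (H := A ⊓ P) (K := P) inf_le_right
      (fun k hk h hh => ⟨hAn k (hPS hk) h hh.1, P.mul_mem (P.mul_mem hk hh.2) (P.inv_mem hk)⟩)
      hx₁P (fun h => hx₁A h.1)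
      ⟨(exists_zpow_mul_of_card hAS hAn hcard (hPS hx₁P) hx₁A).2 x₁ (hPS hx₁P), P.pow_mem hx₁P p⟩
      (fun g hg => by
        obtain ⟨i, a, ha, haP, rfl⟩ := hdecP x₁ hx₁P hx₁A g hg
        exact ⟨i, a, ⟨ha, haP⟩, rfl⟩)
    rw [h1, hW, ← Subgroup.inf_subgroupOf_right, card_subgroupOf_of_le inf_le_right]
  have hU : ∀ u ∈ autInducedBy S P, ∀ e, e ∈ W ↔ u e ∈ W := by
    intro u hu e
    obtain ⟨s, hs, hu'⟩ := (mem_autInducedBy_iff u).1 hu
    rw [hmemW, hmemW, hu']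
    refine ⟨fun h => hAn s hs _ h, fun h => ?_⟩
    have := hAn s⁻¹ (S.inv_mem hs) _ h
    have e2 : s⁻¹ * (s * (e : Ω) * s⁻¹) * s⁻¹⁻¹ = e := by group
    rwa [e2] at this
  have hcoe : ∀ (g : normalizerIn S P) (e : P), ((conjAutHom S P g e : P) : Ω) = g * e * (g : Ω)⁻¹ :=
    fun g e => rfl
  have hcU : ∀ g : normalizerIn S P, conjAutHom S P g ∈ autInducedBy S P := fun g =>
    (mem_autInducedBy_iff _).2 ⟨g, (mem_normalizerIn.1 g.2).1, fun x => rfl⟩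
  have hcI : ∀ g : normalizerIn S P, (g : Ω) ∉ P →
      conjAutHom S P g ∉ (autInducedBy P P : Set (MulAut P)) := by
    intro g hgP hmem
    obtain ⟨e, he, h⟩ := (mem_autInducedBy_iff _).1 hmem
    apply hgP
    have h1 : e⁻¹ * (g : Ω) ∈ centralizerIn S P := by
      refine mem_centralizerIn.2 ⟨S.mul_mem (S.inv_mem (hPS he)) (mem_normalizerIn.1 g.2).1,
        fun x hx => ?_⟩
      have h2 : (g : Ω) * x * (g : Ω)⁻¹ = e * x * e⁻¹ := h ⟨x, hx⟩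
      calc x * (e⁻¹ * (g : Ω)) = e⁻¹ * (e * x * e⁻¹) * g := by group
        _ = e⁻¹ * ((g : Ω) * x * (g : Ω)⁻¹) * g := by rw [h2]
        _ = _ := by group
    have h3 := P.mul_mem he (hcen h1)
    rwa [mul_inv_cancel_left] at h3
  have hcK : ∀ g : normalizerIn S P, (g : Ω) ∈ A →
      conjAutHom S P g ∈ chainStab (F.autGroup P) W := by
    intro g hg
    refine mem_chainStab.2 ⟨hUA (hcU g), fun w hw => ?_, fun e => ?_⟩
    · apply Subtype.ext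
      rw [hcoe, hAab g hg w ((hmemW w).1 hw), mul_inv_cancel_right]
    · rw [hmemW]
      show (e : Ω)⁻¹ * ((g : Ω) * e * (g : Ω)⁻¹) ∈ A
      have h1 := hAn (e : Ω)⁻¹ (S.inv_mem (hPS e.2)) g hg
      rw [inv_inv] at h1
      have h2 := A.mul_mem h1 (A.inv_mem hg)
      have e2 : (e : Ω)⁻¹ * g * e * (g : Ω)⁻¹ = (e : Ω)⁻¹ * ((g : Ω) * e * (g : Ω)⁻¹) := by group
      rwa [e2] at h2
  have hdecN : ∀ g ∈ normalizerIn S P, ∃ i : ℤ, ∃ β : normalizerIn S P, (β : Ω) ∈ A ∧ g = x₁ ^ i * β := by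
    intro g hg
    obtain ⟨i, b, hb, rfl⟩ := hdec x₁ (hPS hx₁P) hx₁A g (mem_normalizerIn.1 hg).1
    have hxN : x₁ ^ i ∈ normalizerIn S P := mem_normalizerIn.2 ⟨S.zpow_mem (hPS hx₁P) i,
      Subgroup.le_normalizer (P.zpow_mem hx₁P i)⟩
    have hbN : b ∈ normalizerIn S P := by
      have := (normalizerIn S P).mul_mem ((normalizerIn S P).inv_mem hxN) hg
      rwa [inv_mul_cancel_left] at this
    exact ⟨i, ⟨b, hbN⟩, hb, rfl⟩
  obtain ⟨g₀, hg₀S, hg₀N, hg₀P⟩ := exists_normalizer_not_mem hS (lt_of_le_of_ne hPS hPne)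
  obtain ⟨β₁, hβ₁A, hβ₁P⟩ : ∃ β : normalizerIn S P, (β : Ω) ∈ A ∧ (β : Ω) ∉ P := by
    obtain ⟨i, β, hβ, hg⟩ := hdecN g₀ (mem_normalizerIn.2 ⟨hg₀S, hg₀N⟩)
    exact ⟨β, hβ, fun hbP => hg₀P (hg ▸ P.mul_mem (P.zpow_mem hx₁P i) hbP)⟩
  have hidx : ((β₁ : Ω) ^ p ∈ P) ∧
      ∀ β : normalizerIn S P, (β : Ω) ∈ A → ∃ j : ℤ, (β : Ω) * (β₁ : Ω) ^ (-j) ∈ P := by
    by_contra hcon
    obtain ⟨β₂, hβ₂A, hbad⟩ : ∃ β₂ : normalizerIn S P, (β₂ : Ω) ∈ A ∧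
        (((β₁ : Ω) ^ p ∉ P) ∨ ∀ j : ℤ, (β₂ : Ω) * (β₁ : Ω) ^ (-j) ∉ P) := by
      by_cases h1 : (β₁ : Ω) ^ p ∈ P
      · have h2 : ¬ ∀ β : normalizerIn S P, (β : Ω) ∈ A → ∃ j : ℤ, (β : Ω) * (β₁ : Ω) ^ (-j) ∈ P :=
          fun h => hcon ⟨h1, h⟩
        push Not at h2
        obtain ⟨β₂, h3, h4⟩ := h2
        exact ⟨β₂, h3, Or.inr h4⟩
      · exact ⟨β₁, hβ₁A, Or.inl h1⟩
    refine IsEssential.false_of_chain hS hF hP W hU (hcK β₁ hβ₁A) (hcI β₁ hβ₁P) (fun a ha => ?_)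
    rcases exists_stab_of_chain hWn hcardP a (hcK β₁ hβ₁A) (hcK β₂ hβ₂A) with h | ⟨h1, j, h2⟩
    · exact ⟨_, hcU β₁, hcI β₁ hβ₁P, h⟩
    · rcases hbad with hb | hb
      · rw [← map_pow] at h1
        exact ⟨_, hcU _, hcI _ hb, h1⟩
      · rw [← map_zpow, ← map_mul] at h2
        exact ⟨_, hcU _, hcI _ (hb j), h2⟩
  by_cases hPab : ∀ u ∈ P, ∀ v ∈ P, u * v = v * u
  · have hAPZ : ∀ c ∈ A, c ∈ P → c ∈ centralizerIn S S := fun c hcA hcP =>
      mem_center_of_commute hAS hAab hAn hcard (hPS hx₁P) hx₁A hcA (hPab c hcP x₁ hx₁P)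
    have hYN : ∀ c ∈ A, (∀ s ∈ S, s * c * s⁻¹ * c⁻¹ ∈ centralizerIn S S) → c ∈ normalizerIn S P := by
      intro c hcA hall
      refine mem_normalizerIn.2 ⟨hAS hcA, mem_normalizer_of_finite (fun e he => ?_)⟩
      have h1 := P.mul_mem (P.inv_mem (hZP (hall e (hPS he)))) he
      have e1 : (e * c * e⁻¹ * c⁻¹)⁻¹ * e = c * e * c⁻¹ := by group
      rwa [e1] at h1
    have hYdec : ∀ c ∈ A, (∀ s ∈ S, s * c * s⁻¹ * c⁻¹ ∈ centralizerIn S S) →
        ∃ j : ℤ, ∃ d ∈ centralizerIn S S, c = (β₁ : Ω) ^ j * d := by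
      intro c hcA hall
      obtain ⟨j, hj⟩ := hidx.2 ⟨c, hYN c hcA hall⟩ hcA
      refine ⟨j, c * (β₁ : Ω) ^ (-j), hAPZ _ (A.mul_mem hcA (A.zpow_mem hβ₁A _)) hj, ?_⟩
      have h1 : (β₁ : Ω) ^ j * c = c * (β₁ : Ω) ^ j := hAab _ (A.zpow_mem hβ₁A j) c hcA
      rw [← mul_assoc, h1, zpow_neg, mul_inv_cancel_right]
    have hβZ : (β₁ : Ω) ∉ centralizerIn S S := fun h => hβ₁P (hZP h)
    have hβp : (β₁ : Ω) ^ p ∈ centralizerIn S S := hAPZ _ (A.pow_mem hβ₁A p) hidx.1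
    have hZ2A : (Subgroup.upperCentralSeries ↥S 2).map S.subtype ≤ A := by
      intro y hy
      by_contra hyA
      obtain ⟨hyS, hy'⟩ := mem_map_ucs_two.1 hy
      apply hPA
      apply huniq P hPS hPab
      have hfA : Finite A := finite_of_le hAS
      have h1 := card_eq_of_cyclic_quot (p := p) hZA (fun k hk h hh => by
        rw [(mem_centralizerIn.1 hh).2 k (hAS hk), mul_inv_cancel_right]; exact hh) hβ₁A hβZ hβp
        (fun c hc => hYdec c hc (comm_mem_center_of_gen hAS hAab hAn hcard hyS hyA hc (hy' c (hAS hc))))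
      have h2 : A ⊓ P = centralizerIn S S :=
        le_antisymm (fun c hc => hAPZ c hc.1 hc.2) (fun c hc => ⟨hZA hc, hZP hc⟩)
      have h3 : Nat.card W = Nat.card (centralizerIn S S) := by
        rw [hW, ← Subgroup.inf_subgroupOf_right, card_subgroupOf_of_le inf_le_right, h2]
      rw [hcard, h1, hcardP, h3]
    have hβall : ∀ s ∈ S, s * (β₁ : Ω) * s⁻¹ * (β₁ : Ω)⁻¹ ∈ centralizerIn S S := by
      apply comm_mem_center_of_gen hAS hAab hAn hcard (hPS hx₁P) hx₁A hβ₁A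
      apply hAPZ _ (A.mul_mem (hAn _ (hPS hx₁P) _ hβ₁A) (A.inv_mem hβ₁A))
      have h1 := conj_mem_of_normalizer (mem_normalizerIn.1 β₁.2).2 (P.inv_mem hx₁P)
      have h2 := P.mul_mem hx₁P h1
      have e1 : x₁ * ((β₁ : Ω) * x₁⁻¹ * (β₁ : Ω)⁻¹) = x₁ * β₁ * x₁⁻¹ * (β₁ : Ω)⁻¹ := by group
      rwa [e1] at h2
    refine ⟨x₁, hPS hx₁P, hx₁A, hZA, hZ2A, β₁, ?_, hβZ, hβp, ?_⟩
    · refine mem_map_ucs_two.2 ⟨hAS hβ₁A, fun s hs => ?_⟩
      have h1 := Subgroup.inv_mem _ (hβall s hs)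
      have e1 : (s * (β₁ : Ω) * s⁻¹ * (β₁ : Ω)⁻¹)⁻¹ = β₁ * s * (β₁ : Ω)⁻¹ * s⁻¹ := by group
      rwa [e1] at h1
    · intro c hc
      refine hYdec c (hZ2A hc) (fun s hs => ?_)
      have h1 := Subgroup.inv_mem _ ((mem_map_ucs_two.1 hc).2 s hs)
      have e1 : (c * s * c⁻¹ * s⁻¹)⁻¹ = s * c * s⁻¹ * c⁻¹ := by group
      rwa [e1] at h1
  -- an automorphism moving `W`
  obtain ⟨a, ha, w, hw, haw⟩ : ∃ a ∈ F.autGroup P, ∃ w ∈ W, a w ∉ W := by
    by_contra hcon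
    push Not at hcon
    have hinv : ∀ a ∈ F.autGroup P, ∀ e, e ∈ W ↔ a e ∈ W := fun a ha =>
      mem_iff_of_forall_mem a W (hcon a ha)
    refine IsEssential.false_of_chain hS hF hP W hU (hcK β₁ hβ₁A) (hcI β₁ hβ₁P) (fun a ha => ?_)
    refine ⟨_, hcU β₁, hcI β₁ hβ₁P, fun e => ?_⟩
    rw [inv_inv]
    show e ∈ W ↔ a⁻¹ (conjAutHom S P β₁ (a e)) ∈ W
    rw [← hinv a⁻¹ (Subgroup.inv_mem _ ha), ← hU _ (hcU β₁), ← hinv a ha]
  obtain ⟨x, hxdef⟩ : ∃ x : Ω, x = ((a w : P) : Ω) := ⟨_, rfl⟩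
  have hxP : x ∈ P := hxdef ▸ (a w).2
  have hxA : x ∉ A := fun h => haw ((hmemW _).2 (hxdef ▸ h))
  have hxS : x ∈ S := hPS hxP
  -- (i)
  have hi : ∀ c ∈ A, c ∈ P → x * c * x⁻¹ * c⁻¹ ∈ centralizerIn S S := by
    intro c hcA hcP
    have hkA : x * c * x⁻¹ * c⁻¹ ∈ A := A.mul_mem (hAn x hxS c hcA) (A.inv_mem hcA)
    apply mem_center_of_commute hAS hAab hAn hcard hxS hxA hkA
    -- the commutator lies in `a W`
    have h1 : a⁻¹ (a w * (⟨c, hcP⟩ * (a w)⁻¹ * ⟨c, hcP⟩⁻¹)) ∈ W := by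
      rw [map_mul, MulAut.inv_apply_self, map_mul, map_mul, map_inv, map_inv, MulAut.inv_apply_self]
      exact W.mul_mem hw (hWn.conj_mem _ (W.inv_mem hw) _)
    have h2 : a⁻¹ (a w * (⟨c, hcP⟩ * (a w)⁻¹ * ⟨c, hcP⟩⁻¹)) * w =
        w * a⁻¹ (a w * (⟨c, hcP⟩ * (a w)⁻¹ * ⟨c, hcP⟩⁻¹)) :=
      Subtype.ext (hAab _ ((hmemW _).1 h1) _ ((hmemW _).1 hw))
    have h3 := congrArg (fun z => ((a z : P) : Ω)) h2
    simp only [map_mul, MulAut.apply_inv_self, Subgroup.coe_mul, Subgroup.coe_inv, ← hxdef] at h3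
    have e1 : x * c * x⁻¹ * c⁻¹ = x * (c * x⁻¹ * c⁻¹) := by group
    rw [e1]
    exact h3
  -- centre of `P`
  have hcenP : ∀ e ∈ P, (∀ v ∈ P, v * e = e * v) → e ∈ centralizerIn S S := by
    intro e he hev
    by_cases heA : e ∈ A
    · exact mem_center_of_commute hAS hAab hAn hcard hxS hxA heA (hev x hxP).symm
    · exfalso
      apply hPab
      intro u hu v hv
      obtain ⟨i, b, hb, hbP, rfl⟩ := hdecP e he heA u hu
      obtain ⟨j, b', hb', hbP', rfl⟩ := hdecP e he heA v hv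
      have e1 : ∀ s ∈ P, Commute e s := fun s hs => (hev s hs).symm
      have ca : Commute (e ^ i) (e ^ j * b') := (e1 _ (P.mul_mem (P.zpow_mem he j) hbP')).zpow_left i
      have cb : Commute b (e ^ j) := ((e1 b hbP).zpow_left j).symm
      have cc : Commute b b' := hAab b hb b' hb'
      exact (ca.mul_left (cb.mul_right cc)).eq
  -- (ii)
  have hii : ∀ c ∈ A, x * c * x⁻¹ * c⁻¹ ∈ centralizerIn S S → c ∈ P := by
    intro c hcA hxc
    by_contra hcP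
    have hall := comm_mem_center_of_gen hAS hAab hAn hcard hxS hxA hcA hxc
    have hcN : c ∈ normalizerIn S P := by
      refine mem_normalizerIn.2 ⟨hAS hcA, mem_normalizer_of_finite (fun e he => ?_)⟩
      have h1 := P.mul_mem (P.inv_mem (hZP (hall e (hPS he)))) he
      have e1 : (e * c * e⁻¹ * c⁻¹)⁻¹ * e = c * e * c⁻¹ := by group
      rwa [e1] at h1
    have hstab : ∀ (u : MulAut P) (e : P), e ∈ Subgroup.center P ↔ u e ∈ Subgroup.center P := by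
      intro u
      apply mem_iff_of_forall_mem
      intro e he
      rw [Subgroup.mem_center_iff] at he ⊢
      intro g
      have := congrArg u (he (u⁻¹ g))
      simpa using this
    have hcz : ∀ e : P, e ∈ Subgroup.center P → (e : Ω) ∈ centralizerIn S S := fun e he =>
      hcenP e e.2 (fun v hv => congrArg Subtype.val (Subgroup.mem_center_iff.1 he ⟨v, hv⟩))
    refine IsEssential.false_of_chain hS hF hP (Subgroup.center P) (fun u _ => hstab u)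
      (x₀ := conjAutHom S P ⟨c, hcN⟩) ?_ (hcI ⟨c, hcN⟩ hcP)
      (fun a _ => ⟨_, hcU ⟨c, hcN⟩, hcI ⟨c, hcN⟩ hcP, hstab _⟩)
    refine mem_chainStab.2 ⟨hUA (hcU _), fun z hz => ?_, fun e => ?_⟩
    · apply Subtype.ext
      rw [hcoe]
      show c * (z : Ω) * c⁻¹ = z
      rw [(mem_centralizerIn.1 (hcz z hz)).2 c (hAS hcA), mul_inv_cancel_right]
    · have h1 := hall (e : Ω)⁻¹ (S.inv_mem (hPS e.2))
      rw [inv_inv] at h1
      rw [Subgroup.mem_center_iff]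
      intro g
      apply Subtype.ext
      have h2 := (mem_centralizerIn.1 h1).2 g (hPS g.2)
      have e1 : ((e⁻¹ * conjAutHom S P ⟨c, hcN⟩ e : P) : Ω) = (e : Ω)⁻¹ * c * e * c⁻¹ := by
        show (e : Ω)⁻¹ * (c * e * c⁻¹) = _
        group
      show (g : Ω) * ((e⁻¹ * conjAutHom S P ⟨c, hcN⟩ e : P) : Ω) =
        ((e⁻¹ * conjAutHom S P ⟨c, hcN⟩ e : P) : Ω) * g
      rw [e1]; exact h2
  have hZ2A : (Subgroup.upperCentralSeries ↥S 2).map S.subtype ≤ A := by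
    intro y hy
    by_contra hyA
    obtain ⟨hyS, hy'⟩ := mem_map_ucs_two.1 hy
    apply hPne
    refine le_antisymm hPS (fun s hs => ?_)
    obtain ⟨i, c, hc, rfl⟩ := hdec x hxS hxA s hs
    refine P.mul_mem (P.zpow_mem hxP i) (hii c hc ?_)
    exact comm_mem_center_of_gen hAS hAab hAn hcard hyS hyA hc (hy' c (hAS hc)) x hxS
  have hZ2 : ∀ c, c ∈ (Subgroup.upperCentralSeries ↥S 2).map S.subtype ↔ c ∈ A ∧ c ∈ P := by
    intro c
    constructor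
    · intro hc
      have hcA := hZ2A hc
      refine ⟨hcA, hii c hcA ?_⟩
      have h1 := Subgroup.inv_mem _ ((mem_map_ucs_two.1 hc).2 x hxS)
      have e1 : (c * x * c⁻¹ * x⁻¹)⁻¹ = x * c * x⁻¹ * c⁻¹ := by group
      rwa [e1] at h1
    · rintro ⟨hcA, hcP⟩
      refine mem_map_ucs_two.2 ⟨hAS hcA, fun t ht => ?_⟩
      have h1 := Subgroup.inv_mem _
        (comm_mem_center_of_gen hAS hAab hAn hcard hxS hxA hcA (hi c hcA hcP) t ht)
      have e1 : (t * c * t⁻¹ * c⁻¹)⁻¹ = c * t * c⁻¹ * t⁻¹ := by group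
      rwa [e1] at h1
  obtain ⟨tP, htW, htW'⟩ : ∃ tP ∈ W, a⁻¹ tP ∉ W := by
    by_contra hcon
    push Not at hcon
    have h1 := mem_iff_of_forall_mem a⁻¹ W hcon (a w)
    rw [MulAut.inv_apply_self] at h1
    exact haw (h1.2 hw)
  obtain ⟨W₁, hW₁⟩ : ∃ W₁ : Subgroup P, W₁ = W.map a.toMonoidHom := ⟨_, rfl⟩
  have hW₁n : W₁.Normal := by
    rw [hW₁]
    exact hWn.map _ a.surjective
  have hcard₁ : Nat.card P = p * Nat.card W₁ := by
    rw [hW₁, Subgroup.card_map_of_injective a.injective]; exact hcardP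
  have htW₁ : tP ∉ W₁ := by
    rw [hW₁]
    rintro ⟨w', hw', hw'e⟩
    apply htW'
    rw [← hw'e]
    show a⁻¹ (a w') ∈ W
    rw [MulAut.inv_apply_self]; exact hw'
  obtain ⟨hd₁, hd₂⟩ := exists_zpow_mul_of_card (p := p) (H := W₁) (K := ⊤) le_top
    (fun k _ w hw => hW₁n.conj_mem w hw k) (by rw [Subgroup.card_top]; exact hcard₁)
    (Subgroup.mem_top tP) htW₁
  have hWW₁Z : ∀ d : P, d ∈ W → d ∈ W₁ → (d : Ω) ∈ centralizerIn S S := by
    intro d hdW hdW₁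
    rw [hW₁] at hdW₁
    obtain ⟨w', hw', rfl⟩ := hdW₁
    apply mem_center_of_commute hAS hAab hAn hcard hxS hxA ((hmemW _).1 hdW)
    have h1 : w' * w = w * w' := Subtype.ext (hAab _ ((hmemW _).1 hw') _ ((hmemW _).1 hw))
    have h2 := congrArg (fun z => ((a z : P) : Ω)) h1
    simp only [map_mul, Subgroup.coe_mul, ← hxdef] at h2
    exact h2
  refine ⟨x, hxS, hxA, hZA, hZ2A, tP, (hZ2 _).2 ⟨(hmemW _).1 htW, tP.2⟩, ?_, ?_, ?_⟩
  · intro htZ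
    apply htW'
    rw [hmemW]
    apply hZA
    apply hcenP _ (a⁻¹ tP).2
    intro v hv
    have h1 : (a ⟨v, hv⟩) * tP = tP * (a ⟨v, hv⟩) :=
      Subtype.ext ((mem_centralizerIn.1 htZ).2 _ (hPS (a ⟨v, hv⟩).2))
    have h2 := congrArg (fun z => ((a⁻¹ z : P) : Ω)) h1
    simp only [map_mul, MulAut.inv_apply_self, Subgroup.coe_mul] at h2
    exact h2
  · have h1 := hWW₁Z (tP ^ p) (W.pow_mem htW p) (hd₂ tP (Subgroup.mem_top _))
    exact h1
  · intro c hc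
    obtain ⟨hcA, hcP⟩ := (hZ2 c).1 hc
    obtain ⟨j, d, hdW₁, hcd⟩ := hd₁ ⟨c, hcP⟩ (Subgroup.mem_top _)
    have hdW : d ∈ W := by
      have h1 : d = (tP ^ j)⁻¹ * ⟨c, hcP⟩ := by rw [hcd, inv_mul_cancel_left]
      rw [h1]
      exact W.mul_mem (W.inv_mem (W.zpow_mem htW j)) ((hmemW _).2 hcA)
    refine ⟨j, d, hWW₁Z d hdW hdW₁, ?_⟩
    have := congrArg Subtype.val hcd
    simpa using this

end FusionSystem
end Cfsg
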