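import Cfsg.Agent.Fus.EssChain2

/-!
Group theoretic lemmas for `p`-groups with an abelian subgroup of index `p`.
-/

set_option autoImplicit false

namespace Cfsg
namespace FusionSystem

open Cfsg.Agent.Fus

theorem card_eq_of_cyclic_quot {X : Type*} [Group X] {p : ℕ} [Fact p.Prime] {H K : Subgroup X} [Finite K]
    (hHK : H ≤ K) (hn : ∀ k ∈ K, ∀ h ∈ H, k * h * k⁻¹ ∈ H) {x : X} (hx : x ∈ K) (hxH : x ∉ H)
    (hxp : x ^ p ∈ H) (hd : ∀ g ∈ K, ∃ i : ℤ, ∃ h ∈ H, g = x ^ i * h) :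
    Nat.card K = p * Nat.card H := by
  have hp : p.Prime := Fact.out
  have hN : (H.subgroupOf K).Normal := ⟨fun h hh k => by
    rw [Subgroup.mem_subgroupOf] at hh ⊢
    exact hn k k.2 h hh⟩
  have ho : orderOf (QuotientGroup.mk' (H.subgroupOf K) ⟨x, hx⟩) = p := by
    apply orderOf_eq_prime
    · rw [← map_pow]
      exact (QuotientGroup.eq_one_iff _).2 (Subgroup.mem_subgroupOf.2 hxp)
    · intro h
      exact hxH (Subgroup.mem_subgroupOf.1 ((QuotientGroup.eq_one_iff _).1 h))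
  have hall : ∀ g : K ⧸ H.subgroupOf K, g ∈ Subgroup.zpowers (QuotientGroup.mk' (H.subgroupOf K) ⟨x, hx⟩) := by
    intro g
    obtain ⟨k, rfl⟩ := QuotientGroup.mk'_surjective _ g
    obtain ⟨i, h, hh, hk⟩ := hd k k.2
    refine ⟨i, ?_⟩
    have hk' : k = (⟨x, hx⟩ : K) ^ i * ⟨h, hHK hh⟩ := Subtype.ext (by simpa using hk)
    show (QuotientGroup.mk' (H.subgroupOf K) ⟨x, hx⟩) ^ i = _
    rw [hk', map_mul, map_zpow]
    have : QuotientGroup.mk' (H.subgroupOf K) ⟨h, hHK hh⟩ = 1 :=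
      (QuotientGroup.eq_one_iff _).2 (Subgroup.mem_subgroupOf.2 hh)
    rw [this, mul_one]
  have h1 := orderOf_eq_card_of_forall_mem_zpowers hall
  rw [Subgroup.card_eq_card_quotient_mul_card_subgroup (H.subgroupOf K), ← h1, ho,
    card_subgroupOf_of_le hHK]

variable {Ω : Type*} [Group Ω] {S : Subgroup Ω} [Finite S]

theorem mem_map_ucs_two {y : Ω} : y ∈ (Subgroup.upperCentralSeries ↥S 2).map S.subtype ↔
    y ∈ S ∧ ∀ t ∈ S, y * t * y⁻¹ * t⁻¹ ∈ centralizerIn S S := by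
  rw [centralizerIn_self_eq_map]
  constructor
  · rintro ⟨u, hu, rfl⟩
    refine ⟨u.2, fun t ht => ?_⟩
    have := (Subgroup.mem_upperCentralSeries_succ_iff (n := 1)).1 hu ⟨t, ht⟩
    rw [Subgroup.upperCentralSeries_one] at this
    exact ⟨_, this, rfl⟩
  · rintro ⟨hy, h⟩
    refine ⟨⟨y, hy⟩, ?_, rfl⟩
    apply (Subgroup.mem_upperCentralSeries_succ_iff (n := 1)).2
    intro t
    rw [Subgroup.upperCentralSeries_one]
    obtain ⟨c, hc, hce⟩ := h t t.2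
    have : c = (⟨y, hy⟩ : S) * t * (⟨y, hy⟩ : S)⁻¹ * t⁻¹ := Subtype.ext hce
    rw [commutatorElement_def, ← this]
    exact hc

section

variable {p : ℕ} [Fact p.Prime] {A : Subgroup Ω} (hAS : A ≤ S) (hAab : ∀ a ∈ A, ∀ b ∈ A, a * b = b * a)
  (hAn : ∀ s ∈ S, ∀ a ∈ A, s * a * s⁻¹ ∈ A) (hcard : Nat.card S = p * Nat.card A)

include hAS hAab hAn hcard in
theorem mem_center_of_commute {x a : Ω} (hx : x ∈ S) (hxA : x ∉ A) (ha : a ∈ A) (hax : a * x = x * a) :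
    a ∈ centralizerIn S S := by
  refine mem_centralizerIn.2 ⟨hAS ha, fun s hs => ?_⟩
  obtain ⟨i, a', ha', rfl⟩ := (exists_zpow_mul_of_card hAS hAn hcard hx hxA).1 s hs
  have e1 : Commute a (x ^ i) := Commute.zpow_right hax i
  have e2 : Commute a a' := hAab a ha a' ha'
  exact (e1.mul_right e2).eq.symm

include hAS hAab hAn hcard in
theorem comm_mem_center_of_gen {x c : Ω} (hx : x ∈ S) (hxA : x ∉ A) (hc : c ∈ A)
    (hxc : x * c * x⁻¹ * c⁻¹ ∈ centralizerIn S S) : ∀ s ∈ S, s * c * s⁻¹ * c⁻¹ ∈ centralizerIn S S := by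
  let T : Subgroup Ω :=
    { carrier := {s | s ∈ S ∧ s * c * s⁻¹ * c⁻¹ ∈ centralizerIn S S}
      one_mem' := ⟨S.one_mem, by simp⟩
      mul_mem' := by
        rintro s t ⟨hs, hs'⟩ ⟨ht, ht'⟩
        refine ⟨S.mul_mem hs ht, ?_⟩
        have h1 := (mem_centralizerIn.1 ht').2 s hs
        have e : s * t * c * (s * t)⁻¹ * c⁻¹ = (t * c * t⁻¹ * c⁻¹) * (s * c * s⁻¹ * c⁻¹) := by
          calc s * t * c * (s * t)⁻¹ * c⁻¹ = (s * (t * c * t⁻¹ * c⁻¹)) * c * s⁻¹ * c⁻¹ := by group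
            _ = ((t * c * t⁻¹ * c⁻¹) * s) * c * s⁻¹ * c⁻¹ := by rw [h1]
            _ = _ := by group
        rw [e]
        exact Subgroup.mul_mem _ ht' hs'
      inv_mem' := by
        rintro s ⟨hs, hs'⟩
        refine ⟨S.inv_mem hs, ?_⟩
        have h1 := (mem_centralizerIn.1 (Subgroup.inv_mem _ hs')).2 s⁻¹ (S.inv_mem hs)
        have e : s⁻¹ * c * s⁻¹⁻¹ * c⁻¹ = (s * c * s⁻¹ * c⁻¹)⁻¹ := by
          calc s⁻¹ * c * s⁻¹⁻¹ * c⁻¹ = (s⁻¹ * (s * c * s⁻¹ * c⁻¹)⁻¹) * s := by group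
            _ = ((s * c * s⁻¹ * c⁻¹)⁻¹ * s⁻¹) * s := by rw [h1]
            _ = _ := by group
        rw [e]
        exact Subgroup.inv_mem _ hs' }
  intro s hs
  obtain ⟨i, a, ha, rfl⟩ := (exists_zpow_mul_of_card hAS hAn hcard hx hxA).1 s hs
  have hxT : x ∈ T := ⟨hx, hxc⟩
  have haT : a ∈ T := ⟨hAS ha, by
    rw [hAab a ha c hc, mul_inv_cancel_right, mul_inv_cancel]; exact Subgroup.one_mem _⟩
  exact (T.mul_mem (T.zpow_mem hxT i) haT).2

end

end FusionSystem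
end Cfsg
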