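import Cfsg.Agent.Fus.AbIdxEss

/-!
`p`-groups with an abelian subgroup `A` of index `p`: the commutator map `a ↦ [x, a]` on `A`.
-/

set_option autoImplicit false

namespace Cfsg
namespace FusionSystem

open Cfsg.Agent.Fus

variable {Ω : Type*} [Group Ω] {S : Subgroup Ω} [Finite S]

variable {p : ℕ} [Fact p.Prime] {A : Subgroup Ω} (hAS : A ≤ S) (hAab : ∀ a ∈ A, ∀ b ∈ A, a * b = b * a)
  (hAn : ∀ s ∈ S, ∀ a ∈ A, s * a * s⁻¹ ∈ A) (hcard : Nat.card S = p * Nat.card A) {x : Ω} (hx : x ∈ S)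
  (hxA : x ∉ A)

/-- The map `a ↦ [x, a]` on `A`. -/
def commMap (hAab : ∀ a ∈ A, ∀ b ∈ A, a * b = b * a) (hAn : ∀ s ∈ S, ∀ a ∈ A, s * a * s⁻¹ ∈ A)
    (hx : x ∈ S) : A →* A :=
  MonoidHom.mk' (fun a => ⟨x * a * x⁻¹ * (a : Ω)⁻¹, A.mul_mem (hAn x hx a a.2) (A.inv_mem a.2)⟩) (by
    intro a b
    apply Subtype.ext
    show x * ((a : Ω) * b) * x⁻¹ * ((a : Ω) * b)⁻¹ = (x * a * x⁻¹ * (a : Ω)⁻¹) * (x * b * x⁻¹ * (b : Ω)⁻¹)
    have h := hAab _ (A.mul_mem (hAn x hx b b.2) (A.inv_mem b.2)) _ (A.inv_mem a.2)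
    calc x * ((a : Ω) * b) * x⁻¹ * ((a : Ω) * b)⁻¹
        = x * a * x⁻¹ * ((x * b * x⁻¹ * (b : Ω)⁻¹) * (a : Ω)⁻¹) := by group
      _ = x * a * x⁻¹ * ((a : Ω)⁻¹ * (x * b * x⁻¹ * (b : Ω)⁻¹)) := by rw [h]
      _ = _ := by group)

theorem commMap_coe (a : A) : ((commMap hAab hAn hx a : A) : Ω) = x * a * x⁻¹ * (a : Ω)⁻¹ := rfl

include hAS hcard hxA in
theorem commMap_eq_one_iff (a : A) : commMap hAab hAn hx a = 1 ↔ (a : Ω) ∈ centralizerIn S S := by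
  constructor
  · intro h
    have h1 : x * a * x⁻¹ * (a : Ω)⁻¹ = 1 := congrArg Subtype.val h
    apply mem_center_of_commute hAS hAab hAn hcard hx hxA a.2
    have : x * (a : Ω) = (x * a * x⁻¹ * (a : Ω)⁻¹) * (a * x) := by group
    rw [h1, one_mul] at this
    exact this.symm
  · intro h
    apply Subtype.ext
    show x * a * x⁻¹ * (a : Ω)⁻¹ = 1
    rw [(mem_centralizerIn.1 h).2 x hx, mul_inv_cancel_right, mul_inv_cancel]

include hAS hcard hxA in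
/-- `[s, c]` lies in the image of the commutator map for `c ∈ A`. -/
theorem comm_mem_range {c : Ω} (hc : c ∈ A) {s : Ω} (hs : s ∈ S) :
    s * c * s⁻¹ * c⁻¹ ∈ (commMap hAab hAn hx).range.map A.subtype := by
  have hnat : ∀ (n : ℕ) (c : Ω), c ∈ A → x ^ n * c * (x ^ n)⁻¹ * c⁻¹ ∈ (commMap hAab hAn hx).range.map A.subtype := by
    intro n
    induction n with
    | zero => intro c _; simp
    | succ n ih =>
      intro c hc
      have hc' : x ^ n * c * (x ^ n)⁻¹ ∈ A := hAn _ (S.pow_mem hx n) c hc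
      have h1 : x * (x ^ n * c * (x ^ n)⁻¹) * x⁻¹ * (x ^ n * c * (x ^ n)⁻¹)⁻¹ ∈
          (commMap hAab hAn hx).range.map A.subtype := ⟨_, ⟨⟨_, hc'⟩, rfl⟩, rfl⟩
      have h2 := Subgroup.mul_mem _ h1 (ih c hc)
      have e : x * (x ^ n * c * (x ^ n)⁻¹) * x⁻¹ * (x ^ n * c * (x ^ n)⁻¹)⁻¹ * (x ^ n * c * (x ^ n)⁻¹ * c⁻¹) =
          x ^ (n + 1) * c * (x ^ (n + 1))⁻¹ * c⁻¹ := by
        rw [pow_succ']; group
      rwa [e] at h2
  obtain ⟨i, b, hb, rfl⟩ := (exists_zpow_mul_of_card hAS hAn hcard hx hxA).1 s hs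
  have hN : x ^ (Nat.card S : ℤ) = 1 := by
    rw [zpow_natCast]
    have : (⟨x, hx⟩ : S) ^ Nat.card S = 1 := pow_card_eq_one'
    exact congrArg Subtype.val this
  have hpos : (0 : ℤ) < Nat.card S := by exact_mod_cast Nat.card_pos
  have hi : x ^ i = x ^ (i % (Nat.card S : ℤ)).toNat := by
    rw [zpow_eq_zpow_emod i hN, ← zpow_natCast, Int.toNat_of_nonneg (Int.emod_nonneg _ hpos.ne')]
  have e : x ^ i * b * c * (x ^ i * b)⁻¹ * c⁻¹ = x ^ i * c * (x ^ i)⁻¹ * c⁻¹ := by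
    have h1 : b * c = c * b := hAab b hb c hc
    calc x ^ i * b * c * (x ^ i * b)⁻¹ * c⁻¹ = x ^ i * (b * c) * b⁻¹ * (x ^ i)⁻¹ * c⁻¹ := by group
      _ = x ^ i * (c * b) * b⁻¹ * (x ^ i)⁻¹ * c⁻¹ := by rw [h1]
      _ = _ := by group
  rw [e, hi]
  exact hnat _ c hc

include hAS hcard hxA in
theorem commutator_map_eq : (commutator S).map S.subtype = (commMap hAab hAn hx).range.map A.subtype := by
  have hRA : (commMap hAab hAn hx).range.map A.subtype ≤ A := Subgroup.map_subtype_le _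
  have hconj : ∀ s ∈ S, ∀ r ∈ (commMap hAab hAn hx).range.map A.subtype,
      s * r * s⁻¹ ∈ (commMap hAab hAn hx).range.map A.subtype := by
    intro s hs r hr
    have := Subgroup.mul_mem _ (comm_mem_range hAS hAab hAn hcard hx hxA (hRA hr) hs) hr
    rwa [inv_mul_cancel_right] at this
  apply le_antisymm
  · rw [commutator_def, Subgroup.map_le_iff_le_comap, Subgroup.commutator_le]
    intro s _ u _
    show ((s * u * s⁻¹ * u⁻¹ : S) : Ω) ∈ (commMap hAab hAn hx).range.map A.subtype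
    obtain ⟨j, b, hb, hu⟩ := (exists_zpow_mul_of_card hAS hAn hcard hx hxA).1 u u.2
    obtain ⟨i, a, ha, hs⟩ := (exists_zpow_mul_of_card hAS hAn hcard hx hxA).1 s s.2
    have hxj : x ^ j ∈ S := S.zpow_mem hx j
    have hxi : x ^ i ∈ S := S.zpow_mem hx i
    have h1 := hconj _ hxj _ (comm_mem_range hAS hAab hAn hcard hx hxA hb s.2)
    have h2 := hconj _ hxi _ (Subgroup.inv_mem _ (comm_mem_range hAS hAab hAn hcard hx hxA ha hxj))
    have h3 := Subgroup.mul_mem _ h2 h1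
    have e : x ^ i * (x ^ j * a * (x ^ j)⁻¹ * a⁻¹)⁻¹ * (x ^ i)⁻¹ *
        (x ^ j * ((s : Ω) * b * (s : Ω)⁻¹ * b⁻¹) * (x ^ j)⁻¹) = (s : Ω) * u * (s : Ω)⁻¹ * (u : Ω)⁻¹ := by
      rw [hu, hs]; group
    rw [e] at h3
    exact h3
  · rintro _ ⟨_, ⟨a, rfl⟩, rfl⟩
    refine ⟨(⟨x, hx⟩ : S) * ⟨a, hAS a.2⟩ * (⟨x, hx⟩ : S)⁻¹ * (⟨a, hAS a.2⟩ : S)⁻¹, ?_, rfl⟩
    rw [commutator_def, ← commutatorElement_def]
    exact Subgroup.commutator_mem_commutator (Subgroup.mem_top _) (Subgroup.mem_top _)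

end FusionSystem
end Cfsg
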