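import Cfsg.Agent.Fus.AbIdxNum

/-!
Numerical consequences for `p`-groups with an abelian subgroup of index `p` and `#(Z₂ / Z) = p`.
-/

set_option autoImplicit false

namespace Cfsg
namespace FusionSystem

open Cfsg.Agent.Fus

theorem relIndex_mul_card'' {G : Type*} [Group G] {H K : Subgroup G} (h : H ≤ K) :
    H.relIndex K * Nat.card H = Nat.card K := by
  have := Subgroup.relIndex_mul_relIndex ⊥ H K bot_le h
  rw [Subgroup.relIndex_bot_left, Subgroup.relIndex_bot_left] at this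
  rw [mul_comm]; exact this

variable {Ω : Type*} [Group Ω] {S : Subgroup Ω} [Finite S]

variable {p : ℕ} [Fact p.Prime] {A : Subgroup Ω} (hAS : A ≤ S) (hAab : ∀ a ∈ A, ∀ b ∈ A, a * b = b * a)
  (hAn : ∀ s ∈ S, ∀ a ∈ A, s * a * s⁻¹ ∈ A) (hcard : Nat.card S = p * Nat.card A) {x : Ω} (hx : x ∈ S)
  (hxA : x ∉ A)

include hAS hAab hAn hcard hx hxA in
theorem abIdx_numeric (hZA : centralizerIn S S ≤ A)
    (hZ2A : (Subgroup.upperCentralSeries ↥S 2).map S.subtype ≤ A) {t : Ω}
    (ht2 : t ∈ (Subgroup.upperCentralSeries ↥S 2).map S.subtype) (htZ : t ∉ centralizerIn S S)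
    (htp : t ^ p ∈ centralizerIn S S)
    (htd : ∀ c ∈ (Subgroup.upperCentralSeries ↥S 2).map S.subtype,
      ∃ j : ℤ, ∃ d ∈ centralizerIn S S, c = t ^ j * d) :
    Nat.card ↥(centralizerIn S S ⊓ (commutator S).map S.subtype) = p ∧
    ((centralizerIn S S ⊔ (commutator S).map S.subtype).subgroupOf A).index = p ∧
    ((centralizerIn S S).subgroupOf ((Subgroup.upperCentralSeries ↥S 2).map S.subtype)).index = p ∧
    ∀ m : ℕ, ((centralizerIn S S).subgroupOf S).index = p ^ m → 3 ≤ m →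
      ¬ Subgroup.lowerCentralSeries S (m - 2) ≤ centralizerIn S S := by
  have hp : p.Prime := Fact.out
  have hfA : Finite A := finite_of_le hAS
  obtain ⟨ψ, hψ⟩ : ∃ ψ : A →* A, ψ = commMap hAab hAn hx := ⟨_, rfl⟩
  have hψc : ∀ a : A, ((ψ a : A) : Ω) = x * a * x⁻¹ * (a : Ω)⁻¹ := fun a => by rw [hψ]; rfl
  have hker : ∀ a : A, a ∈ ψ.ker ↔ (a : Ω) ∈ centralizerIn S S := fun a => by
    rw [MonoidHom.mem_ker, hψ]; exact commMap_eq_one_iff hAS hAab hAn hcard hx hxA a
  have hz₀Z : ((ψ ⟨t, hZ2A ht2⟩ : A) : Ω) ∈ centralizerIn S S := by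
    rw [hψc]
    have h1 := Subgroup.inv_mem _ ((mem_map_ucs_two.1 ht2).2 x hx)
    have e1 : (t * x * t⁻¹ * x⁻¹)⁻¹ = x * t * x⁻¹ * t⁻¹ := by group
    rwa [e1] at h1
  have hz₀1 : ψ ⟨t, hZ2A ht2⟩ ≠ 1 := fun h => htZ ((hker _).1 h)
  have hz₀p : (ψ ⟨t, hZ2A ht2⟩) ^ p = 1 := by
    rw [← map_pow]
    exact (hker _).2 htp
  have hKR : ψ.ker ⊓ ψ.range = Subgroup.zpowers (ψ ⟨t, hZ2A ht2⟩) := by
    apply le_antisymm
    · rintro _ ⟨hu, a, rfl⟩
      have h1 : x * a * x⁻¹ * (a : Ω)⁻¹ ∈ centralizerIn S S := by rw [← hψc]; exact (hker _).1 hu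
      have h2 := comm_mem_center_of_gen hAS hAab hAn hcard hx hxA a.2 h1
      have h3 : (a : Ω) ∈ (Subgroup.upperCentralSeries ↥S 2).map S.subtype := by
        refine mem_map_ucs_two.2 ⟨hAS a.2, fun s hs => ?_⟩
        have h4 := Subgroup.inv_mem _ (h2 s hs)
        have e1 : (s * a * s⁻¹ * (a : Ω)⁻¹)⁻¹ = a * s * (a : Ω)⁻¹ * s⁻¹ := by group
        rwa [e1] at h4
      obtain ⟨j, d, hd, had⟩ := htd _ h3
      have h5 : a = (⟨t, hZ2A ht2⟩ : A) ^ j * ⟨d, hZA hd⟩ := Subtype.ext (by simpa using had)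
      have h6 : ψ ⟨d, hZA hd⟩ = 1 := (hker _).2 hd
      rw [h5, map_mul, map_zpow, h6, mul_one]
      exact Subgroup.zpow_mem _ (Subgroup.mem_zpowers _) j
    · rw [Subgroup.zpowers_le]
      exact ⟨(hker _).2 hz₀Z, ⟨_, rfl⟩⟩
  have hcardKR : Nat.card (ψ.ker ⊓ ψ.range : Subgroup A) = p := by
    rw [hKR, Nat.card_zpowers, orderOf_eq_prime hz₀p hz₀1]
  have hS' : (commutator S).map S.subtype = ψ.range.map A.subtype := by
    rw [hψ]; exact commutator_map_eq hAS hAab hAn hcard hx hxA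
  have hZmap : centralizerIn S S = ψ.ker.map A.subtype := by
    ext u
    constructor
    · intro hu
      exact ⟨⟨u, hZA hu⟩, (hker _).2 hu, rfl⟩
    · rintro ⟨v, hv, rfl⟩
      exact (hker v).1 hv
  have hcardker : Nat.card ψ.ker = Nat.card (centralizerIn S S) := by
    rw [hZmap, Subgroup.card_map_of_injective A.subtype_injective]
  have hrel : ∀ H : Subgroup A, Nat.card H = Nat.card (H.map ψ) * Nat.card (ψ.ker ⊓ H : Subgroup A) := by
    intro H
    rw [← Subgroup.relIndex_ker, ← Subgroup.inf_relIndex_right,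
      relIndex_mul_card'' (inf_le_right : ψ.ker ⊓ H ≤ H)]
  refine ⟨?_, ?_, ?_, ?_⟩
  · have h1 : centralizerIn S S ⊓ (commutator S).map S.subtype = (ψ.ker ⊓ ψ.range).map A.subtype := by
      rw [hS']
      ext u
      constructor
      · rintro ⟨hu, v, hv, rfl⟩
        exact ⟨v, ⟨(hker v).2 hu, hv⟩, rfl⟩
      · rintro ⟨v, ⟨hv1, hv2⟩, rfl⟩
        exact ⟨(hker v).1 hv1, v, hv2, rfl⟩
    rw [h1, Subgroup.card_map_of_injective A.subtype_injective, hcardKR]
  · have h0 : (centralizerIn S S ⊔ (commutator S).map S.subtype).subgroupOf A = ψ.ker ⊔ ψ.range := by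
      rw [hS', hZmap, ← Subgroup.map_sup]
      exact Subgroup.comap_map_eq_self_of_injective A.subtype_injective _
    rw [h0]
    have h1 := Subgroup.relIndex_mul_index (le_sup_left : ψ.ker ≤ ψ.ker ⊔ ψ.range)
    rw [Subgroup.relIndex_sup_left, Subgroup.index_ker] at h1
    have h4 := relIndex_mul_card'' (inf_le_right : ψ.ker ⊓ ψ.range ≤ ψ.range)
    rw [Subgroup.inf_relIndex_right, hcardKR] at h4
    have hpos : 0 < ψ.ker.relIndex ψ.range := by
      rcases Nat.eq_zero_or_pos (ψ.ker.relIndex ψ.range) with h | h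
      · rw [h, zero_mul] at h4
        exact absurd h4.symm (Nat.card_pos).ne'
      · exact h
    exact Nat.eq_of_mul_eq_mul_left hpos (h1.trans h4.symm)
  · have hZZ2 : centralizerIn S S ≤ (Subgroup.upperCentralSeries ↥S 2).map S.subtype := by
      intro c hc
      refine mem_map_ucs_two.2 ⟨(mem_centralizerIn.1 hc).1, fun s hs => ?_⟩
      rw [← (mem_centralizerIn.1 hc).2 s hs, mul_inv_cancel_right, mul_inv_cancel]
      exact Subgroup.one_mem _
    have hfZ2 : Finite ((Subgroup.upperCentralSeries ↥S 2).map S.subtype) :=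
      finite_of_le (Subgroup.map_subtype_le _)
    have h1 := card_eq_of_cyclic_quot (p := p) hZZ2 (fun k hk h hh => by
      rw [(mem_centralizerIn.1 hh).2 k (hAS (hZ2A hk)), mul_inv_cancel_right]; exact hh) ht2 htZ htp htd
    have h2 := Subgroup.card_mul_index
      ((centralizerIn S S).subgroupOf ((Subgroup.upperCentralSeries ↥S 2).map S.subtype))
    rw [card_subgroupOf_of_le hZZ2, h1] at h2
    have hfZ : Finite (centralizerIn S S) := finite_of_le centralizerIn_le
    have hpos : 0 < Nat.card (centralizerIn S S) := Nat.card_pos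
    exact Nat.eq_of_mul_eq_mul_left hpos (by rw [h2, mul_comm])
  · intro m hm h3 hle
    obtain ⟨k, rfl⟩ : ∃ k, m = k + 3 := ⟨m - 3, by omega⟩
    have hfZ : Finite (centralizerIn S S) := finite_of_le centralizerIn_le
    have hposZ : 0 < Nat.card (centralizerIn S S) := Nat.card_pos
    have c1 : Nat.card S = Nat.card (centralizerIn S S) * p ^ (k + 3) := by
      rw [← hm, ← card_subgroupOf_of_le (centralizerIn_le : centralizerIn S S ≤ S), Subgroup.card_mul_index]
    have c2 : Nat.card A = Nat.card (centralizerIn S S) * Nat.card ψ.range := by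
      rw [← Subgroup.index_ker, ← hcardker, Subgroup.card_mul_index]
    have c3 : p * Nat.card ψ.range = p ^ (k + 3) := by
      apply Nat.eq_of_mul_eq_mul_left hposZ
      rw [← c1, hcard, c2]; ring
    have c4 : Nat.card ψ.range = p ^ (k + 2) := by
      apply Nat.eq_of_mul_eq_mul_left hp.pos
      rw [c3]; ring
    let Rk : ℕ → Subgroup A := fun n => Nat.rec ⊤ (fun _ H => H.map ψ) n
    have hRs : ∀ n, Rk (n + 1) = (Rk n).map ψ := fun n => rfl
    have ha : ∀ n, (Rk n).map A.subtype ≤ Subgroup.lowerCentralSeries S n := by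
      intro n
      induction n with
      | zero =>
        rintro _ ⟨a, -, rfl⟩
        exact hAS a.2
      | succ n ih =>
        rw [hRs, Subgroup.lowerCentralSeries_succ]
        rintro _ ⟨_, ⟨h, hh, rfl⟩, rfl⟩
        have h1 : (h : Ω) ∈ Subgroup.lowerCentralSeries S n := ih ⟨h, hh, rfl⟩
        have h2 := Subgroup.inv_mem _ (Subgroup.commutator_mem_commutator h1 hx)
        rw [commutatorElement_def] at h2
        have e1 : ((h : Ω) * x * (h : Ω)⁻¹ * x⁻¹)⁻¹ = x * h * x⁻¹ * (h : Ω)⁻¹ := by group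
        rw [e1] at h2
        show ((ψ h : A) : Ω) ∈ _
        rw [hψc]; exact h2
    have hb : ∀ n, Rk (n + 1) ≤ ψ.range := by
      intro n
      rw [hRs]
      rintro _ ⟨h, -, rfl⟩
      exact ⟨h, rfl⟩
    have hc : ∀ n, Nat.card (Rk (n + 1)) ≤ p * Nat.card (Rk (n + 2)) := by
      intro n
      rw [hrel (Rk (n + 1)), ← hRs (n + 1), mul_comm]
      apply Nat.mul_le_mul_right
      rw [← hcardKR]
      exact Subgroup.card_le_of_le (inf_le_inf_left _ (hb n))
    have he : ∀ n, Nat.card ψ.range ≤ p ^ n * Nat.card (Rk (n + 1)) := by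
      intro n
      induction n with
      | zero =>
        rw [pow_zero, one_mul, hRs]
        show _ ≤ Nat.card ((⊤ : Subgroup A).map ψ)
        rw [← MonoidHom.range_eq_map]
      | succ n ih =>
        calc Nat.card ψ.range ≤ p ^ n * Nat.card (Rk (n + 1)) := ih
          _ ≤ p ^ n * (p * Nat.card (Rk (n + 2))) := Nat.mul_le_mul_left _ (hc n)
          _ = p ^ (n + 1) * Nat.card (Rk (n + 1 + 1)) := by ring
    have e2 : k + 3 - 2 = k + 1 := by omega
    rw [e2] at hle
    have hf : Rk (k + 1) ≤ ψ.ker ⊓ ψ.range := by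
      intro u hu
      exact ⟨(hker u).2 (hle (ha (k + 1) ⟨u, hu, rfl⟩)), hb k hu⟩
    have h5 := Subgroup.card_le_of_le hf
    rw [hcardKR] at h5
    have h6 := he k
    rw [c4] at h6
    have h7 : p ^ (k + 2) ≤ p ^ (k + 1) := by
      calc p ^ (k + 2) ≤ p ^ k * Nat.card (Rk (k + 1)) := h6
        _ ≤ p ^ k * p := Nat.mul_le_mul_left _ h5
        _ = p ^ (k + 1) := by ring
    have h8 : p ^ (k + 1) < p ^ (k + 2) := Nat.pow_lt_pow_right hp.one_lt (by omega)
    omega

end FusionSystem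
end Cfsg
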