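import Cfsg.Agent.Fus.CaminaHerzog
import Cfsg.Agent.Fus.Frattini

/-!
Groups in which every `p`-element centralizes a Sylow `p`-subgroup: reduction to simple groups.
-/

set_option autoImplicit false

namespace Cfsg
namespace FusionSystem

open Cfsg.Agent.Fus

variable {Ω : Type*} [Group Ω] {S : Subgroup Ω}

theorem commute_of_normalizes_aux (F : FusionSystem S) [Finite S] {p : ℕ} [Fact p.Prime]
    (hS : IsPGroup p S) (hF : F.IsSaturated p) {E : Subgroup Ω} (hEZ : E ≤ centralizerIn S S)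
    {u g : Ω} (hg : g ∈ S)
    {B : Subgroup Ω} (hBdef : B = Subgroup.zpowers u ⊔ E) (ψ : B →* Ω) (hψ : ψ ∈ F.Hom B)
    (huB : u ∈ B) (hEB : E ≤ B) (f1 : ψ ⟨u, huB⟩ ∈ centralizerIn S S)
    (f2 : ∀ (x : Ω) (hx : x ∈ E), ψ ⟨x, hEB hx⟩ ∈ E) (hgu : g * u * g⁻¹ ∈ B) : g * u = u * g := by
  have hBS : B ≤ S := (F.le_of_mem hψ).1
  have : Finite B := finite_of_le hBS
  have h1 : ∀ y : B, ψ y ∈ centralizerIn S S := by
    have h2 : B ≤ ((centralizerIn S S).comap ψ).map B.subtype := by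
      refine hBdef.le.trans ?_
      apply sup_le
      · rw [Subgroup.zpowers_le]
        exact ⟨⟨u, huB⟩, f1, rfl⟩
      · intro x hx
        exact ⟨⟨x, hEB hx⟩, hEZ (f2 x hx), rfl⟩
    intro y
    obtain ⟨y', hy', hyy⟩ := h2 y.2
    have : y' = y := Subtype.ext hyy
    rw [← this]; exact hy'
  have h3 : ψ.range ≤ centralizerIn S S := by
    rintro _ ⟨y, rfl⟩
    exact h1 y
  have h5 : g ∈ Subgroup.normalizer (B : Set Ω) := by
    apply Subgroup.mem_normalizer_fintype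
    have h6 : B ≤ B.comap (MulAut.conj g).toMonoidHom := by
      refine hBdef.le.trans ?_
      apply sup_le
      · rw [Subgroup.zpowers_le]
        exact hgu
      · intro x hx
        show g * x * g⁻¹ ∈ B
        have := (mem_centralizerIn.1 (hEZ hx)).2 g hg
        rw [this, mul_inv_cancel_right]
        exact hEB hx
    intro y hy
    exact h6 hy
  exact F.commute_of_conj_central hS hF (F.rangeEquiv hψ) (F.isMor_rangeEquiv hψ) h3 hg h5 huB

theorem commute_of_normalizes (F : FusionSystem S) [Finite S] {p : ℕ} [Fact p.Prime]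
    (hS : IsPGroup p S) (hF : F.IsSaturated p)
    (h : ∀ x ∈ S, ∃ z ∈ centralizerIn S S, F.IsConjElt x z) {E : Subgroup Ω} (hE : F.IsNormal E)
    {u g : Ω} (hu : u ∈ S) (hg : g ∈ S) (hgu : g * u * g⁻¹ ∈ Subgroup.zpowers u ⊔ E) :
    g * u = u * g := by
  have hEZ : E ≤ centralizerIn S S := hE.le_center_of_conj h
  obtain ⟨c, hc, φ, hφ, hφc⟩ := h u hu
  obtain ⟨ψ, hψ, hψ1, hψ2⟩ := hE.2 _ φ hφ
  have huB : u ∈ Subgroup.zpowers u ⊔ E :=
    (le_sup_left : _ ≤ Subgroup.zpowers u ⊔ E) (Subgroup.mem_zpowers _)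
  have hEB : E ≤ Subgroup.zpowers u ⊔ E := le_sup_right
  refine F.commute_of_normalizes_aux hS hF hEZ hg rfl ψ hψ huB hEB ?_ ?_ hgu
  · have : ψ ⟨u, huB⟩ = c := by rw [← hφc, ← hψ1]; rfl
    rw [this]; exact hc
  · intro x hx
    have : ψ ⟨x, hEB hx⟩ ∈ (E.subgroupOf (Subgroup.zpowers u ⊔ E)).map ψ :=
      ⟨⟨x, hEB hx⟩, Subgroup.mem_subgroupOf.2 hx, rfl⟩
    rw [hψ2] at this
    exact this

end FusionSystem

namespace Agent
namespace Fus

open Cfsg.FusionSystem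

variable {G : Type*} [Group G]

theorem conj_central_groupFusionSystem [Finite G] {p : ℕ} [Fact p.Prime] (P : Sylow p G)
    (h : ∀ x : G, (∃ k : ℕ, orderOf x = p ^ k) →
      ∃ Q : Sylow p G, (Q : Subgroup G) ≤ Subgroup.centralizer ({x} : Set G)) :
    ∀ x ∈ (P : Subgroup G), ∃ z ∈ centralizerIn (P : Subgroup G) (P : Subgroup G),
      (groupFusionSystem (P : Subgroup G)).IsConjElt x z := by
  intro x hx
  have hxP : IsPGroup p (Subgroup.zpowers x) := P.2.to_le (Subgroup.zpowers_le.2 hx)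
  have hord : ∃ k : ℕ, orderOf x = p ^ k := by
    obtain ⟨k, hk⟩ := P.2 ⟨x, hx⟩
    have hk' : x ^ p ^ k = 1 := congrArg (fun w : (P : Subgroup G) => (w : G)) hk
    obtain ⟨j, -, hj⟩ := (Nat.dvd_prime_pow Fact.out).1 (orderOf_dvd_of_pow_eq_one hk')
    exact ⟨j, hj⟩
  obtain ⟨Q, hQ⟩ := h x hord
  have hxQ : x ∈ Q := mem_sylow_of_le_centralizer Q hxP hQ
  obtain ⟨g, hg⟩ := MulAction.exists_smul_eq G Q P
  have hconj : ∀ q ∈ Q, g * q * g⁻¹ ∈ (P : Subgroup G) := by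
    intro q hq
    rw [← hg, Sylow.coe_subgroup_smul]
    exact ⟨q, hq, rfl⟩
  have hconj' : ∀ y ∈ (P : Subgroup G), ∃ q ∈ Q, y = g * q * g⁻¹ := by
    intro y hy
    rw [← hg, Sylow.coe_subgroup_smul] at hy
    obtain ⟨q, hq, rfl⟩ := hy
    exact ⟨q, hq, rfl⟩
  refine ⟨g * x * g⁻¹, mem_centralizerIn.2 ⟨hconj x hxQ, ?_⟩, conjHom _ g, ?_, rfl⟩
  · intro y hy
    obtain ⟨q, hq, rfl⟩ := hconj' y hy
    have h2 : x * q = q * x := Subgroup.mem_centralizer_iff.1 (hQ hq) x rfl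
    calc g * q * g⁻¹ * (g * x * g⁻¹) = g * (q * x) * g⁻¹ := by group
      _ = g * (x * q) * g⁻¹ := by rw [h2]
      _ = g * x * g⁻¹ * (g * q * g⁻¹) := by group
  · refine ⟨Subgroup.zpowers_le.2 hx, fun y => ?_, g, fun y => rfl⟩
    exact hconj y (Subgroup.zpowers_le.2 hxQ y.2)

/-- If `P ∩ N` is abelian and `P N / N` is abelian for a normal subgroup `N`, then `P` is abelian,
provided all `p`-elements centralize Sylow `p`-subgroups. -/
theorem sylow_comm_of_normal [Finite G] {p : ℕ} [Fact p.Prime] (P : Sylow p G)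
    (h : ∀ x : G, (∃ k : ℕ, orderOf x = p ^ k) →
      ∃ Q : Sylow p G, (Q : Subgroup G) ≤ Subgroup.centralizer ({x} : Set G))
    (N : Subgroup G) [N.Normal]
    (h1 : ∀ x ∈ (P : Subgroup G) ⊓ N, ∀ y ∈ (P : Subgroup G) ⊓ N, x * y = y * x)
    (h2 : ∀ x ∈ (P : Subgroup G), ∀ y ∈ (P : Subgroup G), x * y * x⁻¹ * y⁻¹ ∈ N) :
    ∀ x ∈ (P : Subgroup G), ∀ y ∈ (P : Subgroup G), x * y = y * x := by
  have hF := isSaturated_groupFusionSystem P
  have hc := conj_central_groupFusionSystem P h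
  have hN : (groupFusionSystem (P : Subgroup G)).IsNormal ((P : Subgroup G) ⊓ N) := by
    apply (groupFusionSystem (P : Subgroup G)).isNormal_of_abelian_stronglyClosed P.2 hF
    · refine ⟨inf_le_left, ?_⟩
      rintro R hR φ ⟨-, hφ, g, hg⟩ x
      refine ⟨hφ x, ?_⟩
      rw [hg]
      exact ‹N.Normal›.conj_mem _ (hR x.2).2 g
    · exact ⟨⟨fun x y => Subtype.ext (h1 x x.2 y y.2)⟩⟩
  intro x hx y hy
  refine (groupFusionSystem (P : Subgroup G)).commute_of_normalizes P.2 hF hc hN hy hx ?_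
  have h3 : x * y * x⁻¹ = (x * y * x⁻¹ * y⁻¹) * y := by group
  rw [h3]
  refine Subgroup.mul_mem _ ((le_sup_right : _ ≤ Subgroup.zpowers y ⊔ ((P : Subgroup G) ⊓ N)) ⟨?_, h2 x hx y hy⟩)
    ((le_sup_left : _ ≤ Subgroup.zpowers y ⊔ ((P : Subgroup G) ⊓ N)) (Subgroup.mem_zpowers y))
  exact Subgroup.mul_mem _ (Subgroup.mul_mem _ (Subgroup.mul_mem _ hx hy) (Subgroup.inv_mem _ hx))
    (Subgroup.inv_mem _ hy)

theorem not_dvd_index_of_sylow_le [Finite G] {p : ℕ} [Fact p.Prime] (Q : Sylow p G) {C : Subgroup G}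
    (h : (Q : Subgroup G) ≤ C) : ¬ p ∣ C.index := fun h1 =>
  Q.not_dvd_index (h1.trans (Subgroup.index_dvd_of_le h))

/-- The condition passes to normal subgroups. -/
theorem central_cond_normal [Finite G] {p : ℕ} [Fact p.Prime]
    (h : ∀ x : G, (∃ k : ℕ, orderOf x = p ^ k) → ¬ p ∣ (Subgroup.centralizer ({x} : Set G)).index)
    (N : Subgroup G) [N.Normal] :
    ∀ x : N, (∃ k : ℕ, orderOf x = p ^ k) → ¬ p ∣ (Subgroup.centralizer ({x} : Set N)).index := by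
  intro x hx
  have hx' : ∃ k : ℕ, orderOf (x : G) = p ^ k := by
    obtain ⟨k, hk⟩ := hx
    exact ⟨k, by rw [Subgroup.orderOf_coe, hk]⟩
  obtain ⟨Q, hQ⟩ := exists_sylow_le_of_not_dvd_index _ (h x hx')
  have h1 : IsSylowIn p ((Q : Subgroup G) ⊓ N) N :=
    (isSylowIn_top Q).inf_normal le_top le_top (fun k hk a _ => ‹N.Normal›.conj_mem k hk a)
  obtain ⟨R, hR⟩ := h1
  apply not_dvd_index_of_sylow_le R
  rw [hR]
  intro y hy
  have hy' : (y : G) ∈ (Q : Subgroup G) := (Subgroup.mem_subgroupOf.1 hy).1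
  rw [Subgroup.mem_centralizer_iff]
  intro z hz
  rw [Set.mem_singleton_iff] at hz
  subst hz
  exact Subtype.ext (Subgroup.mem_centralizer_iff.1 (hQ hy') _ rfl)

/-- The condition passes to quotients. -/
theorem central_cond_quotient [Finite G] {p : ℕ} [Fact p.Prime]
    (h : ∀ x : G, (∃ k : ℕ, orderOf x = p ^ k) → ¬ p ∣ (Subgroup.centralizer ({x} : Set G)).index)
    (N : Subgroup G) [N.Normal] :
    ∀ x : G ⧸ N, (∃ k : ℕ, orderOf x = p ^ k) →
      ¬ p ∣ (Subgroup.centralizer ({x} : Set (G ⧸ N))).index := by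
  intro x hx
  obtain ⟨k, hk⟩ := hx
  have h1 : IsPGroup p (Subgroup.zpowers x) := by
    rw [IsPGroup.iff_card]
    exact ⟨k, by rw [Nat.card_zpowers, hk]⟩
  obtain ⟨R, hR⟩ := h1.exists_le_sylow
  obtain ⟨P, rfl⟩ := Sylow.mapSurjective_surjective (QuotientGroup.mk'_surjective N) p R
  have h2 : x ∈ (P : Subgroup G).map (QuotientGroup.mk' N) := hR (Subgroup.mem_zpowers x)
  obtain ⟨g, hg, rfl⟩ := h2
  have hord : ∃ k : ℕ, orderOf g = p ^ k := by
    obtain ⟨k, hk⟩ := P.2 ⟨g, hg⟩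
    have hk' : g ^ p ^ k = 1 := congrArg (fun w : (P : Subgroup G) => (w : G)) hk
    obtain ⟨j, -, hj⟩ := (Nat.dvd_prime_pow Fact.out).1 (orderOf_dvd_of_pow_eq_one hk')
    exact ⟨j, hj⟩
  obtain ⟨Q, hQ⟩ := exists_sylow_le_of_not_dvd_index _ (h g hord)
  apply not_dvd_index_of_sylow_le (Q.mapSurjective (QuotientGroup.mk'_surjective N))
  rw [Sylow.coe_mapSurjective]
  rintro _ ⟨q, hq, rfl⟩
  rw [Subgroup.mem_centralizer_iff]
  intro z hz
  rw [Set.mem_singleton_iff] at hz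
  subst hz
  rw [← map_mul, ← map_mul, Subgroup.mem_centralizer_iff.1 (hQ hq) g rfl]

end Fus
end Agent
end Cfsg
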