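import Cfsg.Agent.Fus.Chain

/-!
Automorphisms of abelian `2`-groups with pairwise distinct invariants.
-/

set_option autoImplicit false

namespace Cfsg
namespace Agent
namespace Fus

theorem zmod_val_of_two_nsmul {b : ℕ} (hb : 1 ≤ b) (z : ZMod (2 ^ b)) (h : 2 • z = 0) :
    z = 0 ∨ z.val = 2 ^ (b - 1) := by
  obtain ⟨c, rfl⟩ : ∃ c, b = c + 1 := ⟨b - 1, by omega⟩
  have h1 : ((2 * z.val : ℕ) : ZMod (2 ^ (c + 1))) = 0 := by
    rw [Nat.cast_mul, ZMod.natCast_zmod_val, ← h, nsmul_eq_mul]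
  rw [ZMod.natCast_eq_zero_iff] at h1
  have h1' : 2 * 2 ^ c ∣ 2 * z.val := by
    have : 2 * 2 ^ c = 2 ^ (c + 1) := (pow_succ' 2 c).symm
    rw [this]; exact h1
  have h2 : 2 ^ c ∣ z.val := Nat.dvd_of_mul_dvd_mul_left (by norm_num) h1'
  obtain ⟨d, hd⟩ := h2
  have h3 : z.val < 2 ^ (c + 1) := ZMod.val_lt z
  have h3' : 2 ^ c * d < 2 ^ c * 2 := by
    have : 2 ^ c * 2 = 2 ^ (c + 1) := (pow_succ 2 c).symm
    rw [this, ← hd]; exact h3
  have h4 : d < 2 := Nat.lt_of_mul_lt_mul_left h3'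
  have h5 : d = 0 ∨ d = 1 := by omega
  rcases h5 with rfl | rfl
  · left
    rw [mul_zero] at hd
    exact (ZMod.val_eq_zero z).1 hd
  · right
    rw [hd, mul_one, Nat.add_sub_cancel]

theorem zmod_eq_of_two_nsmul {b : ℕ} (hb : 1 ≤ b) (z z' : ZMod (2 ^ b)) (h : 2 • z = 0) (h' : 2 • z' = 0)
    (hz : z ≠ 0) (hz' : z' ≠ 0) : z = z' := by
  rcases zmod_val_of_two_nsmul hb z h with h1 | h1
  · exact absurd h1 hz
  rcases zmod_val_of_two_nsmul hb z' h' with h2 | h2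
  · exact absurd h2 hz'
  exact ZMod.val_injective _ (h1.trans h2.symm)

theorem zmod_exists_nsmul {b j : ℕ} (hb : 1 ≤ b) (hbj : b ≠ j + 1) (z : ZMod (2 ^ b)) (h : 2 • z = 0)
    (ht : ∃ t : ZMod (2 ^ b), 2 ^ j • t = z) : ∃ s : ZMod (2 ^ b), 2 ^ (j + 1) • s = z := by
  rcases Nat.lt_or_ge j b with hlt | hge
  · rcases zmod_val_of_two_nsmul hb z h with h1 | h1
    · exact ⟨0, by rw [h1, smul_zero]⟩
    · refine ⟨((2 ^ (b - j - 2) : ℕ) : ZMod (2 ^ b)), ?_⟩
      rw [← ZMod.natCast_zmod_val z, h1, nsmul_eq_mul, ← Nat.cast_mul, ← pow_add]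
      congr 2
      omega
  · obtain ⟨t, rfl⟩ := ht
    refine ⟨0, ?_⟩
    have h1 : ((2 ^ j : ℕ) : ZMod (2 ^ b)) = 0 := by
      rw [ZMod.natCast_eq_zero_iff]
      exact pow_dvd_pow 2 hge
    rw [smul_zero, nsmul_eq_mul, h1, zero_mul]

theorem flag_step {n : ℕ} (a : Fin n → ℕ) (ha : Function.Injective a) (ha1 : ∀ i, 1 ≤ a i) (j : ℕ)
    (u u' : (i : Fin n) → ZMod (2 ^ a i))
    (h2 : 2 • u = 0) (hv : ∃ v : (i : Fin n) → ZMod (2 ^ a i), 2 ^ j • v = u) (h2' : 2 • u' = 0)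
    (hv' : ∃ v : (i : Fin n) → ZMod (2 ^ a i), 2 ^ j • v = u')
    (hn : ¬ ∃ v : (i : Fin n) → ZMod (2 ^ a i), 2 ^ (j + 1) • v = u)
    (hn' : ¬ ∃ v : (i : Fin n) → ZMod (2 ^ a i), 2 ^ (j + 1) • v = u') :
    ∃ v : (i : Fin n) → ZMod (2 ^ a i), 2 ^ (j + 1) • v = u + u' := by
  have hc : ∀ w : (i : Fin n) → ZMod (2 ^ a i), 2 • w = 0 →
      (∃ v : (i : Fin n) → ZMod (2 ^ a i), 2 ^ j • v = w) →
      ∀ i, a i ≠ j + 1 → ∃ s : ZMod (2 ^ a i), 2 ^ (j + 1) • s = w i := by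
    intro w hw ⟨v, hv⟩ i hi
    exact zmod_exists_nsmul (ha1 i) hi (w i) (congrFun hw i) ⟨v i, congrFun hv i⟩
  have hex : ∀ w : (i : Fin n) → ZMod (2 ^ a i), 2 • w = 0 →
      (∃ v : (i : Fin n) → ZMod (2 ^ a i), 2 ^ j • v = w) →
      (¬ ∃ v : (i : Fin n) → ZMod (2 ^ a i), 2 ^ (j + 1) • v = w) → ∃ i, a i = j + 1 ∧ w i ≠ 0 := by
    intro w hw hv hno
    by_contra hcon
    push Not at hcon
    apply hno
    have : ∀ i, ∃ s : ZMod (2 ^ a i), 2 ^ (j + 1) • s = w i := by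
      intro i
      by_cases hi : a i = j + 1
      · exact ⟨0, by rw [hcon i hi, smul_zero]⟩
      · exact hc w hw hv i hi
    choose s hs using this
    exact ⟨s, funext hs⟩
  obtain ⟨i, hi, hui⟩ := hex u h2 hv hn
  obtain ⟨i', hi', hui'⟩ := hex u' h2' hv' hn'
  have hii : i' = i := ha (hi'.trans hi.symm)
  subst hii
  have : ∀ k, ∃ s : ZMod (2 ^ a k), 2 ^ (j + 1) • s = u k + u' k := by
    intro k
    by_cases hk : a k = j + 1
    · have hki : k = i' := ha (hk.trans hi.symm)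
      subst hki
      refine ⟨0, ?_⟩
      have h3 := zmod_eq_of_two_nsmul (ha1 k) (u k) (u' k) (congrFun h2 k) (congrFun h2' k) hui hui'
      have h4 : 2 • u k = 0 := congrFun h2 k
      rw [smul_zero, ← h3, ← two_nsmul, h4]
    · obtain ⟨s, hs⟩ := hc u h2 hv k hk
      obtain ⟨s', hs'⟩ := hc u' h2' hv' k hk
      exact ⟨s + s', by rw [smul_add, hs, hs']⟩
  choose s hs using this
  exact ⟨s, funext hs⟩

/-- An automorphism of odd order of an abelian `2`-group whose socle flag has factors of order at most `2` is trivial. -/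
theorem eq_one_of_odd_of_flag {G : Type*} [CommGroup G] [Finite G] (hG : IsPGroup 2 G)
    (hP1 : ∀ (j : ℕ) (x x' : G), x ^ 2 = 1 → (∃ y, y ^ 2 ^ j = x) → x' ^ 2 = 1 → (∃ y, y ^ 2 ^ j = x') →
      (¬ ∃ y, y ^ 2 ^ (j + 1) = x) → (¬ ∃ y, y ^ 2 ^ (j + 1) = x') → ∃ y, y ^ 2 ^ (j + 1) = x * x')
    (α : MulAut G) {m : ℕ} (hm : Odd m) (hα : α ^ m = 1) : α = 1 := by
  obtain ⟨N, hN⟩ := IsPGroup.iff_card.1 hG
  have hexp : ∀ y : G, y ^ 2 ^ N = 1 := fun y => hN ▸ pow_card_eq_one'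
  have step1 : ∀ d j : ℕ, j + d = N → ∀ x : G, x ^ 2 = 1 → (∃ y, y ^ 2 ^ j = x) → α x = x := by
    intro d
    induction d with
    | zero =>
      intro j hj x _ ⟨y, hy⟩
      rw [add_zero] at hj
      rw [← hy, hj, hexp, map_one]
    | succ d ih =>
      intro j hj x hx hy
      by_cases hx1 : ∃ y, y ^ 2 ^ (j + 1) = x
      · exact ih (j + 1) (by omega) x hx hx1
      have hαx : (α x) ^ 2 = 1 := by rw [← map_pow, hx, map_one]
      have hαy : ∃ y, y ^ 2 ^ j = α x := by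
        obtain ⟨y, hy⟩ := hy
        exact ⟨α y, by rw [← map_pow, hy]⟩
      have hαx1 : ¬ ∃ y, y ^ 2 ^ (j + 1) = α x := by
        rintro ⟨y, hy⟩
        apply hx1
        refine ⟨α.symm y, ?_⟩
        rw [← map_pow, hy, MulEquiv.symm_apply_apply]
      have hz := hP1 j x (α x) hx hy hαx hαy hx1 hαx1
      have hz2 : (x * α x) ^ 2 = 1 := by rw [mul_pow, hx, hαx, one_mul]
      have hfix := ih (j + 1) (by omega) (x * α x) hz2 hz
      have hxz : α x = x * (x * α x) := by rw [← mul_assoc, ← sq, hx, one_mul]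
      have h1 := pow_apply_of_fixed α x (x * α x) hxz hfix m
      rw [hα, MulAut.one_apply] at h1
      obtain ⟨c, hc⟩ := hm
      rw [hc, pow_succ, pow_mul, hz2, one_pow, one_mul] at h1
      rw [hxz]
      exact h1.symm
  have step2 : ∀ i : ℕ, ∀ x : G, x ^ 2 ^ i = 1 → α x = x := by
    intro i
    induction i with
    | zero =>
      intro x hx
      rw [pow_zero, pow_one] at hx
      rw [hx, map_one]
    | succ i ih =>
      intro x hx
      have hw : α (x ^ 2 ^ i) = x ^ 2 ^ i := by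
        refine step1 N 0 (zero_add N) _ ?_ ⟨x ^ 2 ^ i, by rw [pow_zero, pow_one]⟩
        rw [← pow_mul, ← pow_succ]; exact hx
      have hz : (x⁻¹ * α x) ^ 2 ^ i = 1 := by
        rw [mul_pow, inv_pow, ← map_pow, hw, inv_mul_cancel]
      have hfix := ih _ hz
      have hxz : α x = x * (x⁻¹ * α x) := by rw [mul_inv_cancel_left]
      have h1 := pow_apply_of_fixed α x (x⁻¹ * α x) hxz hfix m
      rw [hα, MulAut.one_apply] at h1
      have h2 : (x⁻¹ * α x) ^ m = 1 := by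
        have := h1.symm
        rwa [mul_eq_left] at this
      have h3 : orderOf (x⁻¹ * α x) ∣ Nat.gcd m (2 ^ i) :=
        Nat.dvd_gcd (orderOf_dvd_of_pow_eq_one h2) (orderOf_dvd_of_pow_eq_one hz)
      have h4 : Nat.gcd m (2 ^ i) = 1 := by
        apply Nat.Coprime.pow_right
        exact (Nat.coprime_two_right).2 hm
      rw [h4, Nat.dvd_one, orderOf_eq_one_iff] at h3
      rw [hxz, h3, mul_one]
  ext x
  exact step2 N x (hexp x)

/-- The automorphism group of an abelian `2`-group with pairwise distinct invariants is a `2`-group. -/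
theorem exists_pow_eq_one_of_distinct {n : ℕ} (a : Fin n → ℕ) (ha : Function.Injective a) (ha1 : ∀ i, 1 ≤ a i)
    (α : MulAut (Multiplicative ((i : Fin n) → ZMod (2 ^ a i)))) : ∃ k : ℕ, α ^ 2 ^ k = 1 := by
  have hfin : Finite (Multiplicative ((i : Fin n) → ZMod (2 ^ a i))) :=
    Finite.of_equiv _ Multiplicative.ofAdd
  have hG : IsPGroup 2 (Multiplicative ((i : Fin n) → ZMod (2 ^ a i))) := by
    intro x
    refine ⟨∑ i, a i, ?_⟩
    apply Multiplicative.toAdd.injective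
    rw [toAdd_pow, toAdd_one]
    funext i
    have h1 : ((2 ^ ∑ i, a i : ℕ) : ZMod (2 ^ a i)) = 0 := by
      rw [ZMod.natCast_eq_zero_iff]
      exact pow_dvd_pow 2 (Finset.single_le_sum (fun _ _ => Nat.zero_le _) (Finset.mem_univ i))
    show (2 ^ ∑ i, a i) • (Multiplicative.toAdd x i) = 0
    rw [nsmul_eq_mul, h1, zero_mul]
  obtain ⟨k, m, hm, hkm⟩ := Nat.exists_eq_two_pow_mul_odd (orderOf_pos α).ne'
  refine ⟨k, ?_⟩
  refine eq_one_of_odd_of_flag hG ?_ (α ^ 2 ^ k) hm ?_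
  · intro j x x' hx hy hx' hy' hn hn'
    have key := flag_step a ha ha1 j (Multiplicative.toAdd x) (Multiplicative.toAdd x')
      (by rw [← toAdd_pow, hx, toAdd_one])
      (by obtain ⟨y, hy⟩ := hy; exact ⟨Multiplicative.toAdd y, by rw [← toAdd_pow, hy]⟩)
      (by rw [← toAdd_pow, hx', toAdd_one])
      (by obtain ⟨y, hy⟩ := hy'; exact ⟨Multiplicative.toAdd y, by rw [← toAdd_pow, hy]⟩)
      (by
        rintro ⟨v, hv⟩
        exact hn ⟨Multiplicative.ofAdd v, by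
          apply Multiplicative.toAdd.injective
          rw [toAdd_pow]; exact hv⟩)
      (by
        rintro ⟨v, hv⟩
        exact hn' ⟨Multiplicative.ofAdd v, by
          apply Multiplicative.toAdd.injective
          rw [toAdd_pow]; exact hv⟩)
    obtain ⟨v, hv⟩ := key
    exact ⟨Multiplicative.ofAdd v, by
      apply Multiplicative.toAdd.injective
      rw [toAdd_pow, toAdd_mul]; exact hv⟩
  · rw [← pow_mul, ← hkm, pow_orderOf_eq_one]

end Fus
end Agent
end Cfsg
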