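import Cfsg.Agent.Fus.ExtraEss

/-!
Essential subgroups and chains `1 ≤ W ≤ E`: a general non-existence criterion.
-/

set_option autoImplicit false

namespace Cfsg.Agent.Fus

theorem isPGroup_chainStab' {M : Type*} [Group M] {p k : ℕ} (A : Subgroup (MulAut M)) {W : Subgroup M}
    (hW : ∀ w ∈ W, w ^ p ^ k = 1) : IsPGroup p (chainStab A W) := by
  rintro ⟨χ, -, h2, h3⟩
  refine ⟨k, Subtype.ext ?_⟩
  ext e
  show (χ ^ p ^ k) e = e
  rw [pow_apply_chain h2 e (h3 e), hW _ (h3 e), mul_one]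

theorem mem_iff_of_forall_mem {M : Type*} [Group M] [Finite M] (ρ : MulAut M) (W : Subgroup M)
    (h : ∀ e ∈ W, ρ e ∈ W) : ∀ e, e ∈ W ↔ ρ e ∈ W := by
  intro e
  refine ⟨h e, fun he => ?_⟩
  have h1 : W.map ρ.toMonoidHom ≤ W := by
    rintro _ ⟨w, hw, rfl⟩
    exact h w hw
  have h2 : W.map ρ.toMonoidHom = W :=
    Subgroup.eq_of_le_of_card_ge h1 (by rw [Subgroup.card_map_of_injective ρ.injective])
  rw [← h2] at he
  obtain ⟨w, hw, hwe⟩ := he
  have : w = e := ρ.injective hwe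
  rwa [← this]

end Cfsg.Agent.Fus

namespace Cfsg
namespace FusionSystem

open Cfsg.Agent.Fus

variable {Ω : Type*} [Group Ω] {S : Subgroup Ω} [Finite S]

theorem IsEssential.false_of_chain {F : FusionSystem S} {p : ℕ} [Fact p.Prime] (hS : IsPGroup p S)
    (hF : F.IsSaturated p) {E : Subgroup Ω} (hE : F.IsEssential p E) (W : Subgroup E)
    (hU : ∀ u ∈ autInducedBy S E, ∀ e, e ∈ W ↔ u e ∈ W)
    {x₀ : MulAut E} (hx₀ : x₀ ∈ chainStab (F.autGroup E) W)
    (hx₀I : x₀ ∉ (autInducedBy E E : Set (MulAut E)))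
    (hcase : ∀ a ∈ F.autGroup E, ∃ r ∈ autInducedBy S E, r ∉ (autInducedBy E E : Set (MulAut E)) ∧
      ∀ e, e ∈ W ↔ (a⁻¹ * r * a⁻¹⁻¹) e ∈ W) : False := by
  have hES : E ≤ S := hE.1.1
  have hfE : Finite E := finite_of_le hES
  have hfn := hE.2.1
  obtain ⟨-, haut, hrec⟩ := hF.fullyNormalized F hS hfn
  have hsyl := haut.isSylowIn
  have hUA := F.autInducedBy_le_autGroup hES
  obtain ⟨k, hk⟩ := IsPGroup.iff_card.1 (isPGroup_of_le hS hES)
  have hKp := isPGroup_chainStab' (p := p) (k := k) (F.autGroup E) (W := W)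
    (fun w _ => by rw [← hk]; exact pow_card_eq_one')
  have hKU : chainStab (F.autGroup E) W ≤ autInducedBy S E :=
    sylowIn_le_of_normalizes hsyl hUA (chainStab_le _ _) hKp
      (fun u hu => mem_normalizer_chainStab (hUA hu) (hU u hu))
  obtain ⟨H, hHdef⟩ : ∃ H : Subgroup (MulAut E), H = Subgroup.closure {α : MulAut E | ∃ (Q : Subgroup Ω)
      (hPQ : E < Q) (φ : Q →* Ω), φ ∈ F.Hom Q ∧ ∀ x : E, φ (Subgroup.inclusion hPQ.le x) = α x} := ⟨_, rfl⟩
  have hH : ∀ a ∈ F.autGroup E, (∃ t ∈ autInducedBy S E, t ∉ (autInducedBy E E : Set (MulAut E)) ∧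
      a * t * a⁻¹ ∈ autInducedBy S E) → a ∈ H := by
    intro a ha h
    rw [hHdef]
    exact F.mem_closure_extendable hES hrec ha h
  have hall : F.autGroup E ≤ H := by
    intro a ha
    obtain ⟨r, hrU, hrI, hst⟩ := hcase a ha
    have hρA : a⁻¹ * r * a⁻¹⁻¹ ∈ F.autGroup E :=
      Subgroup.mul_mem _ (Subgroup.mul_mem _ (Subgroup.inv_mem _ ha) (hUA hrU))
        (Subgroup.inv_mem _ (Subgroup.inv_mem _ ha))
    have hinv : a⁻¹ ∈ H := mem_of_sylow_connected _ hsyl hUA hH hKU hx₀ hx₀I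
      (Subgroup.inv_mem _ ha) hrU hrI (mem_normalizer_chainStab hρA hst)
    have := H.inv_mem hinv
    rwa [inv_inv] at this
  rcases F.extendable_aut_dichotomy hS hF (lt_of_le_of_ne hES (IsEssential.ne_self hS hF hE)) hfn H hHdef with ⟨h, -⟩ | ⟨-, hN, hemb⟩
  · exact h hE
  · apply hemb.2.1
    have h1 : H.subgroupOf (F.autGroup E) = ⊤ := by
      rw [Subgroup.subgroupOf_eq_top]; exact hall
    rw [h1, Subgroup.map_top_of_surjective _ (QuotientGroup.mk'_surjective _)]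

end FusionSystem
end Cfsg
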