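import Cfsg.Agent.Fus.EssChain

/-!
Chain stabilizers of a normal subgroup of index `p`: stabilizing another conjugate of it.
-/

set_option autoImplicit false

namespace Cfsg.Agent.Fus

variable {M : Type*} [Group M] [Finite M] {p : ℕ} [Fact p.Prime]

theorem stab_conj_of_forall_mem {W : Subgroup M} (a r : MulAut M)
    (h : ∀ e ∈ W.map a.toMonoidHom, r e ∈ W.map a.toMonoidHom) :
    ∀ e, e ∈ W ↔ (a⁻¹ * r * a⁻¹⁻¹) e ∈ W := by
  apply mem_iff_of_forall_mem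
  intro e he
  rw [inv_inv]
  show a⁻¹ (r (a e)) ∈ W
  obtain ⟨w, hw, hwe⟩ := h (a e) ⟨e, he, rfl⟩
  have : r (a e) = a w := hwe.symm
  rw [this, MulAut.inv_apply_self]
  exact hw

theorem exists_stab_of_chain {G : Subgroup (MulAut M)} {W : Subgroup M} (hWn : W.Normal)
    (hcard : Nat.card M = p * Nat.card W) (a : MulAut M) {r₁ r₂ : MulAut M}
    (h₁ : r₁ ∈ chainStab G W) (h₂ : r₂ ∈ chainStab G W) :
    (∀ e, e ∈ W ↔ (a⁻¹ * r₁ * a⁻¹⁻¹) e ∈ W) ∨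
      ((∀ e, e ∈ W ↔ (a⁻¹ * r₁ ^ p * a⁻¹⁻¹) e ∈ W) ∧
        ∃ j : ℤ, ∀ e, e ∈ W ↔ (a⁻¹ * (r₂ * r₁ ^ (-j)) * a⁻¹⁻¹) e ∈ W) := by
  obtain ⟨W₁, hW₁⟩ : ∃ W₁ : Subgroup M, W₁ = W.map a.toMonoidHom := ⟨_, rfl⟩
  have hW₁n : W₁.Normal := by
    rw [hW₁]
    exact hWn.map _ a.surjective
  have hcard₁ : Nat.card M = p * Nat.card W₁ := by
    rw [hW₁, Subgroup.card_map_of_injective a.injective]; exact hcard
  by_cases hle : W₁ ≤ W
  · left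
    apply stab_conj_of_forall_mem
    rw [← hW₁]
    intro e he
    rw [h₁.2.1 e (hle he)]; exact he
  obtain ⟨y, hy₁, hyW⟩ : ∃ y ∈ W₁, y ∉ W := by
    by_contra hcon
    push Not at hcon
    exact hle hcon
  have hd := (exists_zpow_mul_of_card (p := p) (H := W) (K := ⊤) le_top
    (fun k _ w hw => hWn.conj_mem w hw k) (by rw [Subgroup.card_top]; exact hcard)
    (Subgroup.mem_top y) hyW).1
  -- criterion
  have crit : ∀ r ∈ chainStab G W, y⁻¹ * r y ∈ W₁ → ∀ e, e ∈ W ↔ (a⁻¹ * r * a⁻¹⁻¹) e ∈ W := by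
    intro r hr hry
    apply stab_conj_of_forall_mem
    rw [← hW₁]
    intro e he
    obtain ⟨j, d, hd', rfl⟩ := hd e (Subgroup.mem_top e)
    have hdW₁ : d ∈ W₁ := by
      have := W₁.mul_mem (W₁.inv_mem (W₁.zpow_mem hy₁ j)) he
      rwa [inv_mul_cancel_left] at this
    have hry' : r y ∈ W₁ := by
      have := W₁.mul_mem hy₁ hry
      rwa [mul_inv_cancel_left] at this
    rw [map_mul, map_zpow, hr.2.1 d hd']
    exact W₁.mul_mem (W₁.zpow_mem hry' j) hdW₁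
  let Θ : chainStab G W →* M := MonoidHom.mk' (fun r => y⁻¹ * (r : MulAut M) y) (by
    intro r s
    show y⁻¹ * (r : MulAut M) ((s : MulAut M) y) = y⁻¹ * (r : MulAut M) y * (y⁻¹ * (s : MulAut M) y)
    have h1 : (s : MulAut M) y = y * (y⁻¹ * (s : MulAut M) y) := by rw [mul_inv_cancel_left]
    have h2 := r.2.2.1 _ (s.2.2.2 y)
    calc y⁻¹ * (r : MulAut M) ((s : MulAut M) y)
        = y⁻¹ * (r : MulAut M) (y * (y⁻¹ * (s : MulAut M) y)) := by rw [← h1]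
      _ = y⁻¹ * ((r : MulAut M) y * (y⁻¹ * (s : MulAut M) y)) := by rw [map_mul, h2]
      _ = _ := by rw [mul_assoc])
  have hΘ : ∀ r : chainStab G W, Θ r = y⁻¹ * (r : MulAut M) y := fun r => rfl
  by_cases ht : y⁻¹ * r₁ y ∈ W₁
  · left; exact crit r₁ h₁ ht
  right
  obtain ⟨hd₁, hd₂⟩ := exists_zpow_mul_of_card (p := p) (H := W₁) (K := ⊤) le_top
    (fun k _ w hw => hW₁n.conj_mem w hw k) (by rw [Subgroup.card_top]; exact hcard₁)
    (Subgroup.mem_top (y⁻¹ * r₁ y)) ht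
  constructor
  · apply crit _ (Subgroup.pow_mem _ h₁ p)
    have h3 : Θ (⟨r₁, h₁⟩ ^ p) = (y⁻¹ * r₁ y) ^ p := by rw [map_pow]; rfl
    rw [hΘ] at h3
    have h4 : (((⟨r₁, h₁⟩ : chainStab G W) ^ p : chainStab G W) : MulAut M) = r₁ ^ p := rfl
    rw [h4] at h3
    rw [h3]
    exact hd₂ _ (Subgroup.mem_top _)
  · obtain ⟨j, d, hdW, hjd⟩ := hd₁ (y⁻¹ * r₂ y) (Subgroup.mem_top _)
    refine ⟨j, crit _ (Subgroup.mul_mem _ h₂ (Subgroup.zpow_mem _ h₁ _)) ?_⟩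
    have h3 : Θ (⟨r₂, h₂⟩ * ⟨r₁, h₁⟩ ^ (-j)) = (y⁻¹ * r₂ y) * (y⁻¹ * r₁ y) ^ (-j) := by
      rw [map_mul, map_zpow]; rfl
    rw [hΘ] at h3
    have h4 : (((⟨r₂, h₂⟩ : chainStab G W) * (⟨r₁, h₁⟩ : chainStab G W) ^ (-j) : chainStab G W) : MulAut M)
        = r₂ * r₁ ^ (-j) := rfl
    rw [h4] at h3
    rw [h3, hjd, zpow_neg]
    exact hW₁n.conj_mem d hdW _

end Cfsg.Agent.Fus
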