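import Mathlib

/-!
More group-theoretic lemmas for S5234: powers of an automorphism which is "minus a transvection".
-/

set_option autoImplicit false

namespace Cfsg.Agent.Fus

theorem zpow_eq_one_of_zpow_eq_one {V : Type*} [Group V] {p : ℕ} (hp : p.Prime) {w v : V} (hw1 : w ≠ 1)
    (hw : w ^ p = 1) (hv : v ^ p = 1) {j : ℤ} (h : w ^ j = 1) : v ^ j = 1 := by
  have : Fact p.Prime := ⟨hp⟩
  have h1 : orderOf w = p := orderOf_eq_prime hw hw1
  have h2 : (p : ℤ) ∣ j := by rw [← h1]; exact orderOf_dvd_iff_zpow_eq_one.2 h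
  obtain ⟨t, rfl⟩ := h2
  rw [zpow_mul, zpow_natCast, hv, one_zpow]

theorem pow_odd_apply_eq_inv {V : Type*} [CommGroup V] {p : ℕ} (hodd : Odd p) (h : MulAut V) (m c : V)
    (hm : h m = m⁻¹ * c) (hc : h c = c⁻¹) (hcp : c ^ p = 1) : (h ^ p) m = m⁻¹ := by
  have key : ∀ n : ℕ, (h ^ (2 * n)) m = m * (c⁻¹) ^ (2 * n) ∧ (h ^ (2 * n + 1)) m = m⁻¹ * c ^ (2 * n + 1) := by
    intro n
    induction n with
    | zero => exact ⟨by simp, by simpa using hm⟩
    | succ n ih =>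
      have h1 : (h ^ (2 * (n + 1))) m = m * (c⁻¹) ^ (2 * (n + 1)) := by
        have e : 2 * (n + 1) = 1 + (2 * n + 1) := by ring
        rw [e, pow_add, pow_one, MulAut.mul_apply, ih.2, map_mul, map_inv, map_pow, hm, hc, mul_inv, inv_inv,
          pow_add (c⁻¹) 1, pow_one, mul_assoc]
      refine ⟨h1, ?_⟩
      have e' : 2 * (n + 1) + 1 = 1 + 2 * (n + 1) := by ring
      rw [e', pow_add, pow_one, MulAut.mul_apply, h1, map_mul, map_pow, map_inv, hm, hc, inv_inv,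
        pow_add c 1, pow_one, mul_assoc]
  obtain ⟨k, rfl⟩ := hodd
  rw [(key k).2, hcp, mul_one]

theorem pow_prime_eq_inv_comm {V : Type*} [CommGroup V] {p : ℕ} (hodd : Odd p) (hexp : ∀ m : V, m ^ p = 1)
    (h : MulAut V) (z y : V) (a : ℤ) (hz : h z = z⁻¹) (hy : h y = z ^ a * y⁻¹)
    (hgen : ∀ m : V, ∃ i j : ℤ, m = z ^ i * y ^ j) : ∀ m : V, (h ^ p) m = m⁻¹ := by
  have h1 : (h ^ p) z = z⁻¹ := pow_odd_apply_eq_inv hodd h z 1 (by rw [hz, mul_one]) (by simp) (one_pow _)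
  have h2 : (h ^ p) y = y⁻¹ := pow_odd_apply_eq_inv hodd h y (z ^ a) (by rw [hy, mul_comm])
    (by rw [map_zpow, hz, inv_zpow]) (hexp _)
  intro m
  obtain ⟨i, j, rfl⟩ := hgen m
  rw [map_mul, map_zpow, map_zpow, h1, h2, mul_inv, inv_zpow, inv_zpow]

theorem pow_prime_eq_inv {V : Type*} [Group V] (hc : ∀ a b : V, a * b = b * a) {p : ℕ} (hodd : Odd p)
    (hexp : ∀ m : V, m ^ p = 1)
    (h : MulAut V) (z y : V) (a : ℤ) (hz : h z = z⁻¹) (hy : h y = z ^ a * y⁻¹)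
    (hgen : ∀ m : V, ∃ i j : ℤ, m = z ^ i * y ^ j) : ∀ m : V, (h ^ p) m = m⁻¹ := by
  let _ : CommGroup V := { ‹Group V› with mul_comm := hc }
  exact pow_prime_eq_inv_comm hodd hexp h z y a hz hy hgen

end Cfsg.Agent.Fus
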