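import Cfsg.Agent.Fus.GenExtra
import Cfsg.Agent.Fus.MetaGrp
import Cfsg.Agent.Fus.MetaGrp2

/-!
S5234, base step: for a non-abelian strongly closed metacyclic subgroup `P` (`p` odd),
`Ω₁(Z(P))` is strongly closed.
-/

set_option autoImplicit false

namespace Cfsg
namespace FusionSystem

open Cfsg.Agent.Fus Cfsg.Agent.Lib.Helper27

/-- `Ω₁(Z(P))`. -/
def omegaCenter {Ω : Type*} [Group Ω] (p : ℕ) (P : Subgroup Ω) : Subgroup Ω where
  carrier := {x | x ∈ P ∧ x ^ p = 1 ∧ ∀ g ∈ P, g * x = x * g}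
  one_mem' := ⟨P.one_mem, one_pow _, fun g _ => by simp⟩
  mul_mem' := by
    rintro a b ⟨ha, hap, hac⟩ ⟨hb, hbp, hbc⟩
    refine ⟨P.mul_mem ha hb, ?_, fun g hg => ?_⟩
    · have h1 : Commute a b := (hac b hb).symm
      rw [h1.mul_pow, hap, hbp, one_mul]
    · rw [← mul_assoc, hac g hg, mul_assoc, hbc g hg, mul_assoc]
  inv_mem' := by
    rintro a ⟨ha, hap, hac⟩
    refine ⟨P.inv_mem ha, by rw [inv_pow, hap, inv_one], fun g hg => ?_⟩
    have h1 : Commute g a := hac g hg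
    exact h1.inv_right.eq

variable {Ω : Type*} [Group Ω] {S : Subgroup Ω} [Finite S] {p : ℕ} [Fact p.Prime]

theorem omegaCenter_stronglyClosed (hS : IsPGroup p S) (F : FusionSystem S) (hF : F.IsSaturated p)
    {P : Subgroup Ω} (hP : F.StronglyClosed P) (hp2 : p ≠ 2) (hm : Cfsg.IsMetacyclic P)
    (hnab : ∃ a ∈ P, ∃ b ∈ P, a * b ≠ b * a) : F.StronglyClosed (omegaCenter p P) := by
  have hp : p.Prime := Fact.out
  have hPS := hP.1
  have : Finite P := finite_of_le hPS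
  have hPp : IsPGroup p P := isPGroup_of_le hS hPS
  have hnc : ¬ IsCyclic P := by
    intro hc
    obtain ⟨a, ha, b, hb, hab⟩ := hnab
    have hcm : IsMulCommutative P := IsCyclic.isMulCommutative
    have h1 := hcm.is_comm.comm ⟨a, ha⟩ ⟨b, hb⟩
    exact hab (congrArg Subtype.val h1)
  obtain ⟨hexp, hcard⟩ := Cfsg.H1.omega_metacyclic hp2 hPp hm hnc
  set Vp : Subgroup P := Subgroup.closure {x : P | x ^ p = 1} with hVp
  set V : Subgroup Ω := Vp.map P.subtype with hV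
  have hmemV : ∀ g, g ∈ V ↔ g ∈ P ∧ g ^ p = 1 := by
    intro g
    constructor
    · rintro ⟨x, hx, rfl⟩
      exact ⟨x.2, congrArg Subtype.val (hexp x hx)⟩
    · rintro ⟨hg, hgp⟩
      exact ⟨⟨g, hg⟩, Subgroup.subset_closure (Subtype.ext hgp), rfl⟩
  have hVP : V ≤ P := fun g hg => ((hmemV g).1 hg).1
  have hVS : V ≤ S := hVP.trans hPS
  have : Finite V := finite_of_le hVS
  have hVcard : Nat.card V = p ^ 2 := by
    rw [← hcard]
    exact Nat.card_congr (Vp.equivMapOfInjective _ P.subtype_injective).symm.toEquiv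
  have hVexp : ∀ m : V, m ^ p = 1 := fun m => Subtype.ext ((hmemV m).1 m.2).2
  have hVc : ∀ a c : V, a * c = c * a :=
    (IsPGroup.isMulCommutative_of_card_eq_prime_sq hVcard).is_comm.comm
  have hVsc : F.StronglyClosed V := by
    refine ⟨hVS, fun R hR φ' hφ' r => (hmemV _).2 ⟨hP.2 R (hR.trans hVP) φ' hφ' r, ?_⟩⟩
    have h1 : r ^ p = 1 := Subtype.ext ((hmemV r).1 (hR r.2)).2
    rw [← map_pow, h1, map_one]
  have hVn : F.IsNormal V := F.isNormal_of_abelian_stronglyClosed hS hF hVsc ⟨⟨hVc⟩⟩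
  set X := omegaCenter p P with hX
  have hXV : X ≤ V := fun x hx => (hmemV x).2 ⟨hx.1, hx.2.1⟩
  by_contra hnsc
  have h1 : ∃ (R : Subgroup Ω) (_ : R ≤ X) (φ : R →* Ω) (_ : φ ∈ F.Hom R) (r : R), φ r ∉ X := by
    by_contra hcon
    push Not at hcon
    exact hnsc ⟨hXV.trans hVS, hcon⟩
  obtain ⟨R, hR, φ, hφ, r, hr⟩ := h1
  obtain ⟨γ, hγ, hγx⟩ := hVn.exists_aut_extend (hR.trans hXV) hφ
  set rV : V := Subgroup.inclusion (hR.trans hXV) r with hrV
  set yV : V := γ rV with hyV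
  have hyφ : (yV : Ω) = φ r := hγx r
  have hyX : (yV : Ω) ∉ X := by rw [hyφ]; exact hr
  have hrX : (rV : Ω) ∈ X := hR r.2
  have hrV1 : rV ≠ 1 := by
    intro h1
    apply hyX
    rw [hyV, h1, map_one]
    exact X.one_mem
  have hyr : yV ∉ Subgroup.zpowers rV := by
    intro h1
    obtain ⟨k, hk⟩ := Subgroup.mem_zpowers_iff.1 h1
    apply hyX
    rw [← hk, Subgroup.coe_zpow]
    exact X.zpow_mem hrX k
  have hgen := exists_zpow_mul_zpow hVc hVcard hVexp rV yV hrV1 hyr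
  have h2 : ∃ b ∈ P, b * (yV : Ω) ≠ yV * b := by
    by_contra hcon
    push Not at hcon
    exact hyX ⟨hVP yV.2, ((hmemV _).1 yV.2).2, hcon⟩
  obtain ⟨b, hb, hby⟩ := h2
  have hbS : b ∈ S := hPS hb
  have hbN : b ∈ Subgroup.normalizer (V : Set Ω) := hVsc.le_normalizer hbS
  set u : MulAut V := conjAut b hbN with hu_def
  have huF : u ∈ F.autGroup V := F.autInducedBy_le_autGroup hVS (conjAut_mem hbN hbS)
  have hucoe : ∀ m : V, ((u m : V) : Ω) = b * m * b⁻¹ := fun m => rfl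
  have hur : u rV = rV := by
    apply Subtype.ext
    rw [hucoe, hrX.2.2 b hb, mul_inv_cancel_right]
  set zV : V := yV⁻¹ * u yV with hzV
  have huy : u yV = yV * zV := by rw [hzV, mul_inv_cancel_left]
  have hz1 : zV ≠ 1 := by
    intro h1
    rw [h1, mul_one] at huy
    apply hby
    have h3 := congrArg Subtype.val huy
    rw [hucoe] at h3
    calc b * (yV : Ω) = b * (yV : Ω) * b⁻¹ * b := by group
      _ = yV * b := by rw [h3]
  have hu2 : ∀ i j : ℤ, u (rV ^ i * yV ^ j) = rV ^ i * yV ^ j * zV ^ j := by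
    intro i j
    have h3 : Commute yV zV := hVc _ _
    rw [map_mul, map_zpow, map_zpow, hur, huy, h3.mul_zpow, mul_assoc]
  have hu : ∀ m : V, ∃ i : ℤ, u m = m * zV ^ i := by
    intro m
    obtain ⟨i, j, rfl⟩ := hgen m
    exact ⟨j, hu2 i j⟩
  have huz : u zV = zV := by
    set Z : Subgroup Ω := Subgroup.zpowers (zV : Ω) with hZ
    have hZS : Z ≤ S := Subgroup.zpowers_le.2 (hVS zV.2)
    have hz1' : (zV : Ω) ≠ 1 := fun h => hz1 (Subtype.ext h)
    have h0 : Nat.card (Z.subgroupOf S) = p := by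
      rw [Nat.card_congr (Subgroup.subgroupOfEquivOfLe hZS).toEquiv, hZ, Nat.card_zpowers]
      exact orderOf_eq_prime ((hmemV _).1 zV.2).2 hz1'
    have h1 := Cfsg.Agent.S3741.normalizer_le_centralizer_of_card_le hS (Z.subgroupOf S) h0.le
    have h2 : (⟨b, hbS⟩ : S) ∈ Subgroup.normalizer ((Z.subgroupOf S : Subgroup S) : Set S) := by
      apply Subgroup.mem_normalizer_fintype
      intro w hw
      obtain ⟨k, hk⟩ := Subgroup.mem_zpowers_iff.1 (Subgroup.mem_subgroupOf.1 hw)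
      apply Subgroup.mem_subgroupOf.2
      show b * (w : Ω) * b⁻¹ ∈ Z
      obtain ⟨i, hi⟩ := hu zV
      have h3 : b * (zV : Ω) * b⁻¹ = zV * (zV : Ω) ^ i := by
        rw [← hucoe, hi]
        simp
      rw [← hk, ← conj_zpow, h3]
      exact Z.zpow_mem (Z.mul_mem (Subgroup.mem_zpowers _) (Z.zpow_mem (Subgroup.mem_zpowers _) i)) k
    have h3 := Subgroup.mem_centralizer_iff.1 (h1 h2) ⟨zV, hVS zV.2⟩
      (Subgroup.mem_subgroupOf.2 (Subgroup.mem_zpowers _))
    have h4 : (zV : Ω) * b = b * zV := congrArg Subtype.val h3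
    apply Subtype.ext
    rw [hucoe, ← h4, mul_inv_cancel_right]
  obtain ⟨i0, j0, hz0⟩ := hgen zV
  have hzr : zV = rV ^ i0 := by
    have h3 := hu2 i0 j0
    rw [← hz0, huz] at h3
    have h4 : zV ^ j0 = 1 := by
      have h5 : zV * 1 = zV * zV ^ j0 := by rw [mul_one]; exact h3
      exact (mul_left_cancel h5).symm
    rw [hz0, zpow_eq_one_of_zpow_eq_one hp hz1 (hVexp _) (hVexp yV) h4, mul_one]
  have hγz : γ zV = yV ^ i0 := by rw [hzr, map_zpow]
  set u' : MulAut V := γ * u * γ⁻¹ with hu'_def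
  have hu'F : u' ∈ F.autGroup V := Subgroup.mul_mem _ (Subgroup.mul_mem _ hγ huF) (Subgroup.inv_mem _ hγ)
  have hu' : ∀ m : V, ∃ j : ℤ, u' m = m * yV ^ j := by
    intro m
    obtain ⟨i, hi⟩ := hu (γ⁻¹ m)
    refine ⟨i0 * i, ?_⟩
    show γ (u (γ⁻¹ m)) = _
    rw [hi, map_mul, map_zpow, hγz, MulAut.apply_inv_self, zpow_mul]
  have hu'y : u' yV = yV := by
    show γ (u (γ⁻¹ yV)) = _
    rw [hyV, MulAut.inv_apply_self, hur]
  have hu'z : u' zV ≠ zV := by
    intro h1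
    have h2 : u (γ⁻¹ zV) = γ⁻¹ zV := by
      have h3 : γ (u (γ⁻¹ zV)) = zV := h1
      apply γ.injective
      rw [h3, MulAut.apply_inv_self]
    obtain ⟨a, c, ht⟩ := hgen (γ⁻¹ zV)
    have h3 := hu2 a c
    rw [← ht, h2] at h3
    have h4 : zV ^ c = 1 := by
      have h5 : γ⁻¹ zV * 1 = γ⁻¹ zV * zV ^ c := by rw [mul_one]; exact h3
      exact (mul_left_cancel h5).symm
    rw [zpow_eq_one_of_zpow_eq_one hp hz1 (hVexp _) (hVexp yV) h4, mul_one] at ht
    have h6 : zV = yV ^ a := by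
      rw [hyV, ← map_zpow, ← ht, MulAut.apply_inv_self]
    have h7 := hu2 0 a
    rw [zpow_zero, one_mul, ← h6, huz] at h7
    have h8 : zV ^ a = 1 := by
      have h5 : zV * 1 = zV * zV ^ a := by rw [mul_one]; exact h7
      exact (mul_left_cancel h5).symm
    apply hz1
    rw [h6]
    exact zpow_eq_one_of_zpow_eq_one hp hz1 (hVexp _) (hVexp yV) h8
  obtain ⟨h, hh, hhu, hhz⟩ := sl2_trick_group hVc hVexp u u' zV yV hu huz huy hu' hu'y hu'z
  have hhF : h ∈ F.autGroup V := by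
    refine (Subgroup.closure_le _).2 ?_ hh
    rintro w (rfl | rfl)
    · exact huF
    · exact hu'F
  have hyz : yV ∉ Subgroup.zpowers zV := by
    intro h1
    apply hyr
    refine (Subgroup.zpowers_le.2 ?_) h1
    rw [hzr]
    exact Subgroup.zpow_mem _ (Subgroup.mem_zpowers _) _
  have hgen' := exists_zpow_mul_zpow hVc hVcard hVexp zV yV hz1 hyz
  have hhu' : ∀ m : V, h (u m) = u (h m) := fun m => by
    have := congrArg (fun w : MulAut V => w m) hhu
    exact this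
  obtain ⟨a, c, hhy⟩ := hgen' (h yV)
  have hhy' : h yV = zV ^ a * yV⁻¹ := by
    have h3 := hhu' yV
    have h4 : Commute yV zV := hVc _ _
    rw [huy, map_mul, hhz, hhy, map_mul, map_zpow, map_zpow, huz, huy, h4.mul_zpow, ← mul_assoc] at h3
    have h5 : zV ^ (c + 1) = 1 := by
      rw [zpow_add, zpow_one, ← mul_left_cancel h3, inv_mul_cancel]
    have h6 := zpow_eq_one_of_zpow_eq_one hp hz1 (hVexp _) (hVexp yV) h5
    rw [hhy]
    congr 1
    rw [zpow_add, zpow_one] at h6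
    exact eq_inv_of_mul_eq_one_left h6
  have hι := pow_prime_eq_inv hVc (hp.odd_of_ne_two hp2) hVexp h zV yV a hhz hhy' hgen'
  set ι : MulAut V := h ^ p with hι_def
  have hιF : ι ∈ F.autGroup V := Subgroup.pow_mem _ hhF p
  have hrecV := (hF.fullyNormalized F hS (isFullyNormalized_of_stronglyClosed hVsc)).2.2
  have hPE : P ≤ extender S V (V.subtype.comp ι.toMonoidHom) := by
    intro g hg
    rw [mem_extender_iff']
    refine ⟨hPS hg, hVsc.le_normalizer (hPS hg), g, hPS hg, fun m m' hm' => ?_⟩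
    show ((ι m' : V) : Ω) = g * ((ι m : V) : Ω) * g⁻¹
    rw [hι, hι, Subgroup.coe_inv, Subgroup.coe_inv, hm']
    group
  obtain ⟨σ, hσ, hσe⟩ := hrecV.exists_extension F ι ((F.mem_autGroup_iff hVS ι).1 hιF) hPE
  have hσP : ∀ x : P, ((σ x : S) : Ω) ∈ P := fun x => hP.map_mem hσ x.2
  let σ0 : P →* P :=
    { toFun := fun x => ⟨σ x, hσP x⟩
      map_one' := Subtype.ext (by simp)
      map_mul' := fun x x' => Subtype.ext (by simp) }
  have hσ0inj : Function.Injective σ0 := by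
    intro x x' hxx
    apply hσ.injective F
    apply Subtype.ext
    exact congrArg (fun w : P => (w : Ω)) hxx
  let σ1 : MulAut P := MulEquiv.ofBijective σ0 ⟨hσ0inj, Finite.surjective_of_injective hσ0inj⟩
  have hcomm := comm_of_aut_inverts_small hPp hp2 σ1 (by
    intro x hx
    apply Subtype.ext
    show ((σ x : S) : Ω) = ((x⁻¹ : P) : Ω)
    have hxV : (x : Ω) ∈ V := (hmemV _).2 ⟨x.2, congrArg Subtype.val hx⟩
    rw [hσe ⟨x, hxV⟩ x rfl]
    show ((ι ⟨x, hxV⟩ : V) : Ω) = _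
    rw [hι]
    rfl)
  exact hby (congrArg Subtype.val (hcomm ⟨b, hb⟩ ⟨yV, hVP yV.2⟩))

end FusionSystem
end Cfsg
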