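import Cfsg.Agent.Fus.MetaBase
import Cfsg.Agent.Fus.Solv

/-!
S5234: a strongly closed metacyclic subgroup is normal (`p` odd).
-/

set_option autoImplicit false

namespace Cfsg
namespace FusionSystem

open Cfsg.Agent.Fus
open scoped commutatorElement

variable {Ω : Type*} [Group Ω] {S : Subgroup Ω} [Finite S] {p : ℕ} [Fact p.Prime]

theorem exists_central_stronglyClosed_of_metacyclic (hS : IsPGroup p S) (F : FusionSystem S)
    (hF : F.IsSaturated p) {P : Subgroup Ω} (hP : F.StronglyClosed P) (hp2 : p ≠ 2)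
    (hm : Cfsg.IsMetacyclic P) (hne : P ≠ ⊥) :
    ∃ X : Subgroup Ω, F.StronglyClosed X ∧ X ≠ ⊥ ∧ X ≤ P ∧ ∀ x ∈ X, ∀ g ∈ P, g * x = x * g := by
  have hp : p.Prime := Fact.out
  by_cases hnab : ∃ a ∈ P, ∃ b ∈ P, a * b ≠ b * a
  · refine ⟨omegaCenter p P, omegaCenter_stronglyClosed hS F hF hP hp2 hm hnab, ?_, fun x hx => hx.1,
      fun x hx => hx.2.2⟩
    have hPS := hP.1
    have : Finite P := finite_of_le hPS
    have hPp : IsPGroup p P := isPGroup_of_le hS hPS
    have : Nontrivial P := (Subgroup.nontrivial_iff_ne_bot P).2 hne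
    have hcn := hPp.center_nontrivial
    obtain ⟨c, hc⟩ := exists_ne (1 : Subgroup.center P)
    have hc1 : (c : P) ≠ 1 := fun h => hc (Subtype.ext h)
    obtain ⟨x₀, hx₀, hx₀p⟩ := Cfsg.H1.exists_orderOf_eq_prime_mem_zpowers hPp hc1
    have hx₀c : x₀ ∈ Subgroup.center P := (Subgroup.zpowers_le.2 c.2) hx₀
    intro hbot
    have hmem : (x₀ : Ω) ∈ omegaCenter p P := by
      refine ⟨x₀.2, ?_, fun g hg => ?_⟩
      · have h1 : x₀ ^ p = 1 := by rw [← hx₀p]; exact pow_orderOf_eq_one _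
        exact congrArg Subtype.val h1
      · exact congrArg Subtype.val (Subgroup.mem_center_iff.1 hx₀c ⟨g, hg⟩)
    rw [hbot, Subgroup.mem_bot] at hmem
    have h2 : x₀ = 1 := Subtype.ext hmem
    rw [h2, orderOf_one] at hx₀p
    exact hp.one_lt.ne hx₀p
  · push Not at hnab
    exact ⟨P, hP, hne, le_rfl, fun x hx g hg => hnab g hg x hx⟩

theorem exists_succ_of_metacyclic (hS : IsPGroup p S) (F : FusionSystem S)
    (hF : F.IsSaturated p) {P : Subgroup Ω} (hP : F.StronglyClosed P) (hp2 : p ≠ 2)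
    (hm : Cfsg.IsMetacyclic P) {R : Subgroup Ω} (hR : F.StronglyClosed R) (hRP : R ≤ P) (hne : R ≠ P) :
    ∃ R' : Subgroup Ω, F.StronglyClosed R' ∧ R < R' ∧ R' ≤ P ∧ ⁅P, R'⁆ ≤ R := by
  have hn := hR.subgroupOf_normal
  have hq := isQuotMap_mk' (S := S) R
  have hE := F.isFactorSystem_factorSys R hR _ _ hq
  have hEsat := hE.isSaturated hR hS hF
  have hp' : IsPGroup p (⊤ : Subgroup (S ⧸ R.subgroupOf S)) :=
    (hS.to_quotient (R.subgroupOf S)).to_subgroup _
  have hP' := hE.stronglyClosed_image hP hRP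
  have hm' : Cfsg.IsMetacyclic (imageAlong (QuotientGroup.mk' (R.subgroupOf S)) P) := by
    let f : P →* imageAlong (QuotientGroup.mk' (R.subgroupOf S)) P :=
      { toFun := fun x => ⟨QuotientGroup.mk' (R.subgroupOf S) ⟨x, hP.1 x.2⟩,
          mem_imageAlong.2 ⟨x, hP.1 x.2, x.2, rfl⟩⟩
        map_one' := rfl
        map_mul' := fun x y => rfl }
    refine isMetacyclic_of_surjective f ?_ hm
    rintro ⟨y, hy⟩
    obtain ⟨x, hxS, hxP, rfl⟩ := mem_imageAlong.1 hy
    exact ⟨⟨x, hxP⟩, rfl⟩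
  have hne' : imageAlong (QuotientGroup.mk' (R.subgroupOf S)) P ≠ ⊥ := by
    intro hbot
    apply hne
    apply le_antisymm hRP
    intro x hx
    have h1 : QuotientGroup.mk' (R.subgroupOf S) ⟨x, hP.1 hx⟩ ∈
        imageAlong (QuotientGroup.mk' (R.subgroupOf S)) P := mem_imageAlong.2 ⟨x, hP.1 hx, hx, rfl⟩
    rw [hbot, Subgroup.mem_bot] at h1
    exact (hq.ker _).1 h1
  obtain ⟨X', hX'sc, hX'ne, hX'P, hX'c⟩ :=
    exists_central_stronglyClosed_of_metacyclic hp' _ hEsat hP' hp2 hm' hne'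
  refine ⟨_, hE.stronglyClosed_preimage hS hF hR hX'sc,
    lt_of_le_of_ne (hq.le_preimageAlong hR.1 X') ?_, ?_, ?_⟩
  · intro heq
    apply hX'ne
    rw [Subgroup.eq_bot_iff_forall]
    intro a ha
    obtain ⟨x, hx, hxa⟩ := hq.exists_preimage hX'sc.1 ⟨a, ha⟩
    have h1 : (x : Ω) ∈ R := heq.ge x.2
    have h2 : a = QuotientGroup.mk' (R.subgroupOf S) ⟨x, hx⟩ := hxa.symm
    rw [h2]
    exact (hq.ker _).2 h1
  · intro x hx
    obtain ⟨hxS, hx'⟩ := mem_preimageAlong.1 hx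
    obtain ⟨x', hx'S, hx'P, he⟩ := mem_imageAlong.1 (hX'P hx')
    rw [hq.eq_iff] at he
    have h1 := P.mul_mem hx'P (hRP he)
    simpa using h1
  · rw [Subgroup.commutator_le]
    intro a ha b hb
    have haS := hP.1 ha
    obtain ⟨hbS, hb'⟩ := mem_preimageAlong.1 hb
    have ha' : QuotientGroup.mk' (R.subgroupOf S) ⟨a, haS⟩ ∈
        imageAlong (QuotientGroup.mk' (R.subgroupOf S)) P := mem_imageAlong.2 ⟨a, haS, ha, rfl⟩
    have h2 := hX'c _ hb' _ ha'
    have h3 : QuotientGroup.mk' (R.subgroupOf S) ⁅(⟨a, haS⟩ : S), ⟨b, hbS⟩⁆ = 1 := by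
      rw [commutatorElement_def, map_mul, map_mul, map_mul, map_inv, map_inv, h2]
      group
    exact (hq.ker _).1 h3

theorem exists_chain_of_metacyclic (hS : IsPGroup p S) (F : FusionSystem S)
    (hF : F.IsSaturated p) {P : Subgroup Ω} (hP : F.StronglyClosed P) (hp2 : p ≠ 2)
    (hm : Cfsg.IsMetacyclic P) :
    ∀ (k : ℕ) (R : Subgroup Ω), F.StronglyClosed R → R ≤ P → Nat.card P - Nat.card R = k →
      ∃ (n : ℕ) (T : Fin (n + 1) → Subgroup Ω), T 0 = R ∧ T (Fin.last n) = P ∧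
        ∀ i : Fin n, F.StronglyClosed (T i.succ) ∧ ⁅P, T i.succ⁆ ≤ T (Fin.castSucc i) := by
  intro k
  induction k using Nat.strong_induction_on with
  | _ k ih =>
    intro R hR hRP hk
    by_cases hne : R = P
    · exact ⟨0, fun _ => R, rfl, hne, fun i => i.elim0⟩
    · obtain ⟨R', hR', hlt, hR'P, hcomm⟩ := exists_succ_of_metacyclic hS F hF hP hp2 hm hR hRP hne
      have h1 := card_lt_of_lt hR'.1 hlt
      have : Finite P := finite_of_le hP.1
      have h2 : Nat.card R' ≤ Nat.card P := Subgroup.card_le_of_le hR'P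
      obtain ⟨n, T, hT0, hTn, hT⟩ := ih (Nat.card P - Nat.card R') (by omega) R' hR' hR'P rfl
      refine ⟨n + 1, Fin.cons R T, rfl, ?_, ?_⟩
      · rw [← Fin.succ_last, Fin.cons_succ]
        exact hTn
      · intro i
        refine Fin.cases ?_ (fun j => ?_) i
        · show F.StronglyClosed (T 0) ∧ ⁅P, T 0⁆ ≤ R
          rw [hT0]
          exact ⟨hR', hcomm⟩
        · rw [← Fin.succ_castSucc, Fin.cons_succ, Fin.cons_succ]
          exact hT j

/-- S5234. -/
theorem isNormal_of_metacyclic (hS : IsPGroup p S) (F : FusionSystem S)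
    (hF : F.IsSaturated p) {P : Subgroup Ω} (hP : F.StronglyClosed P) (hp2 : p ≠ 2)
    (hm : Cfsg.IsMetacyclic P) : F.IsNormal P := by
  obtain ⟨n, T, hT0, hTn, hT⟩ := exists_chain_of_metacyclic hS F hF hP hp2 hm _ ⊥ F.stronglyClosed_bot
    bot_le rfl
  exact F.isNormal_of_fin_chain hS hF n T hT0 hTn hT

end FusionSystem
end Cfsg
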