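import Cfsg.Agent.Fus.MetaTwoGrp

/-!
Group-theoretic lemmas for S5235, part 2: the "no swap" lemma.
-/

set_option autoImplicit false

namespace Cfsg.Agent.Fus

theorem no_swap_of_three_involutions {G : Type*} [Group G] (P : Subgroup G) [Finite P]
    (hP : IsPGroup 2 P) (z y g : G) (hz : z ∈ P) (hy : y ∈ P) (hg : g ∈ P) (hz1 : z ≠ 1)
    (hz2 : z ^ 2 = 1) (hy2 : y ^ 2 = 1) (hzc : ∀ w ∈ P, w * z = z * w)
    (hsol : ∀ x ∈ P, x ^ 2 = 1 → x = 1 ∨ x = z ∨ x = y ∨ x = z * y)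
    (hab : ∀ w ∈ P, ∀ w' ∈ P, w * y = y * w → w' * y = y * w' → w * w' = w' * w)
    (hδ : ∀ e ∈ P, e * y = y * e → ∀ k : ℕ, e ^ (2 ^ k) = z → ∃ e' ∈ P, e' * y = y * e' ∧ e' ^ (2 ^ k) = y)
    (hgy : g * y * g⁻¹ = z * y) : False := by
  classical
  set A : Subgroup G := P ⊓ Subgroup.centralizer {y} with hA
  have hmemA : ∀ w, w ∈ A ↔ w ∈ P ∧ w * y = y * w := by
    intro w
    rw [hA, Subgroup.mem_inf, Subgroup.mem_centralizer_singleton_iff]
  have hAP : A ≤ P := inf_le_left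
  have : Finite A := Finite.of_injective (Subgroup.inclusion hAP) (Subgroup.inclusion_injective _)
  have hAp : IsPGroup 2 A := hP.to_le hAP
  have hAc : ∀ u v : A, u * v = v * u := fun u v => Subtype.ext
    (hab u ((hmemA u).1 u.2).1 v ((hmemA v).1 v.2).1 ((hmemA u).1 u.2).2 ((hmemA v).1 v.2).2)
  have hzy : z * y = y * z := (hzc y hy).symm
  have hzA : z ∈ A := (hmemA z).2 ⟨hz, hzy⟩
  have hyA : y ∈ A := (hmemA y).2 ⟨hy, rfl⟩
  -- conjugation by `g` preserves `A`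
  have hgzy : g * (z * y) * g⁻¹ = y := by
    calc g * (z * y) * g⁻¹ = (g * z) * y * g⁻¹ := by group
      _ = z * (g * y * g⁻¹) := by rw [hzc g hg]; group
      _ = z * (z * y) := by rw [hgy]
      _ = z ^ 2 * y := by rw [pow_two, mul_assoc]
      _ = y := by rw [hz2, one_mul]
  have hconjA : ∀ w ∈ A, g * w * g⁻¹ ∈ A := by
    intro w hw
    obtain ⟨hwP, hwy⟩ := (hmemA w).1 hw
    refine (hmemA _).2 ⟨P.mul_mem (P.mul_mem hg hwP) (P.inv_mem hg), ?_⟩
    have h1 : w * (z * y) = (z * y) * w := by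
      rw [← mul_assoc, hzc w hwP, mul_assoc, hwy, mul_assoc]
    calc g * w * g⁻¹ * y = g * w * g⁻¹ * (g * (z * y) * g⁻¹) := by rw [hgzy]
      _ = g * (w * (z * y)) * g⁻¹ := by group
      _ = g * ((z * y) * w) * g⁻¹ := by rw [h1]
      _ = (g * (z * y) * g⁻¹) * (g * w * g⁻¹) := by group
      _ = y * (g * w * g⁻¹) := by rw [hgzy]
  have hex : ∃ n : ℕ, ∀ w : A, w ^ (2 ^ n) = 1 := by
    obtain ⟨N, hN⟩ := (IsPGroup.iff_card.1 hAp)
    exact ⟨N, fun w => by rw [← hN]; exact pow_card_eq_one'⟩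
  have hn := Nat.find_spec hex
  have hn0 : Nat.find hex ≠ 0 := by
    intro h0
    rw [h0] at hn
    have := hn ⟨z, hzA⟩
    simp only [pow_zero, pow_one] at this
    exact hz1 (congrArg Subtype.val this)
  obtain ⟨k, hk⟩ := Nat.exists_eq_succ_of_ne_zero hn0
  have hmin : ¬ ∀ w : A, w ^ (2 ^ k) = 1 := Nat.find_min hex (by omega)
  rw [hk] at hn
  push Not at hmin
  obtain ⟨e0, he0⟩ := hmin
  have he0' : (e0 : G) ^ (2 ^ k) ≠ 1 := fun h => he0 (Subtype.ext h)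
  have hexpG : ∀ w ∈ A, w ^ (2 ^ (k + 1)) = 1 := fun w hw => congrArg Subtype.val (hn ⟨w, hw⟩)
  have hv2 : ((e0 : G) ^ (2 ^ k)) ^ 2 = 1 := by
    rw [← pow_mul, ← pow_succ]
    exact hexpG e0 e0.2
  obtain ⟨e, heA, hek⟩ : ∃ e ∈ A, e ^ (2 ^ k) = y := by
    rcases hsol _ (P.pow_mem (hAP e0.2) _) hv2 with h | h | h | h
    · exact absurd h he0'
    · obtain ⟨e', he'P, he'y, he'k⟩ := hδ e0 (hAP e0.2) ((hmemA _).1 e0.2).2 k h
      exact ⟨e', (hmemA _).2 ⟨he'P, he'y⟩, he'k⟩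
    · exact ⟨e0, e0.2, h⟩
    · refine ⟨g * e0 * g⁻¹, hconjA _ e0.2, ?_⟩
      rw [conj_pow, h, hgzy]
  set e' := g * e * g⁻¹ with he'
  have he'A : e' ∈ A := hconjA e heA
  have he'k : e' ^ (2 ^ k) = z * y := by rw [he', conj_pow, hek, hgy]
  have hy1 : y ≠ 1 := by
    intro h
    rw [h] at hgy
    simp only [mul_one, mul_inv_cancel] at hgy
    exact hz1 hgy.symm
  have hzy1 : z * y ≠ 1 := by
    intro h
    rw [h] at hgzy
    simp only [mul_one, mul_inv_cancel] at hgzy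
    exact hy1 hgzy.symm
  set eA : A := ⟨e, heA⟩ with heA_def
  set eA' : A := ⟨e', he'A⟩ with heA'_def
  have hoe : orderOf eA = 2 ^ (k + 1) := by
    apply orderOf_eq_prime_pow
    · intro h
      apply hy1
      rw [← hek]
      exact congrArg Subtype.val h
    · exact hn eA
  have hoe' : orderOf eA' = 2 ^ (k + 1) := by
    apply orderOf_eq_prime_pow
    · intro h
      apply hzy1
      rw [← he'k]
      exact congrArg Subtype.val h
    · exact hn eA'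
  have hdisj : ∀ u : A, u ∈ Subgroup.zpowers eA → u ∈ Subgroup.zpowers eA' → u = 1 := by
    intro u hu hu'
    by_contra hu1
    obtain ⟨x₀, hx₀, hx₀o⟩ := Cfsg.H1.exists_orderOf_eq_prime_mem_zpowers hAp hu1
    have hx2 : x₀ ^ 2 = 1 := by rw [← hx₀o]; exact pow_orderOf_eq_one _
    have hx1 : x₀ ≠ 1 := by
      intro h
      rw [h, orderOf_one] at hx₀o
      norm_num at hx₀o
    have h1 := eq_one_or_eq_pow_of_mem_zpowers hoe ((Subgroup.zpowers_le.2 hu) hx₀) hx2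
    have h2 := eq_one_or_eq_pow_of_mem_zpowers hoe' ((Subgroup.zpowers_le.2 hu') hx₀) hx2
    rcases h1 with h1 | h1
    · exact hx1 h1
    rcases h2 with h2 | h2
    · exact hx1 h2
    have h3 : (eA : G) ^ (2 ^ k) = (eA' : G) ^ (2 ^ k) := by
      have := congrArg Subtype.val (h1.symm.trans h2)
      simpa using this
    have h4 : y = z * y := by
      calc y = e ^ (2 ^ k) := hek.symm
        _ = e' ^ (2 ^ k) := h3
        _ = z * y := he'k
    apply hz1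
    have h5 : 1 * y = z * y := by rw [one_mul]; exact h4
    exact (mul_right_cancel h5).symm
  have hcardA : Nat.card A ≤ 4 ^ (k + 1) := by
    apply card_le_four_pow hAc (k + 1) hn
    intro t ht
    have hsub : t ⊆ {1, ⟨z, hzA⟩, ⟨y, hyA⟩, ⟨z, hzA⟩ * ⟨y, hyA⟩} := by
      intro w hw
      have h1 : (w : G) ^ 2 = 1 := congrArg Subtype.val (ht w hw)
      simp only [Finset.mem_insert, Finset.mem_singleton]
      rcases hsol w (hAP w.2) h1 with h | h | h | h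
      · exact Or.inl (Subtype.ext h)
      · exact Or.inr (Or.inl (Subtype.ext h))
      · exact Or.inr (Or.inr (Or.inl (Subtype.ext h)))
      · exact Or.inr (Or.inr (Or.inr (Subtype.ext h)))
    exact (Finset.card_le_card hsub).trans Finset.card_le_four
  let f : Subgroup.zpowers eA × Subgroup.zpowers eA' → A := fun q => (q.1 : A) * (q.2 : A)
  have hfinj : Function.Injective f := by
    rintro ⟨u1, v1⟩ ⟨u2, v2⟩ h
    have h' : (u1 : A) * (v1 : A) = (u2 : A) * (v2 : A) := h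
    have h1 : (u2 : A)⁻¹ * u1 = (v2 : A) * (v1 : A)⁻¹ := by
      calc (u2 : A)⁻¹ * u1 = (u2 : A)⁻¹ * ((u1 : A) * v1) * (v1 : A)⁻¹ := by group
        _ = (u2 : A)⁻¹ * ((u2 : A) * v2) * (v1 : A)⁻¹ := by rw [h']
        _ = (v2 : A) * (v1 : A)⁻¹ := by group
    have h2 := hdisj _ (Subgroup.mul_mem _ (Subgroup.inv_mem _ u2.2) u1.2)
      (h1 ▸ Subgroup.mul_mem _ v2.2 (Subgroup.inv_mem _ v1.2))
    have h3 : (u1 : A) = u2 := (inv_mul_eq_one.1 h2).symm
    have h4 : (v2 : A) * (v1 : A)⁻¹ = 1 := by rw [← h1, h2]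
    have h5 : (v2 : A) = v1 := mul_inv_eq_one.1 h4
    exact Prod.ext (Subtype.ext h3) (Subtype.ext h5.symm)
  have hfbij : Function.Bijective f := by
    apply hfinj.bijective_of_nat_card_le
    rw [Nat.card_prod, Nat.card_zpowers, Nat.card_zpowers, hoe, hoe', ← mul_pow]
    exact hcardA
  -- `g ^ 2 ∈ A`
  have hg2A : g ^ 2 ∈ A := by
    refine (hmemA _).2 ⟨P.pow_mem hg 2, ?_⟩
    have h1 : g ^ 2 * y * (g ^ 2)⁻¹ = y := by
      calc g ^ 2 * y * (g ^ 2)⁻¹ = g * (g * y * g⁻¹) * g⁻¹ := by rw [pow_two]; group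
        _ = y := by rw [hgy, hgzy]
    calc g ^ 2 * y = g ^ 2 * y * (g ^ 2)⁻¹ * g ^ 2 := by group
      _ = y * g ^ 2 := by rw [h1]
  obtain ⟨⟨u, v⟩, huv⟩ := hfbij.2 ⟨g ^ 2, hg2A⟩
  obtain ⟨i, hi⟩ := Subgroup.mem_zpowers_iff.1 u.2
  obtain ⟨j, hj⟩ := Subgroup.mem_zpowers_iff.1 v.2
  have hg2 : g ^ 2 = e ^ i * e' ^ j := by
    have h1 : (u : A) * (v : A) = ⟨g ^ 2, hg2A⟩ := huv
    rw [← hi, ← hj] at h1
    have := congrArg Subtype.val h1
    simpa using this.symm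
  have hcomm : ∀ w ∈ A, ∀ w' ∈ A, w * w' = w' * w := fun w hw w' hw' =>
    congrArg Subtype.val (hAc ⟨w, hw⟩ ⟨w', hw'⟩)
  have hge' : g * e' * g⁻¹ = e := by
    calc g * e' * g⁻¹ = g ^ 2 * e * (g ^ 2)⁻¹ := by rw [he', pow_two]; group
      _ = e * g ^ 2 * (g ^ 2)⁻¹ := by rw [hcomm _ hg2A e heA]
      _ = e := by group
  have h6 : e ^ i * e' ^ j = e' ^ i * e ^ j := by
    calc e ^ i * e' ^ j = g * g ^ 2 * g⁻¹ := by rw [← hg2, pow_two]; group
      _ = g * (e ^ i * e' ^ j) * g⁻¹ := by rw [hg2]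
      _ = (g * e ^ i * g⁻¹) * (g * e' ^ j * g⁻¹) := by group
      _ = e' ^ i * e ^ j := by rw [← conj_zpow, ← conj_zpow, hge', ← he']
  have heiA : ∀ l : ℤ, e ^ l ∈ A := fun l => A.zpow_mem heA l
  have he'iA : ∀ l : ℤ, e' ^ l ∈ A := fun l => A.zpow_mem he'A l
  have h7 : e ^ (i - j) = e' ^ (i - j) := by
    rw [zpow_sub, zpow_sub]
    have h8 : e ^ i * e' ^ j = e ^ j * e' ^ i := by rw [h6, hcomm _ (he'iA i) _ (heiA j)]
    calc e ^ i * (e ^ j)⁻¹ = (e ^ j)⁻¹ * (e ^ i * e' ^ j) * (e' ^ j)⁻¹ := by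
          rw [hcomm _ (heiA i) _ (A.inv_mem (heiA j))]; group
      _ = (e ^ j)⁻¹ * (e ^ j * e' ^ i) * (e' ^ j)⁻¹ := by rw [h8]
      _ = e' ^ i * (e' ^ j)⁻¹ := by group
  have h9 : e' ^ (i - j) = 1 := by
    have h10 := hdisj (eA' ^ (i - j)) (by
      have : eA' ^ (i - j) = eA ^ (i - j) := Subtype.ext (by simpa using h7.symm)
      rw [this]
      exact Subgroup.zpow_mem _ (Subgroup.mem_zpowers _) _) (Subgroup.zpow_mem _ (Subgroup.mem_zpowers _) _)
    simpa using congrArg Subtype.val h10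
  have h11 : e' ^ j = e' ^ i := by
    rw [zpow_sub] at h9
    exact (mul_inv_eq_one.1 h9).symm
  rw [h11] at hg2
  -- the involution
  set x := (e ^ i)⁻¹ * g with hx
  have hxP : x ∈ P := P.mul_mem (P.inv_mem (hAP (heiA i))) hg
  have hx2 : x ^ 2 = 1 := by
    have h12 : g * (e ^ i)⁻¹ * g⁻¹ = (e' ^ i)⁻¹ := by
      rw [he', conj_zpow]; group
    calc x ^ 2 = (e ^ i)⁻¹ * (g * (e ^ i)⁻¹ * g⁻¹) * g ^ 2 := by rw [hx, pow_two, pow_two]; group
      _ = (e ^ i)⁻¹ * (e' ^ i)⁻¹ * (e ^ i * e' ^ i) := by rw [h12, hg2]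
      _ = (e ^ i)⁻¹ * ((e' ^ i)⁻¹ * e ^ i) * e' ^ i := by group
      _ = (e ^ i)⁻¹ * (e ^ i * (e' ^ i)⁻¹) * e' ^ i := by
          rw [hcomm _ (A.inv_mem (he'iA i)) _ (heiA i)]
      _ = 1 := by group
  have hxA : x ∈ A := by
    rcases hsol x hxP hx2 with h | h | h | h
    · rw [h]; exact A.one_mem
    · rw [h]; exact hzA
    · rw [h]; exact hyA
    · rw [h]; exact A.mul_mem hzA hyA
  have hgA : g ∈ A := by
    have : g = e ^ i * x := by rw [hx]; group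
    rw [this]
    exact A.mul_mem (heiA i) hxA
  have h13 := ((hmemA g).1 hgA).2
  rw [h13, mul_inv_cancel_right] at hgy
  apply hz1
  have h5 : 1 * y = z * y := by rw [one_mul]; exact hgy
  exact (mul_right_cancel h5).symm

end Cfsg.Agent.Fus
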