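import Cfsg.Agent.Fus.MetaTwoGrp

/-!
Group-theoretic lemmas for S5235, part 3: involutions of a metacyclic 2-group `G` with `|G : G'| ≥ 8`.
-/

set_option autoImplicit false

namespace Cfsg.Agent.Fus

open Cfsg.H1 Subgroup
open scoped commutatorElement

theorem metacyclic_two_involutions {G : Type*} [Group G] [Finite G] (hG : IsPGroup 2 G)
    (hm : Cfsg.IsMetacyclic G) (hna : ∃ x y : G, x * y ≠ y * x) (hidx : 8 ≤ (commutator G).index) :
    ∃ z : G, z ∈ commutator G ∧ z ≠ 1 ∧ z ^ 2 = 1 ∧ (∀ g, g * z = z * g) ∧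
      (∀ x ∈ commutator G, x ^ 2 = 1 → x = 1 ∨ x = z) ∧
      (∀ x x' : G, x ^ 2 = 1 → x' ^ 2 = 1 → x ≠ 1 → x ≠ z →
        x' = 1 ∨ x' = z ∨ x' = x ∨ x' = z * x) := by
  obtain ⟨a, b, h⟩ := exists_mcGen hm
  have hN := h.normal
  set N := zpowers a with hNdef
  set c := ⁅b, a⁆ with hc
  have hcomm : commutator G = zpowers c := h.commutator_eq
  have hcN : c ∈ N := h.comm_mem
  have hc1 : c ≠ 1 := by
    intro h1
    obtain ⟨x, y, hxy⟩ := hna
    apply hxy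
    have h2 : ⁅x, y⁆ ∈ commutator G := comm_mem_commutator x y
    rw [hcomm, h1, zpowers_one_eq_bot, mem_bot] at h2
    exact commutatorElement_eq_one_iff_mul_comm.1 h2
  have ha1 : a ≠ 1 := by
    intro h1
    apply hc1
    rw [hc, h1]
    simp
  obtain ⟨n, hn⟩ := (IsPGroup.iff_orderOf.1 hG) a
  have hn0 : n ≠ 0 := by
    rintro rfl
    rw [pow_zero, orderOf_eq_one_iff] at hn
    exact ha1 hn
  obtain ⟨k, rfl⟩ := Nat.exists_eq_succ_of_ne_zero hn0
  have hn' : orderOf a = 2 ^ (k + 1) := hn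
  set z := a ^ (2 ^ k) with hz
  have hL1 : ∀ t ∈ N, t ^ 2 = 1 → t = 1 ∨ t = z :=
    fun t ht ht2 => eq_one_or_eq_pow_of_mem_zpowers hn' ht ht2
  have hz1 : z ≠ 1 := by
    intro h1
    have h2 := orderOf_dvd_of_pow_eq_one h1
    rw [hn'] at h2
    have := (Nat.pow_dvd_pow_iff_le_right (by norm_num : 1 < 2)).1 h2
    omega
  have hz2 : z ^ 2 = 1 := by rw [hz, ← pow_mul, ← pow_succ, ← hn', pow_orderOf_eq_one]
  have hzN : z ∈ N := pow_mem (mem_zpowers a) _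
  have hzc : ∀ g, g * z = z * g := by
    intro g
    have h1 : g * z * g⁻¹ ∈ N := hN.conj_mem z hzN g
    have h2 : (g * z * g⁻¹) ^ 2 = 1 := by rw [conj_pow, hz2]; group
    rcases hL1 _ h1 h2 with h3 | h3
    · exfalso
      apply hz1
      have h4 : z = g⁻¹ * (g * z * g⁻¹) * g := by group
      rw [h4, h3]; group
    · calc g * z = g * z * g⁻¹ * g := by group
        _ = z * g := by rw [h3]
  have hcle : commutator G ≤ N := by rw [hcomm]; exact zpowers_le.2 hcN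
  have hzcomm : z ∈ commutator G := by
    obtain ⟨x₀, hx₀, hx₀o⟩ := exists_orderOf_eq_prime_mem_zpowers hG hc1
    have hx2 : x₀ ^ 2 = 1 := by rw [← hx₀o]; exact pow_orderOf_eq_one _
    have hx1 : x₀ ≠ 1 := by
      intro h
      rw [h, orderOf_one] at hx₀o
      norm_num at hx₀o
    rw [← hcomm] at hx₀
    rcases hL1 _ (hcle hx₀) hx2 with h3 | h3
    · exact absurd h3 hx1
    · rw [← h3]; exact hx₀
  refine ⟨z, hzcomm, hz1, hz2, hzc, fun x hx hx2 => hL1 x (hcle hx) hx2, ?_⟩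
  -- the quotient
  set π := QuotientGroup.mk' N with hπ
  set β := π b with hβ
  have hβo : orderOf β = N.index := h.orderOf_mk
  obtain ⟨μ, hμ⟩ := (IsPGroup.iff_orderOf.1 (hG.to_quotient N)) β
  have hπN : ∀ w : G, π w = 1 ↔ w ∈ N := fun w => QuotientGroup.eq_one_iff w
  have hπz : ∀ x : G, π x ∈ zpowers β := by
    intro x
    obtain ⟨y, ⟨j, rfl⟩, x', hx', rfl⟩ := h.exists_eq_mul x
    refine ⟨j, ?_⟩
    simp only
    rw [map_mul, map_zpow, (hπN x').2 hx', mul_one]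
  have haN : ∀ w ∈ N, w * a = a * w := by
    rintro w ⟨i, rfl⟩
    simp only
    exact ((Commute.refl a).zpow_left i).eq
  -- Step 1
  have hS1 : ∀ x : G, x ^ 2 = 1 → x ∉ N → ∃ μ' : ℕ, μ = μ' + 1 ∧ π x = β ^ (2 ^ μ') ∧
      ∃ q : ℤ, x * a * x⁻¹ = a ^ (1 + 4 * q) := by
    intro x hx2 hxN
    have hπx1 : π x ≠ 1 := fun h1 => hxN ((hπN x).1 h1)
    have hπx2 : (π x) ^ 2 = 1 := by rw [← map_pow, hx2, map_one]
    have hμ0 : μ ≠ 0 := by
      rintro rfl
      rw [pow_zero, orderOf_eq_one_iff] at hμ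
      have := hπz x
      rw [hμ, zpowers_one_eq_bot, mem_bot] at this
      exact hπx1 this
    obtain ⟨μ', rfl⟩ := Nat.exists_eq_succ_of_ne_zero hμ0
    have hπx : π x = β ^ (2 ^ μ') := by
      rcases eq_one_or_eq_pow_of_mem_zpowers hμ (hπz x) hπx2 with h1 | h1
      · exact absurd h1 hπx1
      · exact h1
    refine ⟨μ', rfl, hπx, ?_⟩
    rcases Nat.eq_zero_or_pos μ' with rfl | hpos
    · -- index two
      have hNi : N.index = 2 := by rw [← hβo, hμ]; norm_num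
      have hcardN : Nat.card N = 2 ^ (k + 1) := by rw [hNdef, Nat.card_zpowers, hn']
      have hcardG : Nat.card G = 2 ^ (k + 2) := by
        rw [← N.card_mul_index, hNi, hcardN]; ring
      obtain ⟨l, hl⟩ := (IsPGroup.iff_orderOf.1 hG) c
      have hcardC : Nat.card (commutator G) = 2 ^ l := by rw [hcomm, Nat.card_zpowers, hl]
      have h1 := (commutator G).card_mul_index
      rw [hcardC, hcardG] at h1
      have h2 : 2 ^ (l + 3) ≤ 2 ^ (k + 2) := by
        rw [← h1, pow_add]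
        exact Nat.mul_le_mul_left _ (by norm_num; exact hidx)
      have h3 : l + 3 ≤ k + 2 := (Nat.pow_le_pow_iff_right (by norm_num)).1 h2
      obtain ⟨k', rfl⟩ : ∃ k', k = k' + 1 := ⟨k - 1, by omega⟩
      have h4 : c ^ (2 ^ k') = 1 := by
        apply orderOf_dvd_iff_pow_eq_one.1
        rw [hl]
        exact pow_dvd_pow 2 (by omega)
      obtain ⟨i, hi⟩ := mem_zpowers_iff.1 hcN
      have h5 : a ^ (i * (2 ^ k' : ℕ)) = 1 := by
        rw [zpow_mul, hi, zpow_natCast, h4]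
      have h6 : ((2 ^ (k' + 1 + 1) : ℕ) : ℤ) ∣ i * (2 ^ k' : ℕ) := by
        rw [← hn']; exact orderOf_dvd_iff_zpow_eq_one.2 h5
      have h7 : (4 : ℤ) ∣ i := by
        have h8 : (4 : ℤ) * (2 ^ k' : ℕ) ∣ i * (2 ^ k' : ℕ) := by
          have e : ((2 ^ (k' + 1 + 1) : ℕ) : ℤ) = 4 * (2 ^ k' : ℕ) := by push_cast; ring
          rwa [e] at h6
        exact Int.dvd_of_mul_dvd_mul_right (by positivity) h8
      obtain ⟨i', rfl⟩ := h7
      have h9 : ⁅x, a⁆ ∈ zpowers c := by rw [← hcomm]; exact comm_mem_commutator x a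
      obtain ⟨r, hr⟩ := mem_zpowers_iff.1 h9
      refine ⟨i' * r, ?_⟩
      have h10 : x * a * x⁻¹ = ⁅x, a⁆ * a := by rw [commutatorElement_def]; group
      rw [h10, ← hr, ← hi, ← zpow_mul, add_comm, zpow_add, zpow_one]
      congr 2
      ring
    · obtain ⟨μ'', rfl⟩ : ∃ μ'', μ' = μ'' + 1 := ⟨μ' - 1, by omega⟩
      set u := b ^ (2 ^ μ'') with hu
      have h1 : π (u ^ 2) = π x := by
        rw [hπx, hu, ← pow_mul, ← pow_succ, map_pow]
      have h2 : (u ^ 2)⁻¹ * x ∈ N := by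
        rw [← hπN, map_mul, map_inv, h1, inv_mul_cancel]
      obtain ⟨ρ, hρ1, hρ⟩ := exists_conj_eq_pow_modEq_one hG (h.conj_mem (mem_zpowers a) u)
      have h3 : u * a ^ ρ * u⁻¹ = a ^ (ρ * ρ) := conj_pow_of_conj hρ ρ
      have h4 : x * a * x⁻¹ = a ^ (ρ * ρ) := by
        have h5 := haN _ h2
        calc x * a * x⁻¹ = u ^ 2 * (((u ^ 2)⁻¹ * x) * a) * x⁻¹ := by group
          _ = u ^ 2 * (a * ((u ^ 2)⁻¹ * x)) * x⁻¹ := by rw [h5]
          _ = u * (u * a * u⁻¹) * u⁻¹ := by rw [pow_two]; group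
          _ = a ^ (ρ * ρ) := by rw [hρ, h3]
      have h6 : ρ % 2 = 1 := hρ1
      obtain ⟨t, rfl⟩ : ∃ t, ρ = 2 * t + 1 := ⟨ρ / 2, by omega⟩
      refine ⟨((t * t + t : ℕ) : ℤ), ?_⟩
      rw [h4, ← zpow_natCast]
      congr 1
      push_cast
      ring
  intro x x' hx2 hx'2 hx1 hxz
  have hxN : x ∉ N := by
    intro hxN
    rcases hL1 x hxN hx2 with h1 | h1
    · exact hx1 h1
    · exact hxz h1
  by_cases hx'N : x' ∈ N
  · rcases hL1 x' hx'N hx'2 with h1 | h1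
    · exact Or.inl h1
    · exact Or.inr (Or.inl h1)
  obtain ⟨μ', hμ', hπx, q, hq⟩ := hS1 x hx2 hxN
  obtain ⟨μ'', hμ'', hπx', -⟩ := hS1 x' hx'2 hx'N
  have hμe : μ'' = μ' := by omega
  rw [hμe] at hπx'
  set w := x' * x⁻¹ with hw
  have hwN : w ∈ N := by
    rw [← hπN, hw, map_mul, map_inv, hπx, hπx', mul_inv_cancel]
  have hx'w : x' = w * x := by rw [hw]; group
  have h1 : w * (x * w * x⁻¹) = 1 := by
    calc w * (x * w * x⁻¹) = (w * x) ^ 2 * (x ^ 2)⁻¹ := by rw [pow_two, pow_two]; group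
      _ = 1 := by rw [← hx'w, hx'2, hx2]; group
  obtain ⟨i, hi⟩ := mem_zpowers_iff.1 hwN
  have h2 : x * w * x⁻¹ = a ^ ((1 + 4 * q) * i) := by
    rw [← hi, ← conj_zpow, hq, zpow_mul]
  have h3 : (w ^ 2) ^ (1 + 2 * q) = 1 := by
    rw [h2, ← hi, ← zpow_add] at h1
    rw [← hi, ← zpow_natCast, ← zpow_mul, ← zpow_mul, ← h1]
    congr 1
    push_cast
    ring
  obtain ⟨l, hl⟩ := (IsPGroup.iff_orderOf.1 hG) (w ^ 2)
  have h4 : ((2 ^ l : ℕ) : ℤ) ∣ 1 + 2 * q := by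
    rw [← hl]; exact orderOf_dvd_iff_zpow_eq_one.2 h3
  have hl0 : l = 0 := by
    by_contra hl0
    obtain ⟨l', rfl⟩ := Nat.exists_eq_succ_of_ne_zero hl0
    have h5 : (2 : ℤ) ∣ 1 + 2 * q := by
      refine Dvd.dvd.trans ?_ h4
      push_cast
      exact Dvd.intro_left _ (pow_succ (2 : ℤ) l').symm
    omega
  rw [hl0, pow_zero, orderOf_eq_one_iff] at hl
  rcases hL1 w hwN hl with h5 | h5
  · right; right; left
    rw [hx'w, h5, one_mul]
  · right; right; right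
    rw [hx'w, h5]

end Cfsg.Agent.Fus
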