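import Cfsg.Agent.Fus.MetaBase
import Cfsg.Agent.Fus.MetaTwoGrp2
import Cfsg.Agent.Fus.MetaTwoGrp3

/-!
S5235, base step: for a non-abelian strongly closed metacyclic 2-subgroup `P` with `|P : P'| ≥ 8`,
`Ω₁(P')` is strongly closed.
-/

set_option autoImplicit false

namespace Cfsg
namespace FusionSystem

open Cfsg.Agent.Fus
open scoped commutatorElement

theorem eq_one_or_eq_of_mem_zpowers_of_sq {X : Type*} [Group X] {z t : X} (hz2 : z ^ 2 = 1)
    (ht : t ∈ Subgroup.zpowers z) : t = 1 ∨ t = z := by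
  obtain ⟨i, rfl⟩ := Subgroup.mem_zpowers_iff.1 ht
  have h2 : z ^ (2 : ℤ) = 1 := by exact_mod_cast hz2
  rcases Int.even_or_odd' i with ⟨q, rfl | rfl⟩
  · left; rw [zpow_mul, h2, one_zpow]
  · right; rw [zpow_add, zpow_mul, h2, one_zpow, one_mul, zpow_one]

variable {Ω : Type*} [Group Ω] {S : Subgroup Ω} [Finite S]

theorem exists_central_stronglyClosed_of_metacyclic_two (hS : IsPGroup 2 S) (F : FusionSystem S)
    (hF : F.IsSaturated 2) {P : Subgroup Ω} (hP : F.StronglyClosed P) (hm : Cfsg.IsMetacyclic P)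
    (hna : ∃ a ∈ P, ∃ b ∈ P, a * b ≠ b * a) (hidx : 8 ≤ (commutator P).index) :
    ∃ X : Subgroup Ω, F.StronglyClosed X ∧ X ≠ ⊥ ∧ X ≤ (commutator P).map P.subtype ∧
      ∀ x ∈ X, ∀ g ∈ P, g * x = x * g := by
  have hPS := hP.1
  have : Finite P := finite_of_le hPS
  have hPp : IsPGroup 2 P := isPGroup_of_le hS hPS
  have hna' : ∃ x y : P, x * y ≠ y * x := by
    obtain ⟨a, ha, b, hb, hab⟩ := hna
    exact ⟨⟨a, ha⟩, ⟨b, hb⟩, fun h => hab (congrArg Subtype.val h)⟩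
  obtain ⟨zP, hzcomm, hzP1, hzP2, hzPc, hsolc, hsolP⟩ := metacyclic_two_involutions hPp hm hna' hidx
  set z : Ω := (zP : Ω) with hz
  have hzmem : z ∈ P := zP.2
  have hz1 : z ≠ 1 := fun h => hzP1 (Subtype.ext h)
  have hz2 : z ^ 2 = 1 := congrArg Subtype.val hzP2
  have hzc : ∀ w ∈ P, w * z = z * w := fun w hw => congrArg Subtype.val (hzPc ⟨w, hw⟩)
  -- any two solutions commute
  have hcs : ∀ x ∈ P, ∀ x' ∈ P, x ^ 2 = 1 → x' ^ 2 = 1 → x * x' = x' * x := by
    intro x hx x' hx' hx2 hx'2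
    by_cases h1 : x = 1
    · rw [h1]; simp
    by_cases h2 : x = z
    · rw [h2]; exact (hzc x' hx').symm
    rcases hsolP ⟨x, hx⟩ ⟨x', hx'⟩ (Subtype.ext hx2) (Subtype.ext hx'2)
      (fun h => h1 (congrArg Subtype.val h)) (fun h => h2 (congrArg Subtype.val h)) with h | h | h | h
    · have : x' = 1 := congrArg Subtype.val h
      rw [this]; simp
    · have : x' = z := congrArg Subtype.val h
      rw [this]; exact hzc x hx
    · have : x' = x := congrArg Subtype.val h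
      rw [this]
    · have : x' = z * x := congrArg Subtype.val h
      rw [this, ← mul_assoc, hzc x hx]
  let V : Subgroup Ω :=
    { carrier := {x | x ∈ P ∧ x ^ 2 = 1}
      one_mem' := ⟨P.one_mem, one_pow _⟩
      mul_mem' := by
        rintro a b ⟨ha, ha2⟩ ⟨hb, hb2⟩
        refine ⟨P.mul_mem ha hb, ?_⟩
        have h1 : Commute a b := hcs a ha b hb ha2 hb2
        rw [h1.mul_pow, ha2, hb2, one_mul]
      inv_mem' := by
        rintro a ⟨ha, ha2⟩
        exact ⟨P.inv_mem ha, by rw [inv_pow, ha2, inv_one]⟩ }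
  have hmemV : ∀ g, g ∈ V ↔ g ∈ P ∧ g ^ 2 = 1 := fun g => Iff.rfl
  have hVP : V ≤ P := fun g hg => hg.1
  have hVS : V ≤ S := hVP.trans hPS
  have hVc : ∀ a c : V, a * c = c * a := fun a c => Subtype.ext (hcs a a.2.1 c c.2.1 a.2.2 c.2.2)
  have hVsc : F.StronglyClosed V := by
    refine ⟨hVS, fun R hR φ' hφ' r => (hmemV _).2 ⟨hP.2 R (hR.trans hVP) φ' hφ' r, ?_⟩⟩
    have h1 : r ^ 2 = 1 := Subtype.ext ((hmemV r).1 (hR r.2)).2
    rw [← map_pow, h1, map_one]
  have hVn : F.IsNormal V := F.isNormal_of_abelian_stronglyClosed hS hF hVsc ⟨⟨hVc⟩⟩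
  set X : Subgroup Ω := Subgroup.zpowers z with hX
  have hzV : z ∈ V := ⟨hzmem, hz2⟩
  have hXV : X ≤ V := Subgroup.zpowers_le.2 hzV
  have hXmem : ∀ t ∈ X, t = 1 ∨ t = z := fun t ht => eq_one_or_eq_of_mem_zpowers_of_sq hz2 ht
  refine ⟨X, ?_, ?_, ?_, ?_⟩
  rotate_left
  · rw [Ne, Subgroup.zpowers_eq_bot]; exact hz1
  · exact Subgroup.zpowers_le.2 ⟨zP, hzcomm, rfl⟩
  · intro x hx g hg
    rcases hXmem x hx with h | h
    · rw [h]; simp
    · rw [h]; exact hzc g hg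
  by_contra hnsc
  have h1 : ∃ (R : Subgroup Ω) (_ : R ≤ X) (φ : R →* Ω) (_ : φ ∈ F.Hom R) (r : R), φ r ∉ X := by
    by_contra hcon
    push Not at hcon
    exact hnsc ⟨hXV.trans hVS, hcon⟩
  obtain ⟨R, hR, φ, hφ, r, hr⟩ := h1
  obtain ⟨γ, hγ, hγx⟩ := hVn.exists_aut_extend (hR.trans hXV) hφ
  have hrz : (r : Ω) = z := by
    rcases hXmem r (hR r.2) with h | h
    · exfalso
      apply hr
      have : r = 1 := Subtype.ext h
      rw [this, map_one]; exact X.one_mem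
    · exact h
  set zV : V := ⟨z, hzV⟩ with hzV_def
  have hinc : Subgroup.inclusion (hR.trans hXV) r = zV := Subtype.ext hrz
  set yV : V := γ zV with hyV
  set y : Ω := (yV : Ω) with hy
  have hyφ : y = φ r := by rw [← hγx r, hinc]
  have hyX : y ∉ X := by rw [hyφ]; exact hr
  have hyP : y ∈ P := yV.2.1
  have hy2 : y ^ 2 = 1 := yV.2.2
  have hy1 : y ≠ 1 := fun h => hyX (h ▸ X.one_mem)
  have hyz : y ≠ z := fun h => hyX (h ▸ Subgroup.mem_zpowers z)
  have hsol : ∀ x ∈ P, x ^ 2 = 1 → x = 1 ∨ x = z ∨ x = y ∨ x = z * y := by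
    intro x hx hx2
    rcases hsolP ⟨y, hyP⟩ ⟨x, hx⟩ (Subtype.ext hy2) (Subtype.ext hx2)
      (fun h => hy1 (congrArg Subtype.val h)) (fun h => hyz (congrArg Subtype.val h)) with h | h | h | h
    · exact Or.inl (congrArg Subtype.val h)
    · exact Or.inr (Or.inl (congrArg Subtype.val h))
    · exact Or.inr (Or.inr (Or.inl (congrArg Subtype.val h)))
    · exact Or.inr (Or.inr (Or.inr (congrArg Subtype.val h)))
  set A : Subgroup Ω := P ⊓ Subgroup.centralizer {y} with hA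
  have hmemA : ∀ w, w ∈ A ↔ w ∈ P ∧ w * y = y * w := by
    intro w
    rw [hA, Subgroup.mem_inf, Subgroup.mem_centralizer_singleton_iff]
  have hAC : A ≤ centralizerIn S V := by
    intro w hw
    obtain ⟨hwP, hwy⟩ := (hmemA w).1 hw
    refine mem_centralizerIn.2 ⟨hPS hwP, fun v hv => ?_⟩
    rcases hsol v hv.1 hv.2 with h | h | h | h
    · rw [h]; simp
    · rw [h]; exact (hzc w hwP).symm
    · rw [h]; exact hwy.symm
    · rw [h, mul_assoc, ← hwy, ← mul_assoc, ← hzc w hwP, mul_assoc]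
  have hrecV := (hF.fullyNormalized F hS (isFullyNormalized_of_stronglyClosed hVsc)).2.2
  obtain ⟨δ, hδ, hδe⟩ := hrecV.exists_extension F γ ((F.mem_autGroup_iff hVS γ).1 hγ)
    (hAC.trans (centralizerIn_le_extender _))
  have hzA : z ∈ A := (hmemA z).2 ⟨hzmem, (hzc y hyP).symm⟩
  have hδz : ((δ ⟨z, hzA⟩ : S) : Ω) = y := hδe zV ⟨z, hzA⟩ rfl
  have hδP : ∀ w : A, ((δ w : S) : Ω) ∈ P := fun w => hP.map_mem hδ ((hmemA w).1 w.2).1
  have hδy : ∀ w : A, ((δ w : S) : Ω) * y = y * ((δ w : S) : Ω) := by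
    intro w
    have h1 : w * ⟨z, hzA⟩ = ⟨z, hzA⟩ * w := Subtype.ext (hzc w ((hmemA w).1 w.2).1)
    have h2 := congrArg (fun t : A => ((δ t : S) : Ω)) h1
    simp only [map_mul, Subgroup.coe_mul, hδz] at h2
    exact h2
  have hab : ∀ w ∈ P, ∀ w' ∈ P, w * y = y * w → w' * y = y * w' → w * w' = w' * w := by
    intro w hw w' hw' hwy hw'y
    by_contra hne
    set wP : P := ⟨w, hw⟩
    set wP' : P := ⟨w', hw'⟩
    have hk1 : ⁅wP, wP'⁆ ≠ 1 := by
      intro h
      exact hne (congrArg Subtype.val (commutatorElement_eq_one_iff_mul_comm.1 h))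
    obtain ⟨x₀, hx₀, hx₀o⟩ := Cfsg.H1.exists_orderOf_eq_prime_mem_zpowers hPp hk1
    have hx2 : x₀ ^ 2 = 1 := by rw [← hx₀o]; exact pow_orderOf_eq_one _
    have hx1 : x₀ ≠ 1 := by
      intro h
      rw [h, orderOf_one] at hx₀o
      norm_num at hx₀o
    obtain ⟨i, hi⟩ := Subgroup.mem_zpowers_iff.1 hx₀
    have hx₀c : x₀ ∈ commutator P := by
      rw [← hi]
      exact Subgroup.zpow_mem _ (Cfsg.H1.comm_mem_commutator wP wP') i
    have hx₀z : x₀ = zP := by
      rcases hsolc x₀ hx₀c hx2 with h | h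
      · exact absurd h hx1
      · exact h
    set wA : A := ⟨w, (hmemA w).2 ⟨hw, hwy⟩⟩
    set wA' : A := ⟨w', (hmemA w').2 ⟨hw', hw'y⟩⟩
    have h3 : (⟨z, hzA⟩ : A) = ⁅wA, wA'⁆ ^ i := by
      apply Subtype.ext
      have h4 := congrArg Subtype.val (hi.trans hx₀z)
      simp only [Subgroup.coe_zpow, commutatorElement_def, Subgroup.coe_mul, Subgroup.coe_inv] at h4 ⊢
      exact h4.symm
    set vP : P := ⟨δ wA, hδP wA⟩
    set vP' : P := ⟨δ wA', hδP wA'⟩
    have h5 : ((⁅vP, vP'⁆ ^ i : P) : Ω) = y := by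
      rw [← hδz, h3, map_zpow, map_commutatorElement]
      simp only [Subgroup.coe_zpow, commutatorElement_def, Subgroup.coe_mul, Subgroup.coe_inv]
      rfl
    have h6 : ⁅vP, vP'⁆ ^ i ∈ commutator P :=
      Subgroup.zpow_mem _ (Cfsg.H1.comm_mem_commutator vP vP') i
    have h7 : (⁅vP, vP'⁆ ^ i) ^ 2 = 1 := Subtype.ext (by
      rw [Subgroup.coe_pow, h5]; exact hy2)
    rcases hsolc _ h6 h7 with h | h
    · apply hy1; rw [← h5, h]; rfl
    · apply hyz; rw [← h5, h]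
  have hexg : ∃ g ∈ P, g * y ≠ y * g := by
    by_contra hcon
    push Not at hcon
    obtain ⟨a, ha, b, hb, hab'⟩ := hna
    exact hab' (hab a ha b hb (hcon a ha) (hcon b hb))
  obtain ⟨g, hg, hgy⟩ := hexg
  have hgy' : g * y * g⁻¹ = z * y := by
    have h1 : g * y * g⁻¹ ∈ P := P.mul_mem (P.mul_mem hg hyP) (P.inv_mem hg)
    have h2 : (g * y * g⁻¹) ^ 2 = 1 := by rw [conj_pow, hy2]; group
    rcases hsol _ h1 h2 with h | h | h | h
    · exfalso
      apply hy1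
      have h4 : y = g⁻¹ * (g * y * g⁻¹) * g := by group
      rw [h4, h]; group
    · exfalso
      apply hyz
      have h4 : y = g⁻¹ * (g * y * g⁻¹) * g := by group
      rw [h4, h, mul_assoc, ← hzc g hg]; group
    · exfalso
      apply hgy
      calc g * y = g * y * g⁻¹ * g := by group
        _ = y * g := by rw [h]
    · exact h
  refine no_swap_of_three_involutions P hPp z y g hzmem hyP hg hz1 hz2 hy2 hzc hsol hab ?_ hgy'
  intro e he hey k hek
  set eA : A := ⟨e, (hmemA e).2 ⟨he, hey⟩⟩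
  refine ⟨δ eA, hδP eA, hδy eA, ?_⟩
  have h1 : eA ^ (2 ^ k) = ⟨z, hzA⟩ := Subtype.ext hek
  rw [← hδz, ← h1, map_pow]
  rfl

end FusionSystem
end Cfsg
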