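import Cfsg.Agent.Fus.MetaTwoGrp
import Cfsg.Agent.S0646
import Cfsg.Agent.S0206
import Cfsg.Agent.Lib.Helper18.Quat
import Cfsg.Agent.H1.Small2
import Cfsg.Agent.H1.MaxClass2
import Cfsg.Prelude.Def_CaseTheorems

/-!
Group-theoretic lemmas for S5235, part 4: a non-abelian metacyclic 2-group with `|P : P'| < 8` is
dihedral, generalized quaternion or quasi-dihedral.
-/

set_option autoImplicit false

namespace Cfsg.Agent.Fus

open Cfsg.H1 Subgroup
open scoped commutatorElement

theorem comm_of_zpowers_eq_top {P : Type*} [Group P] {b : P} (h : zpowers b = ⊤) (x y : P) :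
    x * y = y * x := by
  have hx : x ∈ zpowers b := h ▸ mem_top x
  have hy : y ∈ zpowers b := h ▸ mem_top y
  obtain ⟨i, rfl⟩ := hx
  obtain ⟨j, rfl⟩ := hy
  simp only
  rw [← zpow_add, ← zpow_add, add_comm]

theorem eight_le_index_commutator {P : Type*} [Group P] [Finite P] (hP : IsPGroup 2 P)
    (hm : Cfsg.IsMetacyclic P) (hna : ∃ x y : P, x * y ≠ y * x)
    (hd : ¬ ∃ m : ℕ, Nonempty (P ≃* DihedralGroup m))
    (hq : ¬ ∃ m : ℕ, Nonempty (P ≃* QuaternionGroup m))
    (hsd : ¬ Cfsg.IsQuasiDihedral P) : 8 ≤ (commutator P).index := by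
  by_contra hlt
  push Not at hlt
  obtain ⟨a0, b0, h0⟩ := exists_mcGen hm
  have hle : commutator P ≤ zpowers a0 := h0.commutator_le
  have hrel := Subgroup.relIndex_mul_index hle
  obtain ⟨κ, hκ⟩ := hP.index (zpowers a0)
  have hidx2 : (zpowers a0).index = 2 := by
    rcases κ with _ | _ | κ
    · exfalso
      rw [pow_zero, Subgroup.index_eq_one] at hκ
      obtain ⟨x, y, hxy⟩ := hna
      exact hxy (comm_of_zpowers_eq_top hκ x y)
    · simpa using hκ
    · exfalso
      have hrel0 : (commutator P).relIndex (zpowers a0) ≠ 0 := by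
        intro h
        rw [h, zero_mul] at hrel
        exact Subgroup.index_ne_zero_of_finite hrel.symm
      have h4 : 4 ≤ (zpowers a0).index := by
        rw [hκ]
        calc 4 = 2 ^ 2 := by norm_num
          _ ≤ 2 ^ (κ + 1 + 1) := Nat.pow_le_pow_right (by norm_num) (by omega)
      have h1 : (commutator P).relIndex (zpowers a0) = 1 := by
        by_contra hne
        have h2 : 2 ≤ (commutator P).relIndex (zpowers a0) := by omega
        have := Nat.mul_le_mul h2 h4
        omega
      rw [Subgroup.relIndex_eq_one] at h1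
      have ha : a0 ∈ frattini P := (frattini_pgroup_ge 2 hP).1 (h1 (mem_zpowers a0))
      have h2 : zpowers b0 ⊔ frattini P = ⊤ := by
        rw [eq_top_iff, ← h0.gen, closure_le]
        rintro w (rfl | rfl)
        · exact (le_sup_right : frattini P ≤ _) ha
        · exact (le_sup_left : zpowers w ≤ _) (mem_zpowers w)
      have h3 := frattini_nongenerating h2
      obtain ⟨x, y, hxy⟩ := hna
      exact hxy (comm_of_zpowers_eq_top h3 x y)
  obtain ⟨n, hn⟩ := IsPGroup.iff_card.1 hP
  have hn3 : 3 ≤ n := by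
    by_contra hcon
    have h1 := isMulCommutative_of_card_pow_le_two (p := 2) (k := n) (by omega) hn
    obtain ⟨x, y, hxy⟩ := hna
    exact hxy (h1.is_comm.comm x y)
  obtain ⟨a, b, hoa, hb, hcases⟩ := Cfsg.Agent.S0646.result n hn3 hn (zpowers a0) inferInstance hidx2 hna
  obtain ⟨m, rfl⟩ : ∃ m, n = m + 3 := ⟨n - 3, by omega⟩
  have e1 : m + 3 - 1 = m + 2 := by omega
  have e2 : m + 3 - 2 = m + 1 := by omega
  rw [e1] at hoa
  rw [e2] at hcases
  have hai : (zpowers a).index = 2 := by
    have h1 := (zpowers a).card_mul_index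
    rw [Nat.card_zpowers, hoa, hn] at h1
    have h2 : 2 ^ (m + 2) * (zpowers a).index = 2 ^ (m + 2) * 2 := by rw [h1]; ring
    exact Nat.eq_of_mul_eq_mul_left (by positivity) h2
  have hgen : closure {a, b} = ⊤ := by
    rw [eq_top_iff]
    intro g _
    have hza : zpowers a ≤ closure {a, b} := zpowers_le.2 (subset_closure (by simp))
    have hbc : b ∈ closure {a, b} := subset_closure (by simp)
    by_cases hg : g ∈ zpowers a
    · exact hza hg
    · have h1 : g * b ∈ zpowers a := (Subgroup.mul_mem_iff_of_index_two hai).2 (by tauto)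
      have h2 : g = (g * b) * b⁻¹ := by group
      rw [h2]
      exact mul_mem (hza h1) (inv_mem hbc)
  have hb1 : b ≠ 1 := fun h => hb (h ▸ one_mem _)
  have ha1 : a ≠ 1 := by
    intro h
    rw [h, orderOf_one] at hoa
    have : 1 < 2 ^ (m + 2) := Nat.one_lt_two_pow (by omega)
    omega
  rcases hcases with ⟨hb2, hconj⟩ | ⟨hb2, hconj⟩ | ⟨h4, hb2, hconj⟩ | ⟨h4, hb2, hconj⟩
  · -- dihedral
    apply hd
    have hob : orderOf b = 2 := orderOf_eq_prime hb2 hb1
    have hab2 : (a * b) ^ 2 = 1 := by
      calc (a * b) ^ 2 = a * (b * a * b⁻¹) * b ^ 2 := by rw [pow_two, pow_two]; group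
        _ = 1 := by rw [hconj, hb2]; group
    have hab1 : a * b ≠ 1 := by
      intro h
      apply hb
      have : b = a⁻¹ := (eq_inv_of_mul_eq_one_right h)
      rw [this]
      exact inv_mem (mem_zpowers a)
    have hoab : orderOf (a * b) = 2 := orderOf_eq_prime hab2 hab1
    have hne : b ≠ a * b := by
      intro h
      apply ha1
      have h1 : 1 * b = a * b := by rw [one_mul]; exact h
      exact (mul_right_cancel h1).symm
    obtain ⟨e⟩ := Cfsg.Agent.S0206.result b (a * b) hob hoab hne
    have hcl : closure {b, a * b} = ⊤ := by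
      rw [eq_top_iff, ← hgen, closure_le]
      rintro w (rfl | rfl)
      · have h1 : w = (w * b) * b⁻¹ := by group
        have h2 : w * b ∈ closure {b, w * b} := subset_closure (by simp)
        have h3 : b ∈ closure {b, w * b} := subset_closure (by simp)
        have h4 := mul_mem h2 (inv_mem h3)
        rwa [mul_inv_cancel_right] at h4
      · exact subset_closure (by simp)
    exact ⟨_, ⟨(Subgroup.topEquiv.symm.trans (MulEquiv.subgroupCongr hcl.symm)).trans e⟩⟩
  · -- quaternion
    apply hq
    have : NeZero (2 ^ (m + 1)) := ⟨by positivity⟩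
    exact ⟨2 ^ (m + 1), Cfsg.Agent.Lib.Helper18.mulEquiv_quaternion (2 ^ (m + 1)) a b
      (by rw [hoa]; ring) hb hb2 hconj (by rw [hn]; ring)⟩
  · -- modular
    have hmc : MCGen a b := ⟨Subgroup.normal_of_index_eq_two hai, hgen⟩
    have hc : ⁅b, a⁆ = a ^ (2 ^ (m + 1)) := by
      rw [commutatorElement_def, hconj, pow_add, pow_one]
      group
    have ho : orderOf (a ^ (2 ^ (m + 1))) = 2 := by
      apply orderOf_eq_prime
      · rw [← pow_mul, ← pow_succ, ← hoa, pow_orderOf_eq_one]
      · intro h
        have h2 := orderOf_dvd_of_pow_eq_one h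
        rw [hoa] at h2
        have := (Nat.pow_dvd_pow_iff_le_right (by norm_num : 1 < 2)).1 h2
        omega
    have hcard : Nat.card (commutator P) = 2 := by
      rw [hmc.commutator_eq, hc, Nat.card_zpowers, ho]
    have h1 := (commutator P).card_mul_index
    rw [hcard, hn] at h1
    have h2 : 2 ^ (m + 3) = 2 * (2 ^ m * 4) := by ring
    have h3 : 2 ^ 1 ≤ 2 ^ m := Nat.pow_le_pow_right (by norm_num) (by omega)
    omega
  · -- quasi-dihedral
    apply hsd
    refine ⟨m + 2, ?_, hn, a, b, hoa, orderOf_eq_prime hb2 hb1, ?_⟩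
    · omega
    · rw [hconj]
      rfl

end Cfsg.Agent.Fus
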