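import Cfsg.Agent.Fus.MetaTwoBase
import Cfsg.Agent.Fus.MetaTwoGrp4
import Cfsg.Agent.Fus.Solv

/-!
S5235: a strongly closed metacyclic 2-subgroup which is not dihedral, quaternion or quasi-dihedral is normal.
-/

set_option autoImplicit false

namespace Cfsg
namespace FusionSystem

open Cfsg.Agent.Fus
open scoped commutatorElement

variable {Ω : Type*} [Group Ω] {S : Subgroup Ω} [Finite S]

theorem exists_succ_of_metacyclic_two (hS : IsPGroup 2 S) (F : FusionSystem S)
    (hF : F.IsSaturated 2) {P : Subgroup Ω} (hP : F.StronglyClosed P)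
    (hm : Cfsg.IsMetacyclic P) (hidx : 8 ≤ (commutator P).index) {R : Subgroup Ω}
    (hR : F.StronglyClosed R) (hRD : R ≤ (commutator P).map P.subtype)
    (hne : R ≠ (commutator P).map P.subtype) :
    ∃ R' : Subgroup Ω, F.StronglyClosed R' ∧ R < R' ∧ R' ≤ (commutator P).map P.subtype ∧
      ⁅P, R'⁆ ≤ R := by
  set D : Subgroup Ω := (commutator P).map P.subtype with hD
  have hDP : D ≤ P := map_subtype_le' _
  have hRP : R ≤ P := hRD.trans hDP
  have hn := hR.subgroupOf_normal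
  have hq := isQuotMap_mk' (S := S) R
  have hE := F.isFactorSystem_factorSys R hR _ _ hq
  have hEsat := hE.isSaturated hR hS hF
  have hp' : IsPGroup 2 (⊤ : Subgroup (S ⧸ R.subgroupOf S)) :=
    (hS.to_quotient (R.subgroupOf S)).to_subgroup _
  have hP' := hE.stronglyClosed_image hP hRP
  let f : P →* imageAlong (QuotientGroup.mk' (R.subgroupOf S)) P :=
    { toFun := fun x => ⟨QuotientGroup.mk' (R.subgroupOf S) ⟨x, hP.1 x.2⟩,
        mem_imageAlong.2 ⟨x, hP.1 x.2, x.2, rfl⟩⟩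
      map_one' := rfl
      map_mul' := fun x y => rfl }
  have hfs : Function.Surjective f := by
    rintro ⟨y, hy⟩
    obtain ⟨x, hxS, hxP, rfl⟩ := mem_imageAlong.1 hy
    exact ⟨⟨x, hxP⟩, rfl⟩
  have hm' : Cfsg.IsMetacyclic (imageAlong (QuotientGroup.mk' (R.subgroupOf S)) P) :=
    isMetacyclic_of_surjective f hfs hm
  have hker : f.ker ≤ commutator P := by
    intro x hx
    have h1 : QuotientGroup.mk' (R.subgroupOf S) ⟨x, hP.1 x.2⟩ = 1 :=
      congrArg Subtype.val (MonoidHom.mem_ker.1 hx)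
    obtain ⟨c, hc, hcx⟩ := hRD ((hq.ker _).1 h1)
    have : c = x := Subtype.ext hcx
    rw [← this]; exact hc
  have hcomm' : commutator (imageAlong (QuotientGroup.mk' (R.subgroupOf S)) P) = (commutator P).map f := by
    rw [commutator_def, commutator_def, Subgroup.map_commutator, Subgroup.map_top_of_surjective f hfs]
  have hidx' : 8 ≤ (commutator (imageAlong (QuotientGroup.mk' (R.subgroupOf S)) P)).index := by
    rw [hcomm', Subgroup.index_map_eq _ hfs hker]
    exact hidx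
  have hna' : ∃ a ∈ imageAlong (QuotientGroup.mk' (R.subgroupOf S)) P,
      ∃ b ∈ imageAlong (QuotientGroup.mk' (R.subgroupOf S)) P, a * b ≠ b * a := by
    by_contra hcon
    push Not at hcon
    apply hne
    apply le_antisymm hRD
    rw [hD, Subgroup.map_le_iff_le_comap, commutator_def, Subgroup.commutator_le]
    intro g₁ _ g₂ _
    rw [Subgroup.mem_comap]
    have h2 := hcon _ (f g₁).2 _ (f g₂).2
    have h2' : QuotientGroup.mk' (R.subgroupOf S) ⟨g₁, hP.1 g₁.2⟩ *
        QuotientGroup.mk' (R.subgroupOf S) ⟨g₂, hP.1 g₂.2⟩ =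
        QuotientGroup.mk' (R.subgroupOf S) ⟨g₂, hP.1 g₂.2⟩ *
        QuotientGroup.mk' (R.subgroupOf S) ⟨g₁, hP.1 g₁.2⟩ := h2
    have h3 : QuotientGroup.mk' (R.subgroupOf S) ⁅(⟨g₁, hP.1 g₁.2⟩ : S), ⟨g₂, hP.1 g₂.2⟩⁆ = 1 := by
      rw [commutatorElement_def, map_mul, map_mul, map_mul, map_inv, map_inv, h2']
      group
    exact (hq.ker _).1 h3
  obtain ⟨X', hX'sc, hX'ne, hX'D, hX'c⟩ :=
    exists_central_stronglyClosed_of_metacyclic_two hp' _ hEsat hP' hm' hna' hidx'
  refine ⟨_, hE.stronglyClosed_preimage hS hF hR hX'sc,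
    lt_of_le_of_ne (hq.le_preimageAlong hR.1 X') ?_, ?_, ?_⟩
  · intro heq
    apply hX'ne
    rw [Subgroup.eq_bot_iff_forall]
    intro a ha
    obtain ⟨x, hx, hxa⟩ := hq.exists_preimage hX'sc.1 ⟨a, ha⟩
    have h1 : (x : Ω) ∈ R := heq.ge x.2
    have h2 : a = QuotientGroup.mk' (R.subgroupOf S) ⟨x, hx⟩ := hxa.symm
    rw [h2]
    exact (hq.ker _).2 h1
  · intro x hx
    obtain ⟨hxS, hx'⟩ := mem_preimageAlong.1 hx
    obtain ⟨c', hc', hc'x⟩ := hX'D hx'
    rw [hcomm'] at hc'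
    obtain ⟨c, hc, rfl⟩ := hc'
    have he : QuotientGroup.mk' (R.subgroupOf S) ⟨c, hP.1 c.2⟩ =
        QuotientGroup.mk' (R.subgroupOf S) ⟨x, hxS⟩ := hc'x
    rw [hq.eq_iff] at he
    have hcD : (c : Ω) ∈ D := ⟨c, hc, rfl⟩
    have h1 := D.mul_mem hcD (hRD he)
    simpa using h1
  · rw [Subgroup.commutator_le]
    intro a ha b hb
    have haS := hP.1 ha
    obtain ⟨hbS, hb'⟩ := mem_preimageAlong.1 hb
    have ha' : QuotientGroup.mk' (R.subgroupOf S) ⟨a, haS⟩ ∈
        imageAlong (QuotientGroup.mk' (R.subgroupOf S)) P := mem_imageAlong.2 ⟨a, haS, ha, rfl⟩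
    have h2 := hX'c _ hb' _ ha'
    have h3 : QuotientGroup.mk' (R.subgroupOf S) ⁅(⟨a, haS⟩ : S), ⟨b, hbS⟩⁆ = 1 := by
      rw [commutatorElement_def, map_mul, map_mul, map_mul, map_inv, map_inv, h2]
      group
    exact (hq.ker _).1 h3

theorem exists_chain_of_metacyclic_two (hS : IsPGroup 2 S) (F : FusionSystem S)
    (hF : F.IsSaturated 2) {P : Subgroup Ω} (hP : F.StronglyClosed P)
    (hm : Cfsg.IsMetacyclic P) (hidx : 8 ≤ (commutator P).index) :
    ∀ (k : ℕ) (R : Subgroup Ω), F.StronglyClosed R → R ≤ (commutator P).map P.subtype →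
      Nat.card P - Nat.card R = k →
      ∃ (n : ℕ) (T : Fin (n + 1) → Subgroup Ω), T 0 = R ∧ T (Fin.last n) = P ∧
        ∀ i : Fin n, F.StronglyClosed (T i.succ) ∧ ⁅P, T i.succ⁆ ≤ T (Fin.castSucc i) := by
  intro k
  induction k using Nat.strong_induction_on with
  | _ k ih =>
    intro R hR hRD hk
    by_cases hne : R = (commutator P).map P.subtype
    · refine ⟨1, ![R, P], rfl, rfl, ?_⟩
      intro i
      have hi : i = 0 := Subsingleton.elim _ _
      subst hi
      refine ⟨hP, ?_⟩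
      show ⁅P, P⁆ ≤ R
      rw [hne, Subgroup.commutator_le]
      intro g₁ h₁ g₂ h₂
      exact ⟨⁅(⟨g₁, h₁⟩ : P), ⟨g₂, h₂⟩⁆, Cfsg.H1.comm_mem_commutator _ _, rfl⟩
    · obtain ⟨R', hR', hlt, hR'D, hcomm⟩ := exists_succ_of_metacyclic_two hS F hF hP hm hidx hR hRD hne
      have h1 := card_lt_of_lt hR'.1 hlt
      have : Finite P := finite_of_le hP.1
      have h2 : Nat.card R' ≤ Nat.card P := Subgroup.card_le_of_le (hR'D.trans (map_subtype_le' _))
      obtain ⟨n, T, hT0, hTn, hT⟩ := ih (Nat.card P - Nat.card R') (by omega) R' hR' hR'D rfl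
      refine ⟨n + 1, Fin.cons R T, rfl, ?_, ?_⟩
      · rw [← Fin.succ_last, Fin.cons_succ]
        exact hTn
      · intro i
        refine Fin.cases ?_ (fun j => ?_) i
        · show F.StronglyClosed (T 0) ∧ ⁅P, T 0⁆ ≤ R
          rw [hT0]
          exact ⟨hR', hcomm⟩
        · rw [← Fin.succ_castSucc, Fin.cons_succ, Fin.cons_succ]
          exact hT j

/-- S5235. -/
theorem isNormal_of_metacyclic_two (hS : IsPGroup 2 S) (F : FusionSystem S)
    (hF : F.IsSaturated 2) {P : Subgroup Ω} (hP : F.StronglyClosed P)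
    (hm : Cfsg.IsMetacyclic P) (hd : ¬ ∃ m : ℕ, Nonempty (P ≃* DihedralGroup m))
    (hq : ¬ ∃ m : ℕ, Nonempty (P ≃* QuaternionGroup m)) (hsd : ¬ Cfsg.IsQuasiDihedral P) :
    F.IsNormal P := by
  have : Finite P := finite_of_le hP.1
  have hPp : IsPGroup 2 P := isPGroup_of_le hS hP.1
  by_cases hna : ∃ x y : P, x * y ≠ y * x
  · have hidx := eight_le_index_commutator hPp hm hna hd hq hsd
    obtain ⟨n, T, hT0, hTn, hT⟩ := exists_chain_of_metacyclic_two hS F hF hP hm hidx _ ⊥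
      F.stronglyClosed_bot bot_le rfl
    exact F.isNormal_of_fin_chain hS hF n T hT0 hTn hT
  · push Not at hna
    exact F.isNormal_of_abelian_stronglyClosed hS hF hP ⟨⟨hna⟩⟩

end FusionSystem
end Cfsg
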