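import Mathlib
import Cfsg.Agent.H1.Meta10

/-!
Group-theoretic lemmas for S5235 (strongly closed metacyclic 2-subgroups), part 1.
-/

set_option autoImplicit false

namespace Cfsg.Agent.Fus

theorem eq_one_or_eq_pow_of_mem_zpowers {H : Type*} [Group H] {e t : H} {k : ℕ}
    (he : orderOf e = 2 ^ (k + 1)) (ht : t ∈ Subgroup.zpowers e) (ht2 : t ^ 2 = 1) :
    t = 1 ∨ t = e ^ (2 ^ k) := by
  obtain ⟨i, rfl⟩ := Subgroup.mem_zpowers_iff.1 ht
  have h1 : e ^ (i * 2) = 1 := by
    rw [zpow_mul]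
    exact_mod_cast ht2
  have h2 : ((2 ^ (k + 1) : ℕ) : ℤ) ∣ i * 2 := by
    rw [← he]; exact orderOf_dvd_iff_zpow_eq_one.2 h1
  have h3 : ((2 : ℤ) ^ k) ∣ i := by
    push_cast at h2
    rw [pow_succ] at h2
    exact Int.dvd_of_mul_dvd_mul_right (by norm_num) h2
  obtain ⟨l, rfl⟩ := h3
  have hy2 : (e ^ (2 ^ k)) ^ 2 = 1 := by
    rw [← pow_mul, ← pow_succ, ← he, pow_orderOf_eq_one]
  have h4 : e ^ ((2 : ℤ) ^ k * l) = (e ^ (2 ^ k)) ^ l := by
    rw [zpow_mul]
    congr 1
    exact_mod_cast (zpow_natCast e (2 ^ k))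
  rw [h4]
  rcases Int.even_or_odd' l with ⟨q, rfl | rfl⟩
  · left
    rw [zpow_mul]
    have : (e ^ (2 ^ k)) ^ (2 : ℤ) = 1 := by exact_mod_cast hy2
    rw [this, one_zpow]
  · right
    rw [zpow_add, zpow_mul, zpow_one]
    have : (e ^ (2 ^ k)) ^ (2 : ℤ) = 1 := by exact_mod_cast hy2
    rw [this, one_zpow, one_mul]

theorem card_le_four_pow_comm : ∀ (n : ℕ) (B : Type*) [CommGroup B] [Finite B],
    (∀ w : B, w ^ (2 ^ n) = 1) → (∀ t : Finset B, (∀ w ∈ t, w ^ 2 = 1) → t.card ≤ 4) →
    Nat.card B ≤ 4 ^ n := by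
  intro n
  induction n with
  | zero =>
    intro B _ _ hexp _
    have : Subsingleton B := ⟨fun u v => by
      have h1 := hexp u
      have h2 := hexp v
      simp only [pow_zero, pow_one] at h1 h2
      rw [h1, h2]⟩
    simp
  | succ n ih =>
    intro B _ _ hexp hsol
    classical
    let sq : B →* B := powMonoidHom 2
    have h1 : Nat.card B = Nat.card sq.range * Nat.card sq.ker := by
      rw [Subgroup.card_eq_card_quotient_mul_card_subgroup sq.ker,
        Nat.card_congr (QuotientGroup.quotientKerEquivRange sq).toEquiv]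
    have h2 : Nat.card sq.ker ≤ 4 := by
      have : Fintype B := Fintype.ofFinite B
      have h3 := hsol (Finset.univ.filter (fun w : B => w ^ 2 = 1)) (by
        intro w hw
        exact (Finset.mem_filter.1 hw).2)
      refine le_trans (le_of_eq ?_) h3
      rw [← Fintype.card_subtype, ← Nat.card_eq_fintype_card]
      apply Nat.card_congr
      exact Equiv.subtypeEquivRight (fun w => by
        rw [MonoidHom.mem_ker]
        rfl)
    have h3 : Nat.card sq.range ≤ 4 ^ n := by
      apply ih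
      · rintro ⟨_, u, rfl⟩
        apply Subtype.ext
        show (u ^ 2) ^ (2 ^ n) = 1
        rw [← pow_mul, ← pow_succ']
        exact hexp u
      · intro t ht
        have h4 := hsol (t.map ⟨Subtype.val, Subtype.val_injective⟩) (by
          intro w hw
          obtain ⟨w', hw', rfl⟩ := Finset.mem_map.1 hw
          exact congrArg Subtype.val (ht w' hw'))
        rwa [Finset.card_map] at h4
    rw [h1, pow_succ]
    exact Nat.mul_le_mul h3 h2

theorem card_le_four_pow {B : Type*} [Group B] [Finite B] (hc : ∀ u v : B, u * v = v * u) (n : ℕ)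
    (hexp : ∀ w : B, w ^ (2 ^ n) = 1) (hsol : ∀ t : Finset B, (∀ w ∈ t, w ^ 2 = 1) → t.card ≤ 4) :
    Nat.card B ≤ 4 ^ n := by
  let _ : CommGroup B := { ‹Group B› with mul_comm := hc }
  exact card_le_four_pow_comm n B hexp hsol

end Cfsg.Agent.Fus
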