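import Cfsg.Agent.Fus.Alperin
import Cfsg.Agent.Fus.Essential
import Cfsg.Agent.Fus.Residual

/-!
The full subsystem of a fusion system on a smaller subgroup; saturated subsystems lie in subsystems of `p`-power index.
-/

set_option autoImplicit false

namespace Cfsg
namespace FusionSystem

open Agent.Fus

variable {Ω : Type*} [Group Ω] {S T U : Subgroup Ω}

/-- The maps of `F₀` between subgroups of `T`. -/
def restrictSys (F₀ : FusionSystem U) (T : Subgroup Ω) (hTU : T ≤ U) : FusionSystem T where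
  Hom P := {φ | φ ∈ F₀.Hom P ∧ P ≤ T ∧ ∀ x, φ x ∈ T}
  le_of_mem h := ⟨h.2.1, h.2.2⟩
  injective_of_mem h := F₀.injective_of_mem h.1
  conj_mem := by
    intro P g hP hg
    exact ⟨F₀.conj_mem (hP.trans hTU) (hTU hg), hP, fun x => T.mul_mem (T.mul_mem hg (hP x.2)) (T.inv_mem hg)⟩
  comp_mem := by
    rintro P Q φ ψ ⟨h1, h2, h3⟩ ⟨h4, h5, h6⟩ h
    exact ⟨F₀.comp_mem h1 h4 h, h2, fun x => h6 _⟩
  inv_mem := by
    rintro P φ ⟨h1, h2, h3⟩
    obtain ⟨ψ, hψ, hψx⟩ := F₀.inv_mem h1
    refine ⟨ψ, ⟨hψ, ?_, ?_⟩, hψx⟩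
    · rintro _ ⟨x, rfl⟩
      exact h3 x
    · rintro ⟨_, x, rfl⟩
      rw [hψx]
      exact h2 x.2

theorem mem_autGroup_restrictSys (F₀ : FusionSystem U) (hTU : T ≤ U) {P : Subgroup Ω} (hP : P ≤ T)
    {α : MulAut P} (hα : α ∈ F₀.autGroup P) : α ∈ (F₀.restrictSys T hTU).autGroup P := by
  rw [mem_autGroup_iff _ hP]
  exact ⟨(F₀.mem_autGroup_iff (hP.trans hTU) α).1 hα, hP, fun x => hP (α x).2⟩

theorem opOf_mono' {X : Type*} [Group X] (p : ℕ) {A B : Subgroup X} (h : A ≤ B) : opOf p A ≤ opOf p B := by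
  rw [opOf_eq_closure, opOf_eq_closure]
  exact Subgroup.closure_mono (fun a ha => ⟨h ha.1, ha.2⟩)

/-- A saturated subsystem `E` of `F` over `T` is contained in every subsystem of `p`-power index over a subgroup
containing `T`. -/
theorem isSubsystemOf_of_hasPPowerIndexIn {F : FusionSystem S} {E : FusionSystem T} {F₀ : FusionSystem U}
    [Finite T] {p : ℕ} [Fact p.Prime] (hT : IsPGroup p T) (hE : E.IsSaturated p) (hEF : E.IsSubsystemOf F)
    (hTS : T ≤ S) (hTU : T ≤ U) (hidx : F₀.HasPPowerIndexIn F p) : E.IsSubsystemOf F₀ := by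
  have key : E ≤ F₀.restrictSys T hTU := by
    apply E.alperin _ hT hE
    intro P hP
    have hPn : E.IsFullyNormalized P := by
      rcases hP with rfl | hP
      · exact E.isFullyNormalized_self
      · exact hP.2.1
    have hPT : P ≤ T := hPn.1
    have hfP : Finite P := finite_of_le hPT
    have hsyl := (hE.fullyNormalized E hT hPn).2.1.isSylowIn
    intro a ha
    obtain ⟨b, hb, u, hu, -, rfl⟩ := hsyl.exists_mul_opOf ha
    refine Subgroup.mul_mem _ ?_ (autInducedBy_le_autGroup _ hPT hu)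
    apply mem_autGroup_restrictSys F₀ hTU hPT
    apply hidx.2.2 P (hPT.trans hTU)
    have hle : E.autGroup P ≤ F.autGroup P := by
      intro α hα
      rw [F.mem_autGroup_iff (hPT.trans hTS)]
      exact hEF P ((E.mem_autGroup_iff hPT α).1 hα)
    exact opOf_mono' p hle hb
  intro P φ hφ
  exact (key P hφ).1

end FusionSystem
end Cfsg
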