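import Cfsg.Agent.Fus.Lift
import Cfsg.Agent.Fus.Focal
import Cfsg.Agent.Fus.Restrict
import Cfsg.Agent.Fus.Model
import Cfsg.Agent.Lib.Helper27.FusHyper

/-!
Saturated subsystems of `p`-power index over normal subgroups are normal (S5120).
-/

set_option autoImplicit false

namespace Cfsg
namespace FusionSystem

open Cfsg.Agent.Fus Cfsg.Agent.Lib.Helper27.Fus

variable {Ω : Type*} [Group Ω] {S T : Subgroup Ω}

theorem stronglyClosed_of_hyperfocal_le (F : FusionSystem S) [Finite S] {p : ℕ} [Fact p.Prime]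
    (hS : IsPGroup p S) (hF : F.IsSaturated p) (hTS : T ≤ S) (hn : ∀ g ∈ S, ∀ x ∈ T, g * x * g⁻¹ ∈ T)
    (hT : F.hyperfocalSubgroup p ≤ T) : F.StronglyClosed T := by
  have hT' : ∀ g ∈ S, ∀ x, x ∈ T ↔ g * x * g⁻¹ ∈ T := by
    intro g hg x
    refine ⟨hn g hg x, fun h => ?_⟩
    have h1 := hn g⁻¹ (S.inv_mem hg) _ h
    have h2 : g⁻¹ * (g * x * g⁻¹) * g⁻¹⁻¹ = x := by group
    rwa [h2] at h1
  have hle : F ≤ F.preserveSub T hT' := by
    apply F.alperin _ hS hF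
    intro P hP α hα
    have hfa := hF.fullyAutomized_of F hS hP
    have hPle := hfa.1
    have : Finite P := finite_of_le hPle
    apply Subgroup.subset_closure
    refine ⟨(F.mem_autGroup_iff hPle α).1 hα, fun x => ?_⟩
    obtain ⟨b, hb, u, hu, -, rfl⟩ := hfa.isSylowIn.exists_mul_opOf hα
    obtain ⟨g, hg, hgx⟩ := (mem_autInducedBy_iff u).1 hu
    have h1 : (x : Ω) ∈ T ↔ ((u x : P) : Ω) ∈ T := by
      rw [hgx]; exact hT' g hg x
    have h2 := hT (F.mem_hyperfocal p hPle hb (u x))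
    rw [h1]
    show _ ↔ ((b (u x) : P) : Ω) ∈ T
    constructor
    · intro h3
      have h4 := Subgroup.mul_mem _ h3 h2
      rwa [mul_inv_cancel_left] at h4
    · intro h3
      have h4 := Subgroup.mul_mem _ h3 (Subgroup.inv_mem _ h2)
      have h5 : ((b (u x) : P) : Ω) * (((u x : P) : Ω)⁻¹ * ((b (u x) : P) : Ω))⁻¹ = ((u x : P) : Ω) := by
        group
      rwa [h5] at h4
  refine ⟨hTS, fun R hR φ hφ x => ?_⟩
  exact ((hle R hφ).2 x).1 (hR x.2)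

/-- The maps of `E` all of whose `Aut_F(T)`-conjugates lie in `E`. -/
def invPart (E : FusionSystem T) (F : FusionSystem S) : FusionSystem T where
  Hom P := {φ | φ ∈ E.Hom P ∧ ∀ (hPT : P ≤ T), ∀ α ∈ F.autGroup T,
    ∃ χ ∈ E.Hom ((P.subgroupOf T).map (T.subtype.comp α.toMonoidHom)),
      ∀ (x : P) (hφx : φ x ∈ T)
        (hαx : ((α ⟨x, hPT x.2⟩ : T) : Ω) ∈ (P.subgroupOf T).map (T.subtype.comp α.toMonoidHom)),
        χ ⟨(α ⟨x, hPT x.2⟩ : T), hαx⟩ = ((α ⟨φ x, hφx⟩ : T) : Ω)}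
  le_of_mem h := E.le_of_mem h.1
  injective_of_mem h := E.injective_of_mem h.1
  conj_mem := by
    intro P g hP hg
    refine ⟨E.conj_mem hP hg, fun hPT α _ => ⟨_, E.conj_mem (imgAut_le α P) (α ⟨g, hg⟩).2, ?_⟩⟩
    intro x hφx hαx
    show ((α ⟨g, hg⟩ : T) : Ω) * ((α ⟨x, hPT x.2⟩ : T) : Ω) * ((α ⟨g, hg⟩ : T) : Ω)⁻¹ = _
    have h1 : (⟨conjHom P g x, hφx⟩ : T) = ⟨g, hg⟩ * ⟨x, hPT x.2⟩ * ⟨g, hg⟩⁻¹ := Subtype.ext rfl
    rw [h1, map_mul, map_mul, map_inv]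
    rfl
  comp_mem := by
    rintro P Q φ ψ ⟨h1, h1'⟩ ⟨h2, h2'⟩ h
    refine ⟨E.comp_mem h1 h2 h, fun hPT α hα => ?_⟩
    have hQT := (E.le_of_mem h2).1
    have hφT := (E.le_of_mem h1).2
    obtain ⟨χ₁, hχ₁, hχ₁x⟩ := h1' hPT α hα
    obtain ⟨χ₂, hχ₂, hχ₂x⟩ := h2' hQT α hα
    have h3 : ∀ y, χ₁ y ∈ (Q.subgroupOf T).map (T.subtype.comp α.toMonoidHom) := by
      rintro ⟨_, t, ht, rfl⟩
      have h4 : χ₁ ⟨(T.subtype.comp α.toMonoidHom) t, ⟨t, ht, rfl⟩⟩ = _ :=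
        hχ₁x ⟨t, Subgroup.mem_subgroupOf.1 ht⟩ (hφT _) ⟨t, ht, rfl⟩
      rw [h4]
      exact apply_mem_imgAut α (x := ⟨φ ⟨t, Subgroup.mem_subgroupOf.1 ht⟩, hφT _⟩) (h _)
    refine ⟨_, E.comp_mem hχ₁ hχ₂ h3, fun x hφx hαx => ?_⟩
    show χ₂ ⟨χ₁ ⟨_, hαx⟩, h3 _⟩ = _
    have h5 := hχ₁x x (hφT x) hαx
    have h6 : (⟨χ₁ ⟨_, hαx⟩, h3 _⟩ : ↥((Q.subgroupOf T).map (T.subtype.comp α.toMonoidHom))) =
        ⟨((α ⟨φ x, hφT x⟩ : T) : Ω), apply_mem_imgAut α (x := ⟨φ x, hφT x⟩) (h x)⟩ := Subtype.ext h5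
    rw [h6]
    exact hχ₂x ⟨φ x, h x⟩ hφx _
  inv_mem := by
    rintro P φ ⟨h1, h1'⟩
    obtain ⟨ψ, hψ, hψx⟩ := E.inv_mem h1
    have hPT := (E.le_of_mem h1).1
    have hφT := (E.le_of_mem h1).2
    refine ⟨ψ, ⟨hψ, fun hrT α hα => ?_⟩, hψx⟩
    obtain ⟨χ, hχ, hχx⟩ := h1' hPT α hα
    obtain ⟨χ', hχ', hχ'x⟩ := E.inv_mem hχ
    have heq : χ.range = (φ.range.subgroupOf T).map (T.subtype.comp α.toMonoidHom) := by
      ext y
      constructor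
      · rintro ⟨⟨_, t, ht, rfl⟩, rfl⟩
        have h4 : χ ⟨(T.subtype.comp α.toMonoidHom) t, ⟨t, ht, rfl⟩⟩ = _ :=
          hχx ⟨t, Subgroup.mem_subgroupOf.1 ht⟩ (hφT _) ⟨t, ht, rfl⟩
        rw [h4]
        exact apply_mem_imgAut α (x := ⟨φ ⟨t, Subgroup.mem_subgroupOf.1 ht⟩, hφT _⟩) ⟨_, rfl⟩
      · rintro ⟨t, ht, rfl⟩
        obtain ⟨x, hx⟩ := Subgroup.mem_subgroupOf.1 ht
        have h4 := hχx x (hφT x) (apply_mem_imgAut α (x := ⟨x, hPT x.2⟩) x.2)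
        refine ⟨_, h4.trans ?_⟩
        show ((α _ : T) : Ω) = ((α t : T) : Ω)
        congr 2
        exact Subtype.ext hx
    refine ⟨χ'.comp (Subgroup.inclusion heq.ge), E.hom_congr heq hχ' _ (fun _ _ _ => rfl), ?_⟩
    rintro ⟨_, x, rfl⟩ hφx hαx
    have h4 := hχx x (hφT x) (apply_mem_imgAut α (x := ⟨x, hPT x.2⟩) x.2)
    have h5 := hχ'x ⟨_, apply_mem_imgAut α (x := ⟨x, hPT x.2⟩) x.2⟩
    show χ' _ = _
    have h6 : (Subgroup.inclusion heq.ge ⟨((α ⟨φ x, hrT ⟨x, rfl⟩⟩ : T) : Ω), hαx⟩ : χ.range) =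
        ⟨χ ⟨_, apply_mem_imgAut α (x := ⟨x, hPT x.2⟩) x.2⟩, ⟨_, rfl⟩⟩ := Subtype.ext h4.symm
    rw [h6, h5]
    show ((α ⟨x, hPT x.2⟩ : T) : Ω) = ((α ⟨ψ ⟨φ x, ⟨x, rfl⟩⟩, hφx⟩ : T) : Ω)
    have h7 : (⟨x, hPT x.2⟩ : T) = ⟨ψ ⟨φ x, ⟨x, rfl⟩⟩, hφx⟩ := Subtype.ext (hψx x).symm
    rw [h7]

theorem autInvariantIn_of_le_invPart {E : FusionSystem T} {F : FusionSystem S} (h : E ≤ E.invPart F) :
    E.AutInvariantIn F := fun P hPT _ hφ α hα => (h P hφ).2 hPT α hα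

theorem HasPPowerIndexIn.autInvariantIn {E : FusionSystem T} {F : FusionSystem S} [Finite T] {p : ℕ}
    [Fact p.Prime] (hTp : IsPGroup p T) (hTS : T ≤ S) (hEs : E.IsSaturated p)
    (hEi : E.HasPPowerIndexIn F p) : E.AutInvariantIn F := by
  apply autInvariantIn_of_le_invPart
  apply E.alperin _ hTp hEs
  intro P hP a ha
  have hfa := hEs.fullyAutomized_of E hTp hP
  have hPT := hfa.1
  have : Finite P := finite_of_le hPT
  obtain ⟨b, hb, u, hu, -, rfl⟩ := hfa.isSylowIn.exists_mul_opOf ha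
  refine Subgroup.mul_mem _ ?_ ((E.invPart F).autInducedBy_le_autGroup hPT hu)
  rw [mem_autGroup_iff _ hPT]
  refine ⟨(E.mem_autGroup_iff hPT b).1 (opOf_le p _ hb), fun _ α hα => ?_⟩
  have hAle : E.autGroup P ≤ F.autGroup P := by
    intro γ hγ
    rw [F.mem_autGroup_iff (hPT.trans hTS)]
    exact hEi.1 P ((E.mem_autGroup_iff hPT γ).1 hγ)
  have hbF : b ∈ opOf p (F.autGroup P) := opOf_mono' p hAle hb
  have he := isMor_resEquiv F hTS hα hPT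
  have h1 : MulAut.congr (resEquiv α hPT) b ∈ opOf p (F.autGroup (imgAut α P)) := by
    rw [← F.map_congr_autGroup he, ← opOf_map_equiv]
    exact ⟨b, hbF, rfl⟩
  have h2 : MulAut.congr (resEquiv α hPT) b ∈ E.autGroup (imgAut α P) := hEi.2.2 _ (imgAut_le α P) h1
  refine ⟨_, (E.mem_autGroup_iff (imgAut_le α P) _).1 h2, fun x hφx hαx => ?_⟩
  show ((resEquiv α hPT (b ((resEquiv α hPT).symm ⟨_, hαx⟩)) : imgAut α P) : Ω) = _
  have h3 : (⟨((α ⟨x, hPT x.2⟩ : T) : Ω), hαx⟩ : imgAut α P) = resEquiv α hPT x := Subtype.ext rfl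
  rw [h3, MulEquiv.symm_apply_apply]
  rfl

theorem HasPPowerIndexIn.le_frattiniSys {E : FusionSystem T} {F : FusionSystem S} [Finite S] {p : ℕ}
    [Fact p.Prime] (hS : IsPGroup p S) (hF : F.IsSaturated p) (hT : F.StronglyClosed T)
    (hEi : E.HasPPowerIndexIn F p) (hinv : E.AutInvariantIn F) : F ≤ F.frattiniSys hT E hinv := by
  apply F.alperin _ hS hF
  intro P hP a ha
  have hfa := hF.fullyAutomized_of F hS hP
  have hPle := hfa.1
  have : Finite P := finite_of_le hPle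
  obtain ⟨b, hb, u, hu, -, rfl⟩ := hfa.isSylowIn.exists_mul_opOf ha
  refine Subgroup.mul_mem _ ?_ ((F.frattiniSys hT E hinv).autInducedBy_le_autGroup hPle hu)
  obtain ⟨Φ, hΦ⟩ := exists_restrict_aut_hom (inf_le_left : P ⊓ T ≤ P) (F.autGroup P)
    (fun γ hγ x hx => ⟨(γ x).2, hT.aut_mem hPle hγ hx.2⟩)
  refine (?_ : opOf p (F.autGroup P) ≤ (F.frattiniSys hT E hinv).autGroup P) hb
  rw [opOf_eq_closure, Subgroup.closure_le]
  rintro γ ⟨hγ, hco⟩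
  rw [SetLike.mem_coe, mem_autGroup_iff _ hPle]
  apply mem_frattiniSys_of_mem ((F.mem_autGroup_iff hPle _).1 hγ)
  have h1 : Φ ⟨γ, hγ⟩ ∈ opOf p (F.autGroup (P ⊓ T)) := by
    rw [opOf_eq_closure]
    apply Subgroup.subset_closure
    refine ⟨F.restrict_mem_autGroup inf_le_left hPle hγ _ (hΦ ⟨γ, hγ⟩), ?_⟩
    refine Nat.Coprime.coprime_dvd_left (orderOf_map_dvd _ _) ?_
    rwa [← Subgroup.orderOf_coe]
  have h2 := (E.mem_autGroup_iff inf_le_right _).1 (hEi.2.2 _ inf_le_right h1)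
  have h3 : (P.subtype.comp γ.toMonoidHom).comp
      (Subgroup.inclusion (inf_le_left : P ⊓ T ≤ P)) = (P ⊓ T).subtype.comp (Φ ⟨γ, hγ⟩).toMonoidHom := by
    ext x; exact (hΦ ⟨γ, hγ⟩ x).symm
  rw [h3]; exact h2

/-- The extension condition for a single automorphism of `T`. -/
def ExtProp (F : FusionSystem S) (T : Subgroup Ω) (α : MulAut T) : Prop :=
  ∃ β ∈ F.autGroup (T ⊔ centralizerIn S T),
    (∀ x : T, ((β (Subgroup.inclusion le_sup_left x) : ↥(T ⊔ centralizerIn S T)) : Ω) = ((α x : T) : Ω)) ∧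
    ∀ c : ↥(T ⊔ centralizerIn S T), (c : Ω) ∈ centralizerIn S T →
      (c : Ω)⁻¹ * ((β c : ↥(T ⊔ centralizerIn S T)) : Ω) ∈ T ⊓ Subgroup.centralizer (T : Set Ω)

theorem map_centralizer_of_restrict {C : Subgroup Ω} (β : MulAut ↥(T ⊔ C)) (α : MulAut T)
    (h : ∀ x : T, ((β (Subgroup.inclusion le_sup_left x) : ↥(T ⊔ C)) : Ω) = ((α x : T) : Ω))
    (c : ↥(T ⊔ C)) (hc : ∀ x ∈ T, x * (c : Ω) = c * x) : ∀ x ∈ T, x * ((β c : ↥(T ⊔ C)) : Ω) = (β c : ↥(T ⊔ C)) * x := by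
  intro x hx
  have h1 := h (α⁻¹ ⟨x, hx⟩)
  rw [MulAut.apply_inv_self] at h1
  have h2 : (x : Ω) = ((β (Subgroup.inclusion le_sup_left (α⁻¹ ⟨x, hx⟩)) : ↥(T ⊔ C)) : Ω) := h1.symm
  have h3 : Subgroup.inclusion le_sup_left (α⁻¹ ⟨x, hx⟩) * c = c * Subgroup.inclusion le_sup_left (α⁻¹ ⟨x, hx⟩) :=
    Subtype.ext (hc _ (α⁻¹ ⟨x, hx⟩).2)
  have h4 := congrArg (fun z => ((β z : ↥(T ⊔ C)) : Ω)) h3
  simp only [map_mul, Subgroup.coe_mul] at h4
  rw [h2]; exact h4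

theorem ExtProp.mul {F : FusionSystem S} (hTS : T ≤ S) {α₁ α₂ : MulAut T} (h₁ : F.ExtProp T α₁)
    (h₂ : F.ExtProp T α₂) : F.ExtProp T (α₁ * α₂) := by
  obtain ⟨β₁, hβ₁, hr₁, hc₁⟩ := h₁
  obtain ⟨β₂, hβ₂, hr₂, hc₂⟩ := h₂
  refine ⟨β₁ * β₂, Subgroup.mul_mem _ hβ₁ hβ₂, fun x => ?_, fun c hc => ?_⟩
  · have h1 : β₂ (Subgroup.inclusion le_sup_left x) = Subgroup.inclusion le_sup_left (α₂ x) :=
      Subtype.ext (hr₂ x)
    rw [MulAut.mul_apply, h1, hr₁]; rfl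
  · have h1 := hc₂ c hc
    have h2 : ((β₂ c : ↥(T ⊔ centralizerIn S T)) : Ω) ∈ centralizerIn S T := by
      have h3 : (c : Ω)⁻¹ * ((β₂ c : ↥(T ⊔ centralizerIn S T)) : Ω) ∈ centralizerIn S T := ⟨hTS h1.1, h1.2⟩
      have h4 := Subgroup.mul_mem _ hc h3
      rwa [mul_inv_cancel_left] at h4
    have h5 := Subgroup.mul_mem _ h1 (hc₁ _ h2)
    have h6 : (c : Ω)⁻¹ * ((β₂ c : ↥(T ⊔ centralizerIn S T)) : Ω) *
        (((β₂ c : ↥(T ⊔ centralizerIn S T)) : Ω)⁻¹ * ((β₁ (β₂ c) : ↥(T ⊔ centralizerIn S T)) : Ω)) =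
        (c : Ω)⁻¹ * (((β₁ * β₂) c : ↥(T ⊔ centralizerIn S T)) : Ω) := by
      rw [MulAut.mul_apply]; group
    rwa [h6] at h5

theorem ExtProp.inv {F : FusionSystem S} (hTS : T ≤ S) {α : MulAut T} (h : F.ExtProp T α) :
    F.ExtProp T α⁻¹ := by
  obtain ⟨β, hβ, hr, hc⟩ := h
  have hr' : ∀ x : T, ((β⁻¹ (Subgroup.inclusion le_sup_left x) : ↥(T ⊔ centralizerIn S T)) : Ω) =
      ((α⁻¹ x : T) : Ω) := by
    intro x
    have h1 : β (Subgroup.inclusion le_sup_left (α⁻¹ x)) = Subgroup.inclusion le_sup_left x :=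
      Subtype.ext (by rw [hr, MulAut.apply_inv_self]; rfl)
    rw [← h1, MulAut.inv_apply_self]; rfl
  refine ⟨β⁻¹, Subgroup.inv_mem _ hβ, hr', fun c hcc => ?_⟩
  have hle : T ⊔ centralizerIn S T ≤ S := sup_le hTS centralizerIn_le
  have hd : ((β⁻¹ c : ↥(T ⊔ centralizerIn S T)) : Ω) ∈ centralizerIn S T :=
    mem_centralizerIn.2 ⟨hle (β⁻¹ c).2, map_centralizer_of_restrict β⁻¹ α⁻¹ hr' c (mem_centralizerIn.1 hcc).2⟩
  have h1 := hc _ hd
  rw [MulAut.apply_inv_self] at h1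
  have h2 := Subgroup.inv_mem _ h1
  have h3 : (((β⁻¹ c : ↥(T ⊔ centralizerIn S T)) : Ω)⁻¹ * (c : Ω))⁻¹ =
      (c : Ω)⁻¹ * ((β⁻¹ c : ↥(T ⊔ centralizerIn S T)) : Ω) := by group
  rwa [h3] at h2

theorem ExtProp.one (F : FusionSystem S) (T : Subgroup Ω) : F.ExtProp T 1 :=
  ⟨1, Subgroup.one_mem _, fun _ => rfl, fun c _ => by simp⟩

theorem ExtProp.of_autInducedBy (F : FusionSystem S) (hTS : T ≤ S) {u : MulAut T} (hu : u ∈ autInducedBy T T) :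
    F.ExtProp T u := by
  obtain ⟨t, ht, htu⟩ := (mem_autInducedBy_iff u).1 hu
  have hle : T ⊔ centralizerIn S T ≤ S := sup_le hTS centralizerIn_le
  have htN : t ∈ Subgroup.normalizer ((T ⊔ centralizerIn S T : Subgroup Ω) : Set Ω) :=
    Subgroup.le_normalizer ((le_sup_left : T ≤ T ⊔ centralizerIn S T) ht)
  refine ⟨conjAut t htN, F.autInducedBy_le_autGroup hle (conjAut_mem htN (hTS ht)), fun x => (htu x).symm,
    fun c hc => ?_⟩
  have h1 := (mem_centralizerIn.1 hc).2 t ht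
  have h2 : (c : Ω)⁻¹ * ((conjAut t htN c : ↥(T ⊔ centralizerIn S T)) : Ω) = 1 := by
    show (c : Ω)⁻¹ * (t * c * t⁻¹) = 1
    rw [h1]; group
  rw [h2]; exact Subgroup.one_mem _

theorem ExtProp.of_coprime {F : FusionSystem S} [Finite S] {p : ℕ} [Fact p.Prime] (hS : IsPGroup p S)
    (hF : F.IsSaturated p) (hT : F.StronglyClosed T) (hhyp : F.hyperfocalSubgroup p ≤ T) {α : MulAut T}
    (hα : α ∈ F.autGroup T) (hco : Nat.Coprime (orderOf α) p) : F.ExtProp T α := by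
  have hTS := hT.1
  have hle : T ⊔ centralizerIn S T ≤ S := sup_le hTS centralizerIn_le
  have : Finite ↥(T ⊔ centralizerIn S T) := finite_of_le hle
  have hfn : F.IsFullyNormalized T := ⟨hTS, fun Q hQ => by rw [hT.eq_of_isConj hQ]⟩
  obtain ⟨-, -, hrec⟩ := hF.fullyNormalized F hS hfn
  have hαm := (F.mem_autGroup_iff hTS α).1 hα
  obtain ⟨ψ, hψ, hψe⟩ := hrec.exists_extension F α hαm
    (sup_le (le_extender _ hTS hTS) (centralizerIn_le_extender _) :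
      T ⊔ centralizerIn S T ≤ extender S T (T.subtype.comp α.toMonoidHom))
  have hmap : ∀ z, (S.subtype.comp ψ) z ∈ T ⊔ centralizerIn S T := by
    apply forall_mem_sup ((T ⊔ centralizerIn S T).comap (S.subtype.comp ψ))
    · intro x
      show ((ψ (Subgroup.inclusion le_sup_left x) : S) : Ω) ∈ T ⊔ centralizerIn S T
      rw [hψe x _ rfl]
      exact (le_sup_left : T ≤ T ⊔ centralizerIn S T) (α x).2
    · intro c
      refine (le_sup_right : centralizerIn S T ≤ T ⊔ centralizerIn S T) (mem_centralizerIn.2 ⟨(ψ _).2, ?_⟩)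
      exact map_mem_centralizer ψ α hψe le_sup_left (c := Subgroup.inclusion le_sup_right c)
        (mem_centralizerIn.1 c.2).2
  have hm : F.IsMor ((S.subtype.comp ψ).codRestrict _ hmap) := hψ
  have hbij : Function.Bijective ((S.subtype.comp ψ).codRestrict _ hmap) :=
    Finite.injective_iff_bijective.1 (hm.injective F)
  have hβ₀ : equivOfBijective _ hbij ∈ F.autGroup (T ⊔ centralizerIn S T) :=
    (F.mem_autGroup_iff hle _).2 (F.isMor_equivOfBijective hm hbij)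
  obtain ⟨Φ, hΦ⟩ := exists_restrict_aut_hom (le_sup_left : T ≤ T ⊔ centralizerIn S T)
    (F.autGroup (T ⊔ centralizerIn S T)) (fun γ hγ x hx => hT.aut_mem hle hγ hx)
  have hΦ₀ : Φ ⟨_, hβ₀⟩ = α := by
    ext x
    rw [hΦ]
    exact hψe x _ rfl
  obtain ⟨j, hj, hj'⟩ := exists_pow_coprime_lift p (⟨_, hβ₀⟩ : F.autGroup (T ⊔ centralizerIn S T)) α hco
  have hΦj : Φ (⟨_, hβ₀⟩ ^ j) = α := by rw [map_pow, hΦ₀, hj']
  have hr : ∀ x : T, (((((⟨_, hβ₀⟩ : F.autGroup (T ⊔ centralizerIn S T)) ^ j :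
      F.autGroup (T ⊔ centralizerIn S T)) : MulAut ↥(T ⊔ centralizerIn S T))
      (Subgroup.inclusion le_sup_left x) : ↥(T ⊔ centralizerIn S T)) : Ω) = ((α x : T) : Ω) := by
    intro x
    rw [← hΦ, hΦj]
  refine ⟨_, ((⟨_, hβ₀⟩ : F.autGroup (T ⊔ centralizerIn S T)) ^ j).2, hr, fun c hc => ⟨?_, ?_⟩⟩
  · apply hhyp
    apply F.mem_hyperfocal p hle
    rw [opOf_eq_closure]
    apply Subgroup.subset_closure
    exact ⟨((⟨_, hβ₀⟩ : F.autGroup (T ⊔ centralizerIn S T)) ^ j).2, by rwa [Subgroup.orderOf_coe]⟩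
  · have h1 := (mem_centralizerIn.1 hc).2
    have h2 := map_centralizer_of_restrict _ α hr c h1
    refine Subgroup.mul_mem _ (Subgroup.inv_mem _ ?_) ?_
    · rw [Subgroup.mem_centralizer_iff]; exact h1
    · rw [Subgroup.mem_centralizer_iff]; exact h2

/-- S5120. -/
theorem HasPPowerIndexIn.isNormalIn {E : FusionSystem T} {F : FusionSystem S} [Finite S] {p : ℕ}
    [Fact p.Prime] (hS : IsPGroup p S) (hF : F.IsSaturated p) (hTS : T ≤ S)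
    (hTn : (T.subgroupOf S).Normal) (hT : F.hyperfocalSubgroup p ≤ T) (hEs : E.IsSaturated p)
    (hEi : E.HasPPowerIndexIn F p) : E.IsNormalIn F p := by
  have hfinT : Finite T := finite_of_le hTS
  have hTp : IsPGroup p T := hS.to_le hTS
  have hn : ∀ g ∈ S, ∀ x ∈ T, g * x * g⁻¹ ∈ T := by
    intro g hg x hx
    exact Subgroup.mem_subgroupOf.1 (hTn.conj_mem ⟨x, hTS hx⟩ (Subgroup.mem_subgroupOf.2 hx) ⟨g, hg⟩)
  have hTsc := F.stronglyClosed_of_hyperfocal_le hS hF hTS hn hT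
  have hinv := hEi.autInvariantIn hTp hTS hEs
  refine ⟨⟨hEs, hF, hEi.1, hTsc, hinv, frattini_of_le (hEi.le_frattiniSys hS hF hTsc hinv)⟩, ?_⟩
  intro α hα
  have hfa := (hEs.fullyNormalized E hTp E.isFullyNormalized_self).2.1
  obtain ⟨b, hb, u, hu, -, rfl⟩ := hfa.isSylowIn.exists_mul_opOf hα
  refine ExtProp.mul hTS ?_ (ExtProp.of_autInducedBy F hTS hu)
  rw [opOf_eq_closure] at hb
  clear hα
  induction hb using Subgroup.closure_induction with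
  | mem a ha =>
    refine ExtProp.of_coprime hS hF hTsc hT ?_ ha.2
    rw [F.mem_autGroup_iff hTS]
    exact hEi.1 T ((E.mem_autGroup_iff le_rfl a).1 ha.1)
  | one => exact ExtProp.one F T
  | mul a b _ _ iha ihb => exact ExtProp.mul hTS iha ihb
  | inv a _ iha => exact ExtProp.inv hTS iha

end FusionSystem
end Cfsg
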