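import Cfsg.Agent.Fus.Sat3
import Cfsg.Prelude.Def_FusionComponents

/-!
The direct product of two fusion systems.
-/

set_option autoImplicit false

namespace Cfsg
namespace FusionSystem

open Cfsg.Agent.Fus

variable {Ω₁ Ω₂ : Type*} [Group Ω₁] [Group Ω₂] {S₁ : Subgroup Ω₁} {S₂ : Subgroup Ω₂}

/-- First projection of a subgroup of a product. -/
abbrev pr₁ (P : Subgroup (Ω₁ × Ω₂)) : Subgroup Ω₁ := P.map (MonoidHom.fst Ω₁ Ω₂)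

/-- Second projection of a subgroup of a product. -/
abbrev pr₂ (P : Subgroup (Ω₁ × Ω₂)) : Subgroup Ω₂ := P.map (MonoidHom.snd Ω₁ Ω₂)

theorem fst_mem_pr₁ {P : Subgroup (Ω₁ × Ω₂)} {x : Ω₁ × Ω₂} (hx : x ∈ P) : x.1 ∈ pr₁ P := ⟨x, hx, rfl⟩

theorem snd_mem_pr₂ {P : Subgroup (Ω₁ × Ω₂)} {x : Ω₁ × Ω₂} (hx : x ∈ P) : x.2 ∈ pr₂ P := ⟨x, hx, rfl⟩

theorem le_prod_pr (P : Subgroup (Ω₁ × Ω₂)) : P ≤ (pr₁ P).prod (pr₂ P) :=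
  fun _ hx => ⟨fst_mem_pr₁ hx, snd_mem_pr₂ hx⟩

theorem pr₁_le {P : Subgroup (Ω₁ × Ω₂)} {P₁ : Subgroup Ω₁} {P₂ : Subgroup Ω₂} (h : P ≤ P₁.prod P₂) :
    pr₁ P ≤ P₁ := by
  rintro _ ⟨x, hx, rfl⟩; exact (h hx).1

theorem pr₂_le {P : Subgroup (Ω₁ × Ω₂)} {P₁ : Subgroup Ω₁} {P₂ : Subgroup Ω₂} (h : P ≤ P₁.prod P₂) :
    pr₂ P ≤ P₂ := by
  rintro _ ⟨x, hx, rfl⟩; exact (h hx).2

/-- The restriction to `P` of the product of two homomorphisms. -/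
def pmap (P : Subgroup (Ω₁ × Ω₂)) {P₁ : Subgroup Ω₁} {P₂ : Subgroup Ω₂} (h : P ≤ P₁.prod P₂)
    (φ₁ : P₁ →* Ω₁) (φ₂ : P₂ →* Ω₂) : P →* Ω₁ × Ω₂ where
  toFun x := (φ₁ ⟨(x : Ω₁ × Ω₂).1, (h x.2).1⟩, φ₂ ⟨(x : Ω₁ × Ω₂).2, (h x.2).2⟩)
  map_one' := by
    have h1 : (⟨((1 : P) : Ω₁ × Ω₂).1, (h (1 : P).2).1⟩ : P₁) = 1 := rfl
    have h2 : (⟨((1 : P) : Ω₁ × Ω₂).2, (h (1 : P).2).2⟩ : P₂) = 1 := rfl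
    rw [h1, h2, map_one, map_one]; rfl
  map_mul' x y := by
    have h1 : (⟨((x * y : P) : Ω₁ × Ω₂).1, (h (x * y).2).1⟩ : P₁) =
        ⟨(x : Ω₁ × Ω₂).1, (h x.2).1⟩ * ⟨(y : Ω₁ × Ω₂).1, (h y.2).1⟩ := rfl
    have h2 : (⟨((x * y : P) : Ω₁ × Ω₂).2, (h (x * y).2).2⟩ : P₂) =
        ⟨(x : Ω₁ × Ω₂).2, (h x.2).2⟩ * ⟨(y : Ω₁ × Ω₂).2, (h y.2).2⟩ := rfl
    rw [h1, h2, map_mul, map_mul]; rfl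

theorem pmap_apply (P : Subgroup (Ω₁ × Ω₂)) {P₁ : Subgroup Ω₁} {P₂ : Subgroup Ω₂} (h : P ≤ P₁.prod P₂)
    (φ₁ : P₁ →* Ω₁) (φ₂ : P₂ →* Ω₂) (x : P) :
    pmap P h φ₁ φ₂ x = (φ₁ ⟨(x : Ω₁ × Ω₂).1, (h x.2).1⟩, φ₂ ⟨(x : Ω₁ × Ω₂).2, (h x.2).2⟩) := rfl

theorem pr₁_range_pmap (P : Subgroup (Ω₁ × Ω₂)) (φ₁ : pr₁ P →* Ω₁) (φ₂ : pr₂ P →* Ω₂) :
    pr₁ (pmap P (le_prod_pr P) φ₁ φ₂).range = φ₁.range := by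
  ext y
  constructor
  · rintro ⟨_, ⟨x, rfl⟩, rfl⟩
    exact ⟨_, rfl⟩
  · rintro ⟨⟨_, x, hx, rfl⟩, rfl⟩
    exact ⟨_, ⟨⟨x, hx⟩, rfl⟩, rfl⟩

theorem pr₂_range_pmap (P : Subgroup (Ω₁ × Ω₂)) (φ₁ : pr₁ P →* Ω₁) (φ₂ : pr₂ P →* Ω₂) :
    pr₂ (pmap P (le_prod_pr P) φ₁ φ₂).range = φ₂.range := by
  ext y
  constructor
  · rintro ⟨_, ⟨x, rfl⟩, rfl⟩
    exact ⟨_, rfl⟩
  · rintro ⟨⟨_, x, hx, rfl⟩, rfl⟩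
    exact ⟨_, ⟨⟨x, hx⟩, rfl⟩, rfl⟩

/-- The direct product of two fusion systems. -/
def prodSys (F₁ : FusionSystem S₁) (F₂ : FusionSystem S₂) : FusionSystem (S₁.prod S₂) where
  Hom P := {φ | P ≤ S₁.prod S₂ ∧ ∃ φ₁ ∈ F₁.Hom (pr₁ P), ∃ φ₂ ∈ F₂.Hom (pr₂ P),
    φ = pmap P (le_prod_pr P) φ₁ φ₂}
  le_of_mem := by
    rintro P _ ⟨hP, φ₁, hφ₁, φ₂, hφ₂, rfl⟩
    exact ⟨hP, fun x => ⟨(F₁.le_of_mem hφ₁).2 _, (F₂.le_of_mem hφ₂).2 _⟩⟩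
  injective_of_mem := by
    rintro P _ ⟨hP, φ₁, hφ₁, φ₂, hφ₂, rfl⟩ x y hxy
    have h1 := F₁.injective_of_mem hφ₁ (congrArg Prod.fst hxy)
    have h2 := F₂.injective_of_mem hφ₂ (congrArg Prod.snd hxy)
    exact Subtype.ext (Prod.ext (congrArg Subtype.val h1) (congrArg Subtype.val h2))
  conj_mem := by
    intro P g hP hg
    exact ⟨hP, _, F₁.conj_mem (pr₁_le hP) hg.1, _, F₂.conj_mem (pr₂_le hP) hg.2, rfl⟩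
  comp_mem := by
    rintro P Q _ _ ⟨hP, φ₁, hφ₁, φ₂, hφ₂, rfl⟩ ⟨hQ, ψ₁, hψ₁, ψ₂, hψ₂, rfl⟩ h
    have h1 : ∀ y : pr₁ P, φ₁ y ∈ pr₁ Q := by
      rintro ⟨_, x, hx, rfl⟩
      exact fst_mem_pr₁ (h ⟨x, hx⟩)
    have h2 : ∀ y : pr₂ P, φ₂ y ∈ pr₂ Q := by
      rintro ⟨_, x, hx, rfl⟩
      exact snd_mem_pr₂ (h ⟨x, hx⟩)
    exact ⟨hP, _, F₁.comp_mem hφ₁ hψ₁ h1, _, F₂.comp_mem hφ₂ hψ₂ h2, rfl⟩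
  inv_mem := by
    rintro P _ ⟨hP, φ₁, hφ₁, φ₂, hφ₂, rfl⟩
    obtain ⟨ψ₁, hψ₁, hψ₁x⟩ := F₁.inv_mem hφ₁
    obtain ⟨ψ₂, hψ₂, hψ₂x⟩ := F₂.inv_mem hφ₂
    have e1 := pr₁_range_pmap P φ₁ φ₂
    have e2 := pr₂_range_pmap P φ₁ φ₂
    refine ⟨pmap _ (le_prod_pr _) (ψ₁.comp (Subgroup.inclusion e1.le)) (ψ₂.comp (Subgroup.inclusion e2.le)),
      ⟨?_, _, F₁.hom_congr e1.symm hψ₁ _ (fun _ _ _ => rfl), _, F₂.hom_congr e2.symm hψ₂ _ (fun _ _ _ => rfl),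
        rfl⟩, ?_⟩
    · rintro _ ⟨x, rfl⟩
      exact ⟨(F₁.le_of_mem hφ₁).2 _, (F₂.le_of_mem hφ₂).2 _⟩
    · intro x
      exact Prod.ext (hψ₁x _) (hψ₂x _)

theorem isProductSystem_prodSys (F₁ : FusionSystem S₁) (F₂ : FusionSystem S₂) :
    IsProductSystem F₁ F₂ (prodSys F₁ F₂) := by
  intro P φ
  constructor
  · rintro ⟨hP, φ₁, hφ₁, φ₂, hφ₂, rfl⟩
    exact ⟨hP, φ₁, hφ₁, φ₂, hφ₂, fun x h₁ h₂ => rfl⟩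
  · rintro ⟨hP, φ₁, hφ₁, φ₂, hφ₂, h⟩
    refine ⟨hP, φ₁, hφ₁, φ₂, hφ₂, ?_⟩
    ext x : 1
    exact h x _ _

variable {F₁ : FusionSystem S₁} {F₂ : FusionSystem S₂} {E : FusionSystem (S₁.prod S₂)}

theorem IsProductSystem.exists_of_mem (hE : IsProductSystem F₁ F₂ E) {P : Subgroup (Ω₁ × Ω₂)}
    {φ : P →* Ω₁ × Ω₂} (hφ : φ ∈ E.Hom P) :
    ∃ φ₁ ∈ F₁.Hom (pr₁ P), ∃ φ₂ ∈ F₂.Hom (pr₂ P), φ = pmap P (le_prod_pr P) φ₁ φ₂ := by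
  obtain ⟨-, φ₁, hφ₁, φ₂, hφ₂, h⟩ := (hE P φ).1 hφ
  refine ⟨φ₁, hφ₁, φ₂, hφ₂, ?_⟩
  ext x : 1
  exact h x _ _

theorem IsProductSystem.pmap_mem (hE : IsProductSystem F₁ F₂ E) {P : Subgroup (Ω₁ × Ω₂)}
    {P₁ : Subgroup Ω₁} {P₂ : Subgroup Ω₂} (h : P ≤ P₁.prod P₂) {φ₁ : P₁ →* Ω₁} {φ₂ : P₂ →* Ω₂}
    (hφ₁ : φ₁ ∈ F₁.Hom P₁) (hφ₂ : φ₂ ∈ F₂.Hom P₂) : pmap P h φ₁ φ₂ ∈ E.Hom P := by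
  refine (hE P _).2 ⟨h.trans (Subgroup.prod_mono (F₁.le_of_mem hφ₁).1 (F₂.le_of_mem hφ₂).1),
    _, F₁.restrict_mem hφ₁ (pr₁_le h), _, F₂.restrict_mem hφ₂ (pr₂_le h), fun x h₁ h₂ => rfl⟩

end FusionSystem
end Cfsg
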