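import Cfsg.Agent.Fus.Lift
import Cfsg.Agent.Fus.Grp
import Cfsg.Agent.Lib.Helper27.FusTransport

/-!
A criterion for finding fully automized conjugates inside a fully automized overgroup.
-/

set_option autoImplicit false

namespace Cfsg
namespace FusionSystem

open Cfsg.Agent.Fus Cfsg.Agent.Lib.Helper27.Fus

variable {Ω : Type*} [Group Ω] {S : Subgroup Ω}

/-- The elements of `A ≤ Aut(R)` stabilizing `Q`. -/
def stabAut {R : Subgroup Ω} (A : Subgroup (MulAut R)) (Q : Subgroup Ω) : Subgroup (MulAut R) where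
  carrier := {β | β ∈ A ∧ ∀ x : R, (x : Ω) ∈ Q ↔ ((β x : R) : Ω) ∈ Q}
  one_mem' := ⟨A.one_mem, fun _ => Iff.rfl⟩
  mul_mem' := by
    rintro a b ⟨ha, ha'⟩ ⟨hb, hb'⟩
    exact ⟨A.mul_mem ha hb, fun x => (hb' x).trans (ha' (b x))⟩
  inv_mem' := by
    rintro a ⟨ha, ha'⟩
    refine ⟨A.inv_mem ha, fun x => ?_⟩
    have h := ha' (a⁻¹ x)
    rw [MulAut.apply_inv_self] at h
    exact h.symm

theorem stabAut_le {R : Subgroup Ω} (A : Subgroup (MulAut R)) (Q : Subgroup Ω) : stabAut A Q ≤ A :=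
  fun _ h => h.1

theorem coe_mem_imgAut_iff {R : Subgroup Ω} (a : MulAut R) (Q : Subgroup Ω) (x : R) :
    (x : Ω) ∈ imgAut a Q ↔ ((a⁻¹ x : R) : Ω) ∈ Q := by
  rw [mem_imgAut]
  constructor
  · rintro ⟨z, hz, hzx⟩
    have : a z = x := Subtype.ext hzx
    rw [← this, MulAut.inv_apply_self]
    exact hz
  · intro h
    exact ⟨a⁻¹ x, h, by rw [MulAut.apply_inv_self]⟩

theorem conj_mem_stabAut {R : Subgroup Ω} {A : Subgroup (MulAut R)} {Q : Subgroup Ω} {a v : MulAut R}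
    (ha : a ∈ A) (hv : v ∈ stabAut A Q) : a * v * a⁻¹ ∈ stabAut A (imgAut a Q) := by
  refine ⟨A.mul_mem (A.mul_mem ha hv.1) (A.inv_mem ha), fun x => ?_⟩
  rw [coe_mem_imgAut_iff, coe_mem_imgAut_iff, hv.2 (a⁻¹ x)]
  simp only [MulAut.mul_apply, MulAut.inv_apply_self]

theorem stabAut_imgAut {R : Subgroup Ω} {A : Subgroup (MulAut R)} {Q : Subgroup Ω} (hQ : Q ≤ R)
    {a : MulAut R} (ha : a ∈ A) :
    stabAut A (imgAut a Q) = (stabAut A Q).map (MulAut.conj a).toMonoidHom := by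
  apply le_antisymm
  · intro β hβ
    have h1 := conj_mem_stabAut (A.inv_mem ha) hβ
    rw [imgAut_inv_imgAut a hQ, inv_inv] at h1
    refine ⟨_, h1, ?_⟩
    show a * (a⁻¹ * β * a) * a⁻¹ = β
    group
  · rintro _ ⟨v, hv, rfl⟩
    exact conj_mem_stabAut ha hv

/-- Finding a fully automized conjugate inside a fully automized overgroup. -/
theorem exists_fullyAutomized_imgAut (E : FusionSystem S) [Finite S] {p : ℕ} [Fact p.Prime]
    (hS : IsPGroup p S) {R Q₀ : Subgroup Ω} (hR : E.IsFullyAutomized p R) (hQ₀ : Q₀ ≤ R)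
    (H1 : ∀ a ∈ E.autGroup R, ∀ α ∈ E.autGroup (imgAut a Q₀), ∃ β ∈ E.autGroup R,
      ∀ x : imgAut a Q₀, ((β (Subgroup.inclusion (imgAut_le a Q₀) x) : R) : Ω) = ((α x : imgAut a Q₀) : Ω))
    (H2 : ∀ a ∈ E.autGroup R, ∀ g ∈ S, g ∈ Subgroup.normalizer ((imgAut a Q₀ : Subgroup Ω) : Set Ω) →
      g ∈ Subgroup.normalizer (R : Set Ω)) :
    ∃ a ∈ E.autGroup R, E.IsFullyAutomized p (imgAut a Q₀) := by
  have hRS := hR.1
  have hfR : Finite R := finite_of_le hRS
  have hU := hR.isSylowIn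
  have hUA : autInducedBy S R ≤ E.autGroup R := E.autInducedBy_le_autGroup hRS
  obtain ⟨V, -, hVB, hV⟩ := exists_isSylowIn p (stabAut (E.autGroup R) Q₀) (K := ⊥) bot_le IsPGroup.of_bot
  obtain ⟨a, ha, hconj⟩ := hU.exists_conj_le (hVB.trans (stabAut_le _ _)) (hV.isPGroup hVB)
  refine ⟨a, ha, (imgAut_le a Q₀).trans hRS, ?_⟩
  have hQR := imgAut_le a Q₀
  specialize H1 a ha
  specialize H2 a ha
  have hBeq := stabAut_imgAut (A := E.autGroup R) hQ₀ ha
  set Q := imgAut a Q₀ with hQdef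
  set B := stabAut (E.autGroup R) Q with hB
  have hV' := hV.map_equiv hVB (MulAut.conj a)
  rw [← hBeq] at hV'
  have hVle : V.map (MulAut.conj a).toMonoidHom ≤ autInducedBy S R ⊓ B := by
    rintro _ ⟨v, hv, rfl⟩
    refine ⟨hconj v hv, ?_⟩
    rw [hBeq]
    exact ⟨v, hVB hv, rfl⟩
  have hsyl : IsSylowIn p (autInducedBy S R ⊓ B) B :=
    hV'.of_card_le (hVle.trans inf_le_right) inf_le_right
      ((isPGroup_autInducedBy hS).to_le inf_le_left) (Subgroup.card_le_of_le hVle)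
  obtain ⟨Φ, hΦ⟩ := exists_restrict_aut_hom hQR B (fun β hβ x hx => (hβ.2 x).1 hx)
  have h3 := hsyl.map_range Φ
  have hrange : Φ.range = E.autGroup Q := by
    apply le_antisymm
    · rintro _ ⟨β, rfl⟩
      exact E.restrict_mem_autGroup hQR hRS β.2.1 _ (hΦ β)
    · intro α hα
      obtain ⟨β, hβ, hβx⟩ := H1 α hα
      have hβB : β ∈ B := by
        refine ⟨hβ, fun x => ⟨fun hx => ?_, fun hx => ?_⟩⟩
        · have := hβx ⟨x, hx⟩
          have h4 : Subgroup.inclusion hQR ⟨(x : Ω), hx⟩ = x := Subtype.ext rfl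
          rw [h4] at this
          rw [this]; exact (α _).2
        · have h5 := hβx (α⁻¹ ⟨_, hx⟩)
          rw [MulAut.apply_inv_self] at h5
          have h6 : β (Subgroup.inclusion hQR (α⁻¹ ⟨_, hx⟩)) = β x := Subtype.ext h5
          have h7 := β.injective h6
          rw [← h7]
          exact (α⁻¹ ⟨_, hx⟩).2
      refine ⟨⟨β, hβB⟩, ?_⟩
      ext x
      rw [hΦ]
      exact hβx x
  have himg : ((autInducedBy S R ⊓ B).subgroupOf B).map Φ = autInducedBy S Q := by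
    apply le_antisymm
    · rintro _ ⟨β, hβ, rfl⟩
      obtain ⟨g, hg, hgx⟩ := (mem_autInducedBy_iff _).1 (Subgroup.mem_subgroupOf.1 hβ).1
      exact (mem_autInducedBy_iff _).2 ⟨g, hg, fun x => by rw [hΦ, hgx]; rfl⟩
    · intro α hα
      obtain ⟨g, hg, hgx⟩ := (mem_autInducedBy_iff α).1 hα
      have hgQ : g ∈ Subgroup.normalizer (Q : Set Ω) := mem_normalizer_of_induces α hgx
      have hgR := H2 g hg hgQ
      have hβU : conjAut g hgR ∈ autInducedBy S R := conjAut_mem hgR hg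
      have hβB : conjAut g hgR ∈ B :=
        ⟨hUA hβU, fun x => Subgroup.mem_normalizer_iff.1 hgQ x⟩
      refine ⟨⟨_, hβB⟩, Subgroup.mem_subgroupOf.2 ⟨hβU, hβB⟩, ?_⟩
      ext x
      rw [hΦ, hgx]
      rfl
  rw [hrange, himg] at h3
  exact h3

end FusionSystem
end Cfsg
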