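import Cfsg.Agent.Fus.Prod
import Cfsg.Agent.Fus.Prod2
import Cfsg.Agent.Fus.Quot2

/-!
The direct product of two saturated fusion systems is saturated.
-/

set_option autoImplicit false

namespace Cfsg
namespace FusionSystem

open Cfsg.Agent.Fus Cfsg.Agent.Lib.Helper27.Fus

variable {Ω₁ Ω₂ : Type*} [Group Ω₁] [Group Ω₂] {S₁ : Subgroup Ω₁} {S₂ : Subgroup Ω₂}
variable {F₁ : FusionSystem S₁} {F₂ : FusionSystem S₂} {E : FusionSystem (S₁.prod S₂)}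
variable {P₁ : Subgroup Ω₁} {P₂ : Subgroup Ω₂}

theorem IsProductSystem.exists_of_mem' (hE : IsProductSystem F₁ F₂ E) {P : Subgroup (Ω₁ × Ω₂)}
    (h₁ : pr₁ P = P₁) (h₂ : pr₂ P = P₂) (h : P ≤ P₁.prod P₂) {φ : P →* Ω₁ × Ω₂} (hφ : φ ∈ E.Hom P) :
    ∃ φ₁ ∈ F₁.Hom P₁, ∃ φ₂ ∈ F₂.Hom P₂, φ = pmap P h φ₁ φ₂ := by
  subst h₁ h₂
  exact hE.exists_of_mem hφ

theorem pr₁_prod (P₁ : Subgroup Ω₁) (P₂ : Subgroup Ω₂) : pr₁ (P₁.prod P₂) = P₁ := by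
  apply le_antisymm (pr₁_le le_rfl)
  intro y hy
  exact ⟨(y, 1), ⟨hy, P₂.one_mem⟩, rfl⟩

theorem pr₂_prod (P₁ : Subgroup Ω₁) (P₂ : Subgroup Ω₂) : pr₂ (P₁.prod P₂) = P₂ := by
  apply le_antisymm (pr₂_le le_rfl)
  intro y hy
  exact ⟨(1, y), ⟨P₁.one_mem, hy⟩, rfl⟩

/-- A pair of automorphisms as an automorphism of the product. -/
def sigmaAut (a : MulAut P₁ × MulAut P₂) : MulAut ↥(P₁.prod P₂) where
  toFun z := ⟨(((a.1 ⟨z.1.1, z.2.1⟩ : P₁) : Ω₁), ((a.2 ⟨z.1.2, z.2.2⟩ : P₂) : Ω₂)), (a.1 _).2, (a.2 _).2⟩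
  invFun z := ⟨(((a.1⁻¹ ⟨z.1.1, z.2.1⟩ : P₁) : Ω₁), ((a.2⁻¹ ⟨z.1.2, z.2.2⟩ : P₂) : Ω₂)), (a.1⁻¹ _).2, (a.2⁻¹ _).2⟩
  left_inv z := by
    apply Subtype.ext
    apply Prod.ext
    · show ((a.1⁻¹ (a.1 ⟨z.1.1, z.2.1⟩) : P₁) : Ω₁) = z.1.1
      rw [MulAut.inv_apply_self]
    · show ((a.2⁻¹ (a.2 ⟨z.1.2, z.2.2⟩) : P₂) : Ω₂) = z.1.2
      rw [MulAut.inv_apply_self]
  right_inv z := by
    apply Subtype.ext
    apply Prod.ext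
    · show ((a.1 (a.1⁻¹ ⟨z.1.1, z.2.1⟩) : P₁) : Ω₁) = z.1.1
      rw [MulAut.apply_inv_self]
    · show ((a.2 (a.2⁻¹ ⟨z.1.2, z.2.2⟩) : P₂) : Ω₂) = z.1.2
      rw [MulAut.apply_inv_self]
  map_mul' z w := by
    apply Subtype.ext
    apply Prod.ext
    · show ((a.1 (⟨z.1.1, z.2.1⟩ * ⟨w.1.1, w.2.1⟩) : P₁) : Ω₁) = _
      rw [map_mul]; rfl
    · show ((a.2 (⟨z.1.2, z.2.2⟩ * ⟨w.1.2, w.2.2⟩) : P₂) : Ω₂) = _
      rw [map_mul]; rfl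

/-- `sigmaAut` as a homomorphism. -/
def sigmaHom (P₁ : Subgroup Ω₁) (P₂ : Subgroup Ω₂) : MulAut P₁ × MulAut P₂ →* MulAut ↥(P₁.prod P₂) :=
  MonoidHom.mk' sigmaAut (fun _ _ => rfl)

theorem subtype_comp_sigmaAut (a : MulAut P₁ × MulAut P₂) :
    (P₁.prod P₂).subtype.comp (sigmaAut a).toMonoidHom =
      pmap (P₁.prod P₂) le_rfl (P₁.subtype.comp a.1.toMonoidHom) (P₂.subtype.comp a.2.toMonoidHom) := rfl

/-- A map of the system from `P₁` into `P₁` is an automorphism. -/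
theorem exists_aut_of_hom (F : FusionSystem S₁) [Finite P₁] {φ : P₁ →* Ω₁} (hφ : φ ∈ F.Hom P₁)
    (h : ∀ x, φ x ∈ P₁) : ∃ α ∈ F.autGroup P₁, ∀ x, ((α x : P₁) : Ω₁) = φ x := by
  have hmor := F.isMor_codRestrict hφ h
  have hbij : Function.Bijective (φ.codRestrict P₁ h) :=
    ⟨hmor.injective F, Finite.surjective_of_injective (hmor.injective F)⟩
  exact ⟨equivOfBijective _ hbij, (F.mem_autGroup_iff (F.le_of_mem hφ).1 _).2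
    (F.isMor_equivOfBijective hmor hbij), fun _ => rfl⟩

theorem IsProductSystem.exists_pair (hE : IsProductSystem F₁ F₂ E) [Finite P₁] [Finite P₂]
    {Q : Subgroup (Ω₁ × Ω₂)} (h₁ : pr₁ Q = P₁) (h₂ : pr₂ Q = P₂) (h : Q ≤ P₁.prod P₂)
    {φ : Q →* Ω₁ × Ω₂} (hφ : φ ∈ E.Hom Q) (hφQ : ∀ x, φ x ∈ P₁.prod P₂) :
    ∃ a : MulAut P₁ × MulAut P₂, a.1 ∈ F₁.autGroup P₁ ∧ a.2 ∈ F₂.autGroup P₂ ∧
      ∀ x : Q, φ x = (((a.1 ⟨x.1.1, (h x.2).1⟩ : P₁) : Ω₁), ((a.2 ⟨x.1.2, (h x.2).2⟩ : P₂) : Ω₂)) := by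
  obtain ⟨φ₁, hφ₁, φ₂, hφ₂, rfl⟩ := hE.exists_of_mem' h₁ h₂ h hφ
  have hv₁ : ∀ y, φ₁ y ∈ P₁ := by
    rintro ⟨y, hy⟩
    obtain ⟨x, hx, rfl⟩ := (h₁ ▸ hy : y ∈ pr₁ Q)
    exact (hφQ ⟨x, hx⟩).1
  have hv₂ : ∀ y, φ₂ y ∈ P₂ := by
    rintro ⟨y, hy⟩
    obtain ⟨x, hx, rfl⟩ := (h₂ ▸ hy : y ∈ pr₂ Q)
    exact (hφQ ⟨x, hx⟩).2
  obtain ⟨α₁, hα₁, hα₁x⟩ := F₁.exists_aut_of_hom hφ₁ hv₁
  obtain ⟨α₂, hα₂, hα₂x⟩ := F₂.exists_aut_of_hom hφ₂ hv₂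
  exact ⟨(α₁, α₂), hα₁, hα₂, fun x => Prod.ext (hα₁x _).symm (hα₂x _).symm⟩

theorem IsProductSystem.sigmaAut_mem (hE : IsProductSystem F₁ F₂ E) (hP₁ : P₁ ≤ S₁) (hP₂ : P₂ ≤ S₂)
    {a : MulAut P₁ × MulAut P₂} (h1 : a.1 ∈ F₁.autGroup P₁) (h2 : a.2 ∈ F₂.autGroup P₂) :
    sigmaAut a ∈ E.autGroup (P₁.prod P₂) := by
  rw [E.mem_autGroup_iff (Subgroup.prod_mono hP₁ hP₂)]
  show (P₁.prod P₂).subtype.comp (sigmaAut a).toMonoidHom ∈ E.Hom _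
  rw [subtype_comp_sigmaAut]
  exact hE.pmap_mem le_rfl ((F₁.mem_autGroup_iff hP₁ _).1 h1) ((F₂.mem_autGroup_iff hP₂ _).1 h2)

theorem IsProductSystem.exists_sigmaAut (hE : IsProductSystem F₁ F₂ E) [Finite P₁] [Finite P₂]
    (hP₁ : P₁ ≤ S₁) (hP₂ : P₂ ≤ S₂) {β : MulAut ↥(P₁.prod P₂)} (hβ : β ∈ E.autGroup (P₁.prod P₂)) :
    ∃ a : MulAut P₁ × MulAut P₂, a.1 ∈ F₁.autGroup P₁ ∧ a.2 ∈ F₂.autGroup P₂ ∧ sigmaAut a = β := by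
  obtain ⟨a, h1, h2, h3⟩ := hE.exists_pair (pr₁_prod P₁ P₂) (pr₂_prod P₁ P₂) le_rfl
    ((E.mem_autGroup_iff (Subgroup.prod_mono hP₁ hP₂) β).1 hβ) (fun x => (β x).2)
  refine ⟨a, h1, h2, ?_⟩
  ext x : 2
  exact (h3 x).symm

theorem isSylowIn_prod {X Y : Type*} [Group X] [Group Y] {p : ℕ} [Fact p.Prime] {U₁ A₁ : Subgroup X}
    {U₂ A₂ : Subgroup Y} [Finite A₁] [Finite A₂] (h₁ : IsSylowIn p U₁ A₁) (h₂ : IsSylowIn p U₂ A₂)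
    (hU₁ : U₁ ≤ A₁) (hU₂ : U₂ ≤ A₂) : IsSylowIn p (U₁.prod U₂) (A₁.prod A₂) := by
  have : Finite ↥(A₁.prod A₂) := Finite.of_equiv _ (Subgroup.prodEquiv A₁ A₂).symm.toEquiv
  apply isSylowIn_of_card (Subgroup.prod_mono hU₁ hU₂)
  rw [Nat.card_congr (Subgroup.prodEquiv U₁ U₂).toEquiv, Nat.card_congr (Subgroup.prodEquiv A₁ A₂).toEquiv,
    Nat.card_prod, Nat.card_prod, h₁.card_eq hU₁, h₂.card_eq hU₂,
    Nat.factorization_mul Nat.card_pos.ne' Nat.card_pos.ne', Finsupp.add_apply, pow_add]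

/-- The product of fully automized subgroups is fully automized. -/
theorem IsProductSystem.isFullyAutomized_prod (hE : IsProductSystem F₁ F₂ E) [Finite S₁] [Finite S₂]
    {p : ℕ} [Fact p.Prime] (h₁ : F₁.IsFullyAutomized p P₁) (h₂ : F₂.IsFullyAutomized p P₂) :
    E.IsFullyAutomized p (P₁.prod P₂) := by
  have hP₁ := h₁.1
  have hP₂ := h₂.1
  have hf₁ : Finite P₁ := finite_of_le hP₁
  have hf₂ : Finite P₂ := finite_of_le hP₂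
  refine ⟨Subgroup.prod_mono hP₁ hP₂, ?_⟩
  have hsyl := isSylowIn_prod h₁.isSylowIn h₂.isSylowIn (F₁.autInducedBy_le_autGroup hP₁)
    (F₂.autInducedBy_le_autGroup hP₂)
  have : Finite ↥((F₁.autGroup P₁).prod (F₂.autGroup P₂)) :=
    Finite.of_equiv _ (Subgroup.prodEquiv _ _).symm.toEquiv
  have h3 := hsyl.map_range ((sigmaHom P₁ P₂).comp ((F₁.autGroup P₁).prod (F₂.autGroup P₂)).subtype)
  have hrange : ((sigmaHom P₁ P₂).comp ((F₁.autGroup P₁).prod (F₂.autGroup P₂)).subtype).range =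
      E.autGroup (P₁.prod P₂) := by
    apply le_antisymm
    · rintro _ ⟨⟨a, ha⟩, rfl⟩
      exact hE.sigmaAut_mem hP₁ hP₂ ha.1 ha.2
    · intro β hβ
      obtain ⟨a, h1, h2, rfl⟩ := hE.exists_sigmaAut hP₁ hP₂ hβ
      exact ⟨⟨a, h1, h2⟩, rfl⟩
  have himg : (((autInducedBy S₁ P₁).prod (autInducedBy S₂ P₂)).subgroupOf
      ((F₁.autGroup P₁).prod (F₂.autGroup P₂))).map
      ((sigmaHom P₁ P₂).comp ((F₁.autGroup P₁).prod (F₂.autGroup P₂)).subtype) =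
      autInducedBy (S₁.prod S₂) (P₁.prod P₂) := by
    apply le_antisymm
    · rintro _ ⟨⟨a, ha⟩, hau, rfl⟩
      obtain ⟨hu1, hu2⟩ := Subgroup.mem_subgroupOf.1 hau
      obtain ⟨g₁, hg₁, hx₁⟩ := (mem_autInducedBy_iff _).1 hu1
      obtain ⟨g₂, hg₂, hx₂⟩ := (mem_autInducedBy_iff _).1 hu2
      exact (mem_autInducedBy_iff _).2 ⟨(g₁, g₂), ⟨hg₁, hg₂⟩, fun x => Prod.ext (hx₁ _) (hx₂ _)⟩
    · intro β hβ
      obtain ⟨g, hg, hx⟩ := (mem_autInducedBy_iff β).1 hβ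
      have hn₁ : g.1 ∈ Subgroup.normalizer (P₁ : Set Ω₁) := by
        apply mem_normalizer_of_finite
        intro y hy
        have h4 := hx ⟨(y, 1), hy, P₂.one_mem⟩
        have h5 := (β ⟨(y, 1), hy, P₂.one_mem⟩).2.1
        rw [h4] at h5
        exact h5
      have hn₂ : g.2 ∈ Subgroup.normalizer (P₂ : Set Ω₂) := by
        apply mem_normalizer_of_finite
        intro y hy
        have h4 := hx ⟨(1, y), P₁.one_mem, hy⟩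
        have h5 := (β ⟨(1, y), P₁.one_mem, hy⟩).2.2
        rw [h4] at h5
        exact h5
      have hu1 : conjAut g.1 hn₁ ∈ autInducedBy S₁ P₁ := conjAut_mem hn₁ hg.1
      have hu2 : conjAut g.2 hn₂ ∈ autInducedBy S₂ P₂ := conjAut_mem hn₂ hg.2
      refine ⟨⟨(conjAut g.1 hn₁, conjAut g.2 hn₂), F₁.autInducedBy_le_autGroup hP₁ hu1,
        F₂.autInducedBy_le_autGroup hP₂ hu2⟩, Subgroup.mem_subgroupOf.2 ⟨hu1, hu2⟩, ?_⟩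
      ext x : 2
      exact (hx x).symm
  rw [hrange, himg] at h3
  exact h3

end FusionSystem
end Cfsg
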