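import Cfsg.Agent.Fus.Prod3

/-!
The direct product of two saturated fusion systems is saturated, II.
-/

set_option autoImplicit false

namespace Cfsg
namespace FusionSystem

open Cfsg.Agent.Fus Cfsg.Agent.Lib.Helper27.Fus

variable {Ω₁ Ω₂ : Type*} [Group Ω₁] [Group Ω₂] {S₁ : Subgroup Ω₁} {S₂ : Subgroup Ω₂}
variable {F₁ : FusionSystem S₁} {F₂ : FusionSystem S₂} {E : FusionSystem (S₁.prod S₂)}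
variable {P₁ : Subgroup Ω₁} {P₂ : Subgroup Ω₂}

theorem IsProductSystem.pr₁_imgAut (hE : IsProductSystem F₁ F₂ E) [Finite P₁] [Finite P₂]
    (hP₁ : P₁ ≤ S₁) (hP₂ : P₂ ≤ S₂) {a : MulAut ↥(P₁.prod P₂)} (ha : a ∈ E.autGroup (P₁.prod P₂))
    {Q₀ : Subgroup (Ω₁ × Ω₂)} (h₁ : pr₁ Q₀ = P₁) (hQ₀ : Q₀ ≤ P₁.prod P₂) : pr₁ (imgAut a Q₀) = P₁ := by
  obtain ⟨b, -, -, rfl⟩ := hE.exists_sigmaAut hP₁ hP₂ ha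
  apply le_antisymm (pr₁_le (imgAut_le _ _))
  intro y hy
  have h2 : ((b.1⁻¹ ⟨y, hy⟩ : P₁) : Ω₁) ∈ pr₁ Q₀ := by rw [h₁]; exact (b.1⁻¹ ⟨y, hy⟩).2
  obtain ⟨x, hx, hxy⟩ := h2
  refine ⟨_, apply_mem_imgAut (sigmaAut b) (x := ⟨x, hQ₀ hx⟩) hx, ?_⟩
  show ((b.1 ⟨x.1, _⟩ : P₁) : Ω₁) = y
  have h3 : (⟨x.1, (hQ₀ hx).1⟩ : P₁) = b.1⁻¹ ⟨y, hy⟩ := Subtype.ext hxy
  rw [h3, MulAut.apply_inv_self]

theorem IsProductSystem.pr₂_imgAut (hE : IsProductSystem F₁ F₂ E) [Finite P₁] [Finite P₂]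
    (hP₁ : P₁ ≤ S₁) (hP₂ : P₂ ≤ S₂) {a : MulAut ↥(P₁.prod P₂)} (ha : a ∈ E.autGroup (P₁.prod P₂))
    {Q₀ : Subgroup (Ω₁ × Ω₂)} (h₂ : pr₂ Q₀ = P₂) (hQ₀ : Q₀ ≤ P₁.prod P₂) : pr₂ (imgAut a Q₀) = P₂ := by
  obtain ⟨b, -, -, rfl⟩ := hE.exists_sigmaAut hP₁ hP₂ ha
  apply le_antisymm (pr₂_le (imgAut_le _ _))
  intro y hy
  have h2 : ((b.2⁻¹ ⟨y, hy⟩ : P₂) : Ω₂) ∈ pr₂ Q₀ := by rw [h₂]; exact (b.2⁻¹ ⟨y, hy⟩).2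
  obtain ⟨x, hx, hxy⟩ := h2
  refine ⟨_, apply_mem_imgAut (sigmaAut b) (x := ⟨x, hQ₀ hx⟩) hx, ?_⟩
  show ((b.2 ⟨x.2, _⟩ : P₂) : Ω₂) = y
  have h3 : (⟨x.2, (hQ₀ hx).2⟩ : P₂) = b.2⁻¹ ⟨y, hy⟩ := Subtype.ext hxy
  rw [h3, MulAut.apply_inv_self]

theorem IsProductSystem.exists_aut_extension (hE : IsProductSystem F₁ F₂ E) [Finite P₁] [Finite P₂]
    (hP₁ : P₁ ≤ S₁) (hP₂ : P₂ ≤ S₂) {Q : Subgroup (Ω₁ × Ω₂)} (h₁ : pr₁ Q = P₁) (h₂ : pr₂ Q = P₂)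
    (hQ : Q ≤ P₁.prod P₂) {α : MulAut Q} (hα : α ∈ E.autGroup Q) :
    ∃ β ∈ E.autGroup (P₁.prod P₂), ∀ x : Q,
      ((β (Subgroup.inclusion hQ x) : ↥(P₁.prod P₂)) : Ω₁ × Ω₂) = ((α x : Q) : Ω₁ × Ω₂) := by
  obtain ⟨a, h1, h2, h3⟩ := hE.exists_pair h₁ h₂ hQ
    ((E.mem_autGroup_iff (hQ.trans (Subgroup.prod_mono hP₁ hP₂)) α).1 hα) (fun x => hQ (α x).2)
  exact ⟨sigmaAut a, hE.sigmaAut_mem hP₁ hP₂ h1 h2, fun x => (h3 x).symm⟩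

theorem mem_normalizer_prod_of_pr [Finite P₁] [Finite P₂] {Q : Subgroup (Ω₁ × Ω₂)} (h₁ : pr₁ Q = P₁)
    (h₂ : pr₂ Q = P₂) {g : Ω₁ × Ω₂} (hg : g ∈ Subgroup.normalizer (Q : Set (Ω₁ × Ω₂))) :
    g ∈ Subgroup.normalizer ((P₁.prod P₂ : Subgroup (Ω₁ × Ω₂)) : Set (Ω₁ × Ω₂)) := by
  have : Finite ↥(P₁.prod P₂) := Finite.of_equiv _ (Subgroup.prodEquiv P₁ P₂).symm.toEquiv
  apply mem_normalizer_of_finite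
  rintro z ⟨hz1, hz2⟩
  constructor
  · obtain ⟨x, hx, hxz⟩ := (h₁ ▸ hz1 : z.1 ∈ pr₁ Q)
    have h3 := fst_mem_pr₁ (conj_mem_of_normalizer hg hx)
    rw [h₁] at h3
    have h4 : (g * x * g⁻¹).1 = (g * z * g⁻¹).1 := by
      show g.1 * x.1 * g.1⁻¹ = g.1 * z.1 * g.1⁻¹
      have : x.1 = z.1 := hxz
      rw [this]
    rw [h4] at h3
    exact h3
  · obtain ⟨x, hx, hxz⟩ := (h₂ ▸ hz2 : z.2 ∈ pr₂ Q)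
    have h3 := snd_mem_pr₂ (conj_mem_of_normalizer hg hx)
    rw [h₂] at h3
    have h4 : (g * x * g⁻¹).2 = (g * z * g⁻¹).2 := by
      show g.2 * x.2 * g.2⁻¹ = g.2 * z.2 * g.2⁻¹
      have : x.2 = z.2 := hxz
      rw [this]
    rw [h4] at h3
    exact h3

theorem IsProductSystem.isReceptive (hE : IsProductSystem F₁ F₂ E) [Finite S₁] [Finite S₂]
    {Q : Subgroup (Ω₁ × Ω₂)} (hQ : Q ≤ P₁.prod P₂) (h₁ : pr₁ Q = P₁) (h₂ : pr₂ Q = P₂)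
    (hr₁ : F₁.IsReceptive P₁) (hr₂ : F₂.IsReceptive P₂) : E.IsReceptive Q := by
  refine ⟨hQ.trans (Subgroup.prod_mono hr₁.1 hr₂.1), fun R φ hφ hr => ?_⟩
  have hRS : R ≤ S₁.prod S₂ := (E.le_of_mem hφ).1
  obtain ⟨φ₁, hφ₁, φ₂, hφ₂, rfl⟩ := hE.exists_of_mem hφ
  have e1 : φ₁.range = P₁ := by rw [← pr₁_range_pmap R φ₁ φ₂, hr, h₁]
  have e2 : φ₂.range = P₂ := by rw [← pr₂_range_pmap R φ₁ φ₂, hr, h₂]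
  obtain ⟨ψ₁, hψ₁, hψ₁x⟩ := hr₁.2 _ φ₁ hφ₁ e1
  obtain ⟨ψ₂, hψ₂, hψ₂x⟩ := hr₂.2 _ φ₂ hφ₂ e2
  have hf1 : Finite ↥(pr₁ R) := finite_of_le (pr₁_le hRS)
  have hf2 : Finite ↥(pr₂ R) := finite_of_le (pr₂_le hRS)
  have hN : extender (S₁.prod S₂) R (pmap R (le_prod_pr R) φ₁ φ₂) ≤
      (extender S₁ (pr₁ R) φ₁).prod (extender S₂ (pr₂ R) φ₂) := by
    intro g hg
    obtain ⟨hgS, hgN, h, hh, hgh⟩ := (mem_extender_iff _ g).1 hg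
    constructor
    · refine (mem_extender_iff φ₁ g.1).2 ⟨hgS.1, ?_, h.1, hh.1, ?_⟩
      · apply mem_normalizer_of_finite
        rintro _ ⟨x, hx, rfl⟩
        exact fst_mem_pr₁ (conj_mem_of_normalizer hgN hx)
      · rintro ⟨_, x, hx, rfl⟩ hy
        exact congrArg Prod.fst (hgh ⟨x, hx⟩ (conj_mem_of_normalizer hgN hx))
    · refine (mem_extender_iff φ₂ g.2).2 ⟨hgS.2, ?_, h.2, hh.2, ?_⟩
      · apply mem_normalizer_of_finite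
        rintro _ ⟨x, hx, rfl⟩
        exact snd_mem_pr₂ (conj_mem_of_normalizer hgN hx)
      · rintro ⟨_, x, hx, rfl⟩ hy
        exact congrArg Prod.snd (hgh ⟨x, hx⟩ (conj_mem_of_normalizer hgN hx))
  refine ⟨pmap _ hN ψ₁ ψ₂, hE.pmap_mem hN hψ₁ hψ₂, fun x hxR hxN => ?_⟩
  exact Prod.ext (hψ₁x x.1 (fst_mem_pr₁ hxR) (hN hxN).1) (hψ₂x x.2 (snd_mem_pr₂ hxR) (hN hxN).2)

/-- S5137. -/
theorem IsProductSystem.isSaturated (hE : IsProductSystem F₁ F₂ E) [Finite S₁] [Finite S₂] {p : ℕ}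
    [Fact p.Prime] (h₁ : IsPGroup p S₁) (h₂ : IsPGroup p S₂) (hF₁ : F₁.IsSaturated p)
    (hF₂ : F₂.IsSaturated p) : E.IsSaturated p := by
  have hfS : Finite ↥(S₁.prod S₂) := Finite.of_equiv _ (Subgroup.prodEquiv S₁ S₂).symm.toEquiv
  have hS : IsPGroup p ↥(S₁.prod S₂) := by
    obtain ⟨n₁, hn₁⟩ := IsPGroup.iff_card.1 h₁
    obtain ⟨n₂, hn₂⟩ := IsPGroup.iff_card.1 h₂
    apply IsPGroup.of_card (n := n₁ + n₂)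
    rw [Nat.card_congr (Subgroup.prodEquiv S₁ S₂).toEquiv, Nat.card_prod, hn₁, hn₂, pow_add]
  intro P hP
  obtain ⟨P₁, ⟨φ₁, hφ₁, hr₁⟩, hfn₁⟩ := F₁.exists_fullyNormalized_conj (pr₁_le hP)
  obtain ⟨P₂, ⟨φ₂, hφ₂, hr₂⟩, hfn₂⟩ := F₂.exists_fullyNormalized_conj (pr₂_le hP)
  obtain ⟨-, hfa₁, hrec₁⟩ := hF₁.fullyNormalized F₁ h₁ hfn₁
  obtain ⟨-, hfa₂, hrec₂⟩ := hF₂.fullyNormalized F₂ h₂ hfn₂
  have hP₁ := hfn₁.1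
  have hP₂ := hfn₂.1
  have hf₁ : Finite P₁ := finite_of_le hP₁
  have hf₂ : Finite P₂ := finite_of_le hP₂
  have hφ : pmap P (le_prod_pr P) φ₁ φ₂ ∈ E.Hom P := hE.pmap_mem _ hφ₁ hφ₂
  have e1 : pr₁ (pmap P (le_prod_pr P) φ₁ φ₂).range = P₁ := by rw [pr₁_range_pmap, hr₁]
  have e2 : pr₂ (pmap P (le_prod_pr P) φ₁ φ₂).range = P₂ := by rw [pr₂_range_pmap, hr₂]
  set Q₀ := (pmap P (le_prod_pr P) φ₁ φ₂).range with hQ₀def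
  have hQ₀ : Q₀ ≤ P₁.prod P₂ := by
    have := le_prod_pr Q₀
    rwa [e1, e2] at this
  have hR := hE.isFullyAutomized_prod hfa₁ hfa₂
  obtain ⟨a, ha, hfa⟩ := E.exists_fullyAutomized_imgAut hS hR hQ₀
    (fun a ha α hα => hE.exists_aut_extension hP₁ hP₂ (hE.pr₁_imgAut hP₁ hP₂ ha e1 hQ₀)
      (hE.pr₂_imgAut hP₁ hP₂ ha e2 hQ₀) (imgAut_le a Q₀) hα)
    (fun a ha g _ hg => mem_normalizer_prod_of_pr (hE.pr₁_imgAut hP₁ hP₂ ha e1 hQ₀)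
      (hE.pr₂_imgAut hP₁ hP₂ ha e2 hQ₀) hg)
  refine ⟨imgAut a Q₀, IsConj.trans E ⟨_, hφ, rfl⟩
    (E.isConj_iff.2 ⟨resEquiv a hQ₀, isMor_resEquiv E hR.1 ha hQ₀⟩), hfa, ?_⟩
  exact hE.isReceptive (imgAut_le a Q₀) (hE.pr₁_imgAut hP₁ hP₂ ha e1 hQ₀)
    (hE.pr₂_imgAut hP₁ hP₂ ha e2 hQ₀) hrec₁ hrec₂

end FusionSystem
end Cfsg
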