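import Cfsg.Agent.Fus.PPowerNormal
import Cfsg.Prelude.Def_FusionReduction

/-!
Residual limits (S5203).
-/

set_option autoImplicit false

namespace Cfsg
namespace FusionSystem

open Cfsg.Agent.Fus Cfsg.Agent.Lib.Helper27.Fus

universe u

variable {Ω : Type u} [Group Ω] {S T : Subgroup Ω}

theorem HasPPowerIndexIn.autGroup_le {E : FusionSystem T} {F : FusionSystem S} {p : ℕ}
    (h : E.HasPPowerIndexIn F p) (hTS : T ≤ S) {P : Subgroup Ω} (hP : P ≤ T) : E.autGroup P ≤ F.autGroup P := by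
  intro γ hγ
  rw [F.mem_autGroup_iff (hP.trans hTS)]
  exact h.1 P ((E.mem_autGroup_iff hP γ).1 hγ)

theorem IsSubsystemOf.le_base {E : FusionSystem T} {F : FusionSystem S} (h : E.IsSubsystemOf F) : T ≤ S :=
  (F.le_of_mem (h T (E.subtype_mem le_rfl))).1

/-- The hyperfocal subgroup of a subsystem of `p`-power index. -/
theorem HasPPowerIndexIn.hyperfocal_eq {E : FusionSystem T} {F : FusionSystem S} [Finite S] {p : ℕ}
    [Fact p.Prime] (hS : IsPGroup p S) (h : E.HasPPowerIndexIn F p) :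
    E.hyperfocalSubgroup p = F.hyperfocalSubgroup p := by
  have hTS : T ≤ S := h.1.le_base
  apply le_antisymm
  · rw [hyperfocal_le_iff_coprime]
    intro P hP α hα hco x
    apply F.mem_hyperfocal p (hP.trans hTS)
    rw [opOf_eq_closure]
    exact Subgroup.subset_closure ⟨h.autGroup_le hTS hP hα, hco⟩
  · rw [hyperfocal_le_iff_coprime]
    intro P hP α hα hco x
    have hfP : Finite P := finite_of_le hP
    have hhyp : ∀ y : P, (y : Ω)⁻¹ * ((α y : P) : Ω) ∈ F.hyperfocalSubgroup p := by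
      intro y
      apply F.mem_hyperfocal p hP
      rw [opOf_eq_closure]
      exact Subgroup.subset_closure ⟨hα, hco⟩
    obtain ⟨Φ, hΦ⟩ := exists_restrict_aut_hom (inf_le_left : P ⊓ T ≤ P) (Subgroup.zpowers α) (by
      intro γ hγ y hy
      obtain ⟨k, rfl⟩ := hγ
      have hF : α ^ k ∈ F.autGroup P := Subgroup.zpow_mem _ hα k
      refine ⟨((α ^ k) y).2, ?_⟩
      have h1 : (y : Ω)⁻¹ * (((α ^ k) y : P) : Ω) ∈ F.hyperfocalSubgroup p := by
        apply F.mem_hyperfocal p hP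
        rw [opOf_eq_closure]
        apply Subgroup.zpow_mem
        exact Subgroup.subset_closure ⟨hα, hco⟩
      have h2 := T.mul_mem hy.2 (h.2.1 h1)
      rwa [mul_inv_cancel_left] at h2)
    set α₀ := Φ ⟨α, Subgroup.mem_zpowers α⟩ with hα₀
    have hα₀x : ∀ t : ↥(P ⊓ T), ((α₀ t : ↥(P ⊓ T)) : Ω) = ((α (Subgroup.inclusion inf_le_left t) : P) : Ω) :=
      hΦ ⟨α, Subgroup.mem_zpowers α⟩
    have hα₀F : α₀ ∈ F.autGroup (P ⊓ T) := F.restrict_mem_autGroup inf_le_left hP hα _ hα₀x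
    have hα₀co : Nat.Coprime (orderOf α₀) p := by
      refine Nat.Coprime.coprime_dvd_left (orderOf_map_dvd _ _) ?_
      rwa [← Subgroup.orderOf_coe]
    have hα₀E : α₀ ∈ opOf p (E.autGroup (P ⊓ T)) := by
      rw [opOf_eq_closure]
      refine Subgroup.subset_closure ⟨h.2.2 _ inf_le_right ?_, hα₀co⟩
      show α₀ ∈ opOf p (F.autGroup (P ⊓ T))
      rw [opOf_eq_closure]
      exact Subgroup.subset_closure ⟨hα₀F, hα₀co⟩
    -- `α` acts trivially on `P ∩ T` modulo `D`
    have hD1 : ∀ t : P, (t : Ω) ∈ T → (t : Ω)⁻¹ * ((α t : P) : Ω) ∈ E.hyperfocalSubgroup p := by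
      intro t ht
      have h1 := E.mem_hyperfocal p inf_le_right hα₀E ⟨t, t.2, ht⟩
      rw [hα₀x] at h1
      exact h1
    have hTinv : ∀ t : P, (t : Ω) ∈ T → ((α t : P) : Ω) ∈ T := by
      intro t ht
      have h2 := T.mul_mem ht (h.2.1 (hhyp t))
      rwa [mul_inv_cancel_left] at h2
    have hTinvk : ∀ (k : ℕ) (t : P), (t : Ω) ∈ T → (((α ^ k) t : P) : Ω) ∈ T := by
      intro k
      induction k with
      | zero => intro t ht; simpa using ht
      | succ k ih =>
        intro t ht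
        rw [pow_succ', MulAut.mul_apply]
        exact hTinv _ (ih t ht)
    have hDk : ∀ (k : ℕ) (t : P), (t : Ω) ∈ T →
        (t : Ω)⁻¹ * (((α ^ k) t : P) : Ω) ∈ E.hyperfocalSubgroup p := by
      intro k
      induction k with
      | zero => intro t _; simp
      | succ k ih =>
        intro t ht
        have h1 := Subgroup.mul_mem _ (ih t ht) (hD1 _ (hTinvk k t ht))
        have h2 : (t : Ω)⁻¹ * (((α ^ k) t : P) : Ω) * ((((α ^ k) t : P) : Ω)⁻¹ * ((α ((α ^ k) t) : P) : Ω)) =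
            (t : Ω)⁻¹ * (((α ^ (k + 1)) t : P) : Ω) := by
          rw [pow_succ', MulAut.mul_apply]; group
        rwa [h2] at h1
    set z : P := x⁻¹ * α x with hz
    have hzT : (z : Ω) ∈ T := h.2.1 (hhyp x)
    have hkey : ∀ k : ℕ, ((z : Ω) ^ k)⁻¹ * ((x : Ω)⁻¹ * (((α ^ k) x : P) : Ω)) ∈ E.hyperfocalSubgroup p := by
      intro k
      induction k with
      | zero => simp
      | succ k ih =>
        have h1 : α x = x * z := by rw [hz]; group
        have h2 : (α ^ (k + 1)) x = (α ^ k) x * (α ^ k) z := by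
          rw [pow_succ, MulAut.mul_apply, h1, map_mul]
        have h3 := hDk k z hzT
        have h4 := E.hyperfocal_conj_mem p (T.inv_mem hzT) ih
        have h5 := Subgroup.mul_mem _ h4 h3
        have h6 : (z : Ω)⁻¹ * (((z : Ω) ^ k)⁻¹ * ((x : Ω)⁻¹ * (((α ^ k) x : P) : Ω))) * (z : Ω)⁻¹⁻¹ *
            ((z : Ω)⁻¹ * (((α ^ k) z : P) : Ω)) =
            ((z : Ω) ^ (k + 1))⁻¹ * ((x : Ω)⁻¹ * (((α ^ (k + 1)) x : P) : Ω)) := by
          rw [h2, pow_succ]
          simp only [Subgroup.coe_mul]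
          group
        rwa [h6] at h5
    have h7 := hkey (orderOf α)
    rw [pow_orderOf_eq_one] at h7
    have h8 : ((z : Ω) ^ orderOf α) ∈ E.hyperfocalSubgroup p := by
      have h9 := Subgroup.inv_mem _ h7
      simpa using h9
    have hzo : Nat.Coprime (orderOf α) (orderOf (z : Ω)) := by
      obtain ⟨k, hk⟩ := (isPGroup_of_le hS hP) z
      have h10 : (z : Ω) ^ p ^ k = 1 := by
        have := congrArg (fun y : P => (y : Ω)) hk
        simpa using this
      obtain ⟨j, -, hj⟩ := (Nat.dvd_prime_pow Fact.out).1 (orderOf_dvd_of_pow_eq_one h10)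
      rw [hj]
      exact Nat.Coprime.pow_right _ hco
    obtain ⟨m, hm⟩ := exists_pow_eq_self_of_coprime hzo
    have h11 := Subgroup.pow_mem _ h8 m
    rw [hm] at h11
    exact h11

theorem hasPPowerIndexIn_self (F : FusionSystem S) (p : ℕ) : F.HasPPowerIndexIn F p :=
  ⟨fun _ _ h => h, F.hyperfocal_le p, fun _ _ => opOf_le p _⟩

theorem HasPPowerIndexIn.trans {U : Subgroup Ω} {D : FusionSystem U} {E : FusionSystem T} {F : FusionSystem S}
    [Finite S] {p : ℕ} [Fact p.Prime] (hS : IsPGroup p S) (h₁ : D.HasPPowerIndexIn E p)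
    (h₂ : E.HasPPowerIndexIn F p) : D.HasPPowerIndexIn F p := by
  have hUT : U ≤ T := h₁.1.le_base
  refine ⟨fun P φ hφ => h₂.1 P (h₁.1 P hφ), ?_, fun P hP => ?_⟩
  · rw [← h₂.hyperfocal_eq hS]; exact h₁.2.1
  · show opOf p (F.autGroup P) ≤ _
    rw [opOf_eq_closure, Subgroup.closure_le]
    rintro a ⟨ha, hco⟩
    apply h₁.2.2 P hP
    show a ∈ opOf p (E.autGroup P)
    rw [opOf_eq_closure]
    refine Subgroup.subset_closure ⟨h₂.2.2 P (hP.trans hUT) ?_, hco⟩
    show a ∈ opOf p (F.autGroup P)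
    rw [opOf_eq_closure]
    exact Subgroup.subset_closure ⟨ha, hco⟩

theorem eq_of_hasPPowerIndexIn {F : FusionSystem S} [Finite S] {p : ℕ} [Fact p.Prime] (hS : IsPGroup p S)
    {D₁ D₂ : FusionSystem T} (h₁ : D₁.IsSaturated p ∧ D₁.HasPPowerIndexIn F p)
    (h₂ : D₂.IsSaturated p ∧ D₂.HasPPowerIndexIn F p) : D₁ = D₂ := by
  have hTS : T ≤ S := h₁.2.1.le_base
  have : Finite T := finite_of_le hTS
  have hT : IsPGroup p T := hS.to_le hTS
  exact le_antisymm' (isSubsystemOf_of_hasPPowerIndexIn hT h₁.1 h₁.2.1 hTS le_rfl h₂.2)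
    (isSubsystemOf_of_hasPPowerIndexIn hT h₂.1 h₂.2.1 hTS le_rfl h₁.2)

theorem IsPPrimeResidual.unique {F D₁ D₂ : FusionSystem S} {p : ℕ} (h₁ : F.IsPPrimeResidual p D₁)
    (h₂ : F.IsPPrimeResidual p D₂) : D₁ = D₂ :=
  le_antisymm' (h₁.2.2 D₂ h₂.1 h₂.2.1) (h₂.2.2 D₁ h₁.1 h₁.2.1)

theorem IsResidualLimitOf.step' {F : FusionSystem S} {p : ℕ} {H : Subgroup Ω}
    (hH : H = F.hyperfocalSubgroup p) {E : FusionSystem T} (D D' : FusionSystem H)
    (hD : D.IsSaturated p ∧ D.HasPPowerIndexIn F p) (hD' : D.IsPPrimeResidual p D')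
    (h : E.IsResidualLimitOf D' p) : E.IsResidualLimitOf F p := by
  subst hH
  exact IsResidualLimitOf.step F p D D' hD hD' h

theorem stable_step_aux {F : FusionSystem S} {p : ℕ} [Fact p.Prime] [Finite S] (hS : IsPGroup p S)
    (hF : F.IsSaturated p) (h1 : F.hyperfocalSubgroup p = S) (h2 : F.IsPPrimeResidual p F)
    (H : Subgroup Ω) (hH : H = S) (D D' : FusionSystem H)
    (hD : D.IsSaturated p ∧ D.HasPPowerIndexIn F p) (hD' : D.IsPPrimeResidual p D') :
    (Finite H ∧ IsPGroup p H ∧ D'.IsSaturated p ∧ D'.hyperfocalSubgroup p = H ∧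
      D'.IsPPrimeResidual p D' ∧ ∀ P, D'.Hom P = F.Hom P) := by
  subst hH
  have e1 : D = F := eq_of_hasPPowerIndexIn hS hD ⟨hF, F.hasPPowerIndexIn_self p⟩
  subst e1
  have e2 : D' = D := hD'.unique h2
  subst e2
  exact ⟨inferInstance, hS, hF, h1, h2, fun _ => rfl⟩

theorem IsResidualLimitOf.eq_of_stable {T : Subgroup Ω} {E : FusionSystem T} {S : Subgroup Ω}
    {F : FusionSystem S} {p : ℕ} (h : E.IsResidualLimitOf F p) : Fact p.Prime → Finite S → IsPGroup p S →
    F.IsSaturated p → F.hyperfocalSubgroup p = S → F.IsPPrimeResidual p F → ∀ P, E.Hom P = F.Hom P := by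
  induction h with
  | stable F p _ _ => intros; rfl
  | step F p D D' hD hD' hlim ih =>
    intro hp hfin hS hF h1 h2
    obtain ⟨k1, k2, k3, k4, k5, k6⟩ := stable_step_aux hS hF h1 h2 _ h1 D D' hD hD'
    intro P
    rw [ih hp k1 k2 k3 k4 k5 P, k6]

theorem IsResidualLimitOf.unique {T₁ : Subgroup Ω} {E₁ : FusionSystem T₁} {S : Subgroup Ω}
    {F : FusionSystem S} {p : ℕ} (h : E₁.IsResidualLimitOf F p) : Fact p.Prime → Finite S → IsPGroup p S →
    F.IsSaturated p → ∀ {T₂ : Subgroup Ω} (E₂ : FusionSystem T₂), E₂.IsResidualLimitOf F p →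
    ∀ P, E₁.Hom P = E₂.Hom P := by
  induction h with
  | stable F p h1 h2 =>
    intro hp hfin hS hF T₂ E₂ hE₂ P
    exact (hE₂.eq_of_stable hp hfin hS hF h1 h2 P).symm
  | step F p D D' hD hD' hlim ih =>
    intro hp hfin hS hF T₂ E₂ hE₂
    cases hE₂ with
    | stable _ _ h1 h2 =>
      exact (IsResidualLimitOf.step F p D D' hD hD' hlim).eq_of_stable hp hfin hS hF h1 h2
    | step _ _ D₂ D₂' hD₂ hD₂' hlim₂ =>
      have e1 : D₂ = D := eq_of_hasPPowerIndexIn hS hD₂ hD
      subst e1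
      have e2 : D₂' = D' := hD₂'.unique hD'
      subst e2
      have hle := F.hyperfocal_le p
      exact ih hp (finite_of_le hle) (hS.to_le hle) hD'.1 E₂ hlim₂

/-- S5203. -/
theorem residualLimit_eq_of_hasPPowerIndexIn {F : FusionSystem S} [Finite S] {p : ℕ} [hp : Fact p.Prime]
    (hS : IsPGroup p S) (hF : F.IsSaturated p) {E : FusionSystem T} (hEs : E.IsSaturated p)
    (hidx : E.HasPPowerIndexIn F p) {U V : Subgroup Ω} (Finf : FusionSystem U)
    (hFinf : Finf.IsResidualLimitOf F p) (Einf : FusionSystem V) (hEinf : Einf.IsResidualLimitOf E p) :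
    ∀ P : Subgroup Ω, Finf.Hom P = Einf.Hom P := by
  have hhyp := hidx.hyperfocal_eq hS
  have h1 : Einf.IsResidualLimitOf F p := by
    cases hEinf with
    | stable _ _ h1 h2 =>
      exact IsResidualLimitOf.step' (h1.symm.trans hhyp) E E ⟨hEs, hidx⟩ h2 (IsResidualLimitOf.stable E p h1 h2)
    | step _ _ D D' hD hD' hlim =>
      exact IsResidualLimitOf.step' hhyp D D' ⟨hD.1, hD.2.trans hS hidx⟩ hD' hlim
  exact hFinf.unique hp inferInstance hS hF Einf h1

end FusionSystem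
end Cfsg
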