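import Cfsg.Agent.Lib.Helper27.CoprimeAut2

/-!
A chain version of "a `p'`-automorphism fixing the elements of small order is trivial".
-/

set_option autoImplicit false

namespace Cfsg.Agent.Fus

open Cfsg.Agent.Lib.Helper27

variable {X : Type*} [Group X]

/-- A `p'`-automorphism moving the elements of small order down a chain is trivial
(adapted from helper27's `fixes_of_fixes_small`). -/
theorem fixes_of_chain_small {p k e : ℕ} [Fact p.Prime] (hk : Nat.Coprime k p)
    (he : (p ≠ 2 ∧ e = p) ∨ (p = 2 ∧ e = 4)) (α : MulAut X) (H : Subgroup X) [Finite H] (hH : IsPGroup p H)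
    (hinv : ∀ x ∈ H, α x ∈ H) (hpow : ∀ x ∈ H, (α ^ k) x = x)
    (Z : ℕ → Subgroup X) (len : ℕ) (hZ0 : Z 0 = ⊥) (hZn : H ≤ Z len)
    (hsmall : ∀ j, ∀ x ∈ H, x ^ e = 1 → x ∈ Z (j + 1) → x⁻¹ * α x ∈ Z j) :
    ∀ x ∈ H, α x = x := by
  have hp : p.Prime := Fact.out
  induction' hn : Nat.card H using Nat.strong_induction_on with n ih generalizing H
  -- the induction hypothesis for proper invariant subgroups
  have sub : ∀ N : Subgroup X, N ≤ H → N ≠ H → (∀ x ∈ N, α x ∈ N) → ∀ x ∈ N, α x = x := by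
    intro N hNH hne hNinv
    have hfin : Finite N := Finite.of_injective (Subgroup.inclusion hNH) (Subgroup.inclusion_injective _)
    have hlt : Nat.card N < n := by
      rw [← hn]
      refine lt_of_le_of_ne (Subgroup.card_le_of_le hNH) (fun hc => hne ?_)
      exact Subgroup.eq_of_le_of_card_ge hNH hc.ge
    exact ih (Nat.card N) hlt N (hH.to_le hNH) hNinv (fun x hx => hpow x (hNH hx)) (hNH.trans hZn)
      (fun j x hx => hsmall j x (hNH hx)) rfl
  have step0 : ∀ x ∈ H, α (x⁻¹ * α x) = x⁻¹ * α x → α x = x := by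
    intro x hx hy
    obtain ⟨m, hm⟩ := hH ⟨x⁻¹ * α x, H.mul_mem (H.inv_mem hx) (hinv x hx)⟩
    have hm' : (x⁻¹ * α x) ^ p ^ m = 1 := congrArg Subtype.val hm
    exact fixed_of_quot_fixed hk α x (hpow x hx) hy hm'
  set D := Subgroup.closure {y : X | ∃ x ∈ H, y = x⁻¹ * α x} with hD
  have hDH : D ≤ H := by
    rw [hD, Subgroup.closure_le]
    rintro _ ⟨x, hx, rfl⟩
    exact H.mul_mem (H.inv_mem hx) (hinv x hx)
  have hDinv : ∀ y ∈ D, α y ∈ D := by
    intro y hy
    induction hy using Subgroup.closure_induction with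
    | mem y hy =>
      obtain ⟨x, hx, rfl⟩ := hy
      apply Subgroup.subset_closure
      exact ⟨α x, hinv x hx, by rw [map_mul, map_inv]⟩
    | one => rw [map_one]; exact D.one_mem
    | mul a b _ _ ha hb => rw [map_mul]; exact D.mul_mem ha hb
    | inv a _ ha => rw [map_inv]; exact D.inv_mem ha
  by_cases hDeq : D = H
  swap
  · intro x hx
    apply step0 x hx
    exact sub D hDH hDeq hDinv _ (Subgroup.subset_closure ⟨x, hx, rfl⟩)
  -- now `H = [H, α]`
  have central : ∀ N : Subgroup X, N ≤ H → N ≠ H → (∀ x ∈ N, α x ∈ N) →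
      (∀ g ∈ H, ∀ z ∈ N, g * z * g⁻¹ ∈ N) → ∀ z ∈ N, ∀ g ∈ H, Commute z g := by
    intro N hNH hne hNinv hnorm z hz
    have hfix := sub N hNH hne hNinv
    have hle : D ≤ Subgroup.centralizer {z} := by
      rw [hD, Subgroup.closure_le]
      rintro _ ⟨x, hx, rfl⟩
      rw [SetLike.mem_coe, Subgroup.mem_centralizer_singleton_iff]
      have h4 := hfix _ (hnorm x hx z hz)
      rw [map_mul, map_mul, map_inv, hfix z hz] at h4
      have h5 : α x * z = x * z * x⁻¹ * α x := by rw [← h4]; group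
      rw [mul_assoc, h5]
      group
    intro g hg
    rw [← hDeq] at hg
    have := hle hg
    rw [Subgroup.mem_centralizer_singleton_iff] at this
    exact this.symm
  by_cases hbot : H = ⊥
  · intro x hx
    rw [hbot, Subgroup.mem_bot] at hx
    rw [hx, map_one]
  have hnt : Nontrivial H := (Subgroup.nontrivial_iff_ne_bot H).2 hbot
  obtain ⟨M, hMtop, hMp, hMc⟩ := exists_proper_frattini_like hH
  set N := Subgroup.closure ({y : X | ∃ x ∈ H, y = x ^ p} ∪
    {y : X | ∃ a ∈ H, ∃ b ∈ H, y = a * b * a⁻¹ * b⁻¹}) with hN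
  have hNM : N ≤ M.map H.subtype := by
    rw [hN, Subgroup.closure_le]
    rintro _ (⟨x, hx, rfl⟩ | ⟨a, ha, b, hb, rfl⟩)
    · exact ⟨⟨x, hx⟩ ^ p, hMp ⟨x, hx⟩, rfl⟩
    · exact ⟨_, hMc ⟨a, ha⟩ ⟨b, hb⟩, rfl⟩
  have hNH : N ≤ H := hNM.trans (by
    rintro _ ⟨y, -, rfl⟩
    exact y.2)
  have hNne : N ≠ H := by
    intro h
    apply hMtop
    rw [eq_top_iff]
    intro y _
    have h0 : (y : X) ∈ N := by rw [h]; exact y.2
    have h1 : (y : X) ∈ M.map H.subtype := hNM h0
    obtain ⟨z, hz, hzy⟩ := h1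
    have : z = y := Subtype.ext hzy
    rwa [← this]
  have hNinv : ∀ y ∈ N, α y ∈ N := by
    have h1 : N ≤ N.comap α.toMonoidHom := by
      conv_lhs => rw [hN]
      rw [Subgroup.closure_le]
      intro y hy
      show α y ∈ N
      apply Subgroup.subset_closure
      rcases hy with ⟨x, hx, rfl⟩ | ⟨a, ha, b, hb, rfl⟩
      · exact Or.inl ⟨α x, hinv x hx, by rw [map_pow]⟩
      · exact Or.inr ⟨α a, hinv a ha, α b, hinv b hb, by simp only [map_mul, map_inv]⟩
    exact fun y hy => h1 hy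
  have hNnorm : ∀ g ∈ H, ∀ z ∈ N, g * z * g⁻¹ ∈ N := by
    intro g hg
    have h1 : N ≤ N.comap (MulAut.conj g).toMonoidHom := by
      conv_lhs => rw [hN]
      rw [Subgroup.closure_le]
      intro y hy
      show g * y * g⁻¹ ∈ N
      apply Subgroup.subset_closure
      rcases hy with ⟨x, hx, rfl⟩ | ⟨a, ha, b, hb, rfl⟩
      · exact Or.inl ⟨g * x * g⁻¹, H.mul_mem (H.mul_mem hg hx) (H.inv_mem hg), by rw [conj_pow]⟩
      · exact Or.inr ⟨g * a * g⁻¹, H.mul_mem (H.mul_mem hg ha) (H.inv_mem hg), g * b * g⁻¹,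
          H.mul_mem (H.mul_mem hg hb) (H.inv_mem hg), by group⟩
    exact fun z hz => h1 hz
  have hNfix := sub N hNH hNne hNinv
  have hNcent := central N hNH hNne hNinv hNnorm
  have claim : (∀ x ∈ H, (x⁻¹ * α x) ^ e = 1) → ∀ x ∈ H, α x = x := by
    intro factE
    have claim : ∀ j, ∀ z ∈ H, z ^ e = 1 → z ∈ Z j → α z = z := by
      intro j
      induction j with
      | zero =>
        intro z _ _ hz
        rw [hZ0, Subgroup.mem_bot] at hz
        rw [hz, map_one]
      | succ j ih2 =>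
        intro z hz hze hzj
        apply step0 z hz
        exact ih2 _ (H.mul_mem (H.inv_mem hz) (hinv z hz)) (factE z hz) (hsmall j z hz hze hzj)
    intro x hx
    apply step0 x hx
    exact claim len _ (H.mul_mem (H.inv_mem hx) (hinv x hx)) (factE x hx)
      (hZn (H.mul_mem (H.inv_mem hx) (hinv x hx)))
  apply claim
  intro x hx
  -- `(x⁻¹ α(x)) ^ e = 1`
  have hu : x⁻¹ ∈ H := H.inv_mem hx
  have hv : α x ∈ H := hinv x hx
  set c := α x * x⁻¹ * (α x)⁻¹ * x⁻¹⁻¹ with hc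
  have hcN : c ∈ N := Subgroup.subset_closure (Or.inr ⟨α x, hv, x⁻¹, hu, rfl⟩)
  have hrel : α x * x⁻¹ = c * (x⁻¹ * α x) := by rw [hc]; group
  have hcu : Commute c x⁻¹ := hNcent c hcN _ hu
  have hcv : Commute c (α x) := hNcent c hcN _ hv
  have hcp : c ^ p = 1 := by
    have h1 := pow_mul_comm_central hrel hcv p
    have h2 : Commute ((α x) ^ p) x⁻¹ :=
      hNcent _ (Subgroup.subset_closure (Or.inl ⟨α x, hv, rfl⟩)) _ hu
    rw [h2.eq] at h1
    have h3 : c ^ p * (x⁻¹ * α x ^ p) = 1 * (x⁻¹ * α x ^ p) := by rw [← h1, one_mul]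
    exact mul_right_cancel h3
  have hce : c ^ (e.choose 2) = 1 := by
    rcases he with ⟨hp2, rfl⟩ | ⟨rfl, rfl⟩
    · have h3 : 2 < e := lt_of_le_of_ne hp.two_le (Ne.symm hp2)
      obtain ⟨t, ht⟩ := hp.dvd_choose_self (by norm_num) h3
      rw [ht, pow_mul, hcp, one_pow]
    · have : Nat.choose 4 2 = 2 * 3 := by decide
      rw [this, pow_mul, hcp, one_pow]
  have hxe : x ^ e ∈ N := by
    rcases he with ⟨-, rfl⟩ | ⟨rfl, rfl⟩
    · exact Subgroup.subset_closure (Or.inl ⟨x, hx, rfl⟩)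
    · exact Subgroup.subset_closure (Or.inl ⟨x ^ 2, H.pow_mem hx 2, by rw [← pow_mul]⟩)
  rw [mul_pow_central hrel hcu hcv e, hce, mul_one, ← map_pow, hNfix _ hxe, inv_pow, inv_mul_cancel]

end Cfsg.Agent.Fus
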