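import Cfsg.Agent.Fus.SmallChain
import Cfsg.Agent.Fus.Focal
import Cfsg.Agent.Fus.Essential
import Cfsg.Agent.Lib.Helper27.FusHyper

/-!
Control of fusion by the cyclic subgroups of order `p` or `4` of the hyperfocal subgroup.
-/

set_option autoImplicit false

namespace Cfsg
namespace Agent
namespace Fus

theorem card_zpowers_small {G : Type*} [Group G] {p e : ℕ} [Fact p.Prime]
    (he : (p ≠ 2 ∧ e = p) ∨ (p = 2 ∧ e = 4)) {x : G} (hxe : x ^ e = 1) (hx1 : x ≠ 1) :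
    Nat.card (Subgroup.zpowers x) = p ∨ Nat.card (Subgroup.zpowers x) = 4 := by
  rw [Nat.card_zpowers]
  have hd := orderOf_dvd_of_pow_eq_one hxe
  have h1 : orderOf x ≠ 1 := by rwa [Ne, orderOf_eq_one_iff]
  rcases he with ⟨-, rfl⟩ | ⟨rfl, rfl⟩
  · left; exact ((Nat.dvd_prime Fact.out).1 hd).resolve_left h1
  · have hle : orderOf x ≤ 4 := Nat.le_of_dvd (by norm_num) hd
    generalize orderOf x = m at *
    interval_cases m <;> simp_all

theorem isPGroup_of_coprime_trivial {A : Type*} [Group A] [Finite A] {p : ℕ} [Fact p.Prime]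
    (h : ∀ a : A, Nat.Coprime (orderOf a) p → a = 1) : IsPGroup p A := by
  have hp : p.Prime := Fact.out
  intro a
  refine ⟨(orderOf a).factorization p, ?_⟩
  apply h
  rw [orderOf_pow' _ (pow_ne_zero _ hp.ne_zero), Nat.gcd_eq_right (Nat.ordProj_dvd _ _)]
  exact (Nat.coprime_ordCompl hp (orderOf_pos a).ne').symm

end Fus
end Agent

namespace FusionSystem

open Cfsg.Agent.Fus Cfsg.Agent.Lib.Helper27 Cfsg.Agent.Lib.Helper27.Fus

variable {Ω : Type*} [Group Ω] {S : Subgroup Ω}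

theorem exists_small_restrict (F : FusionSystem S) [Finite S] {p e : ℕ} [Fact p.Prime]
    (hS : IsPGroup p S) (hF : F.IsSaturated p) (he : (p ≠ 2 ∧ e = p) ∨ (p = 2 ∧ e = 4))
    (C : ∀ A : Subgroup Ω, Set (A →* Ω))
    (h : ∀ A B : Subgroup Ω, A ≤ F.hyperfocalSubgroup p → B ≤ F.hyperfocalSubgroup p → IsCyclic ↥A →
      (Nat.card ↥A = p ∨ Nat.card ↥A = 4) → IsCyclic ↥B → (Nat.card ↥B = p ∨ Nat.card ↥B = 4) →
      F.homSet A B ⊆ C A)
    {Q : Subgroup Ω} (hQ : Q ≤ S) {β : MulAut Q} (hβ : β ∈ F.autGroup Q) (x : Q)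
    (hx : (x : Ω) ∈ F.hyperfocalSubgroup p) (hxe : x ^ e = 1) (hx1 : x ≠ 1) :
    ∃ φ ∈ C (Subgroup.zpowers (x : Ω)), φ ⟨x, Subgroup.mem_zpowers _⟩ = ((β x : Q) : Ω) := by
  have hle : Subgroup.zpowers (x : Ω) ≤ Q := by
    rw [Subgroup.zpowers_le]; exact x.2
  have hφ := F.restrict_mem ((F.mem_autGroup_iff hQ β).1 hβ) hle
  have hsc := F.hyperfocal_stronglyClosed hS hF
  have hA : Subgroup.zpowers (x : Ω) ≤ F.hyperfocalSubgroup p := by
    rw [Subgroup.zpowers_le]; exact hx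
  have hβx : ((β x : Q) : Ω) ∈ F.hyperfocalSubgroup p :=
    hsc.2 _ hA _ hφ ⟨x, Subgroup.mem_zpowers _⟩
  have hB : Subgroup.zpowers ((β x : Q) : Ω) ≤ F.hyperfocalSubgroup p := by
    rw [Subgroup.zpowers_le]; exact hβx
  have hxe' : (x : Ω) ^ e = 1 := by
    have := congrArg Subtype.val hxe
    simpa using this
  have hx1' : (x : Ω) ≠ 1 := fun h0 => hx1 (Subtype.ext h0)
  have hβe : ((β x : Q) : Ω) ^ e = 1 := by
    have h0 : (β x) ^ e = 1 := by rw [← map_pow, hxe, map_one]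
    have := congrArg Subtype.val h0
    simpa using this
  have hβ1 : ((β x : Q) : Ω) ≠ 1 := by
    intro h0
    apply hx1
    have h2 : β x = 1 := Subtype.ext h0
    exact (map_eq_one_iff β β.injective).1 h2
  refine ⟨_, h _ (Subgroup.zpowers ((β x : Q) : Ω)) hA hB inferInstance (card_zpowers_small he hxe' hx1')
    inferInstance (card_zpowers_small he hβe hβ1) ⟨hφ, ?_⟩, rfl⟩
  rintro ⟨t, ht⟩
  obtain ⟨k, rfl⟩ := Subgroup.mem_zpowers_iff.1 ht
  refine Subgroup.mem_zpowers_iff.2 ⟨k, ?_⟩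
  show ((β x : Q) : Ω) ^ k = ((β (Subgroup.inclusion hle ⟨(x : Ω) ^ k, ht⟩) : Q) : Ω)
  have h3 : Subgroup.inclusion hle ⟨(x : Ω) ^ k, ht⟩ = x ^ k := Subtype.ext (by simp)
  rw [h3, map_zpow]
  simp

theorem aut_eq_one_of_fixes_hyperfocal (F : FusionSystem S) [Finite S] {p : ℕ} [Fact p.Prime]
    (hS : IsPGroup p S) {P : Subgroup Ω} (hP : P ≤ S) {α : MulAut P} (hα : α ∈ F.autGroup P)
    (hco : Nat.Coprime (orderOf α) p)
    (hfix : ∀ x : P, (x : Ω) ∈ F.hyperfocalSubgroup p → α x = x) : α = 1 := by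
  ext x
  rw [MulAut.one_apply]
  congr 1
  have h1 := (hyperfocal_le_iff_coprime F p (F.hyperfocalSubgroup p)).1 le_rfl P hP α hα hco x
  have h2 : α (x⁻¹ * α x) = x⁻¹ * α x := hfix _ h1
  obtain ⟨m, hm⟩ := (isPGroup_of_le hS hP) (x⁻¹ * α x)
  refine fixed_of_quot_fixed hco α x ?_ h2 hm
  rw [pow_orderOf_eq_one, MulAut.one_apply]

/-- S5298. -/
theorem eq_inner_of_small_control (F : FusionSystem S) [Finite S] {p : ℕ} [Fact p.Prime]
    (hS : IsPGroup p S) (hF : F.IsSaturated p)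
    (h : ∀ A B : Subgroup Ω, A ≤ F.hyperfocalSubgroup p → B ≤ F.hyperfocalSubgroup p → IsCyclic ↥A →
      (Nat.card ↥A = p ∨ Nat.card ↥A = 4) → IsCyclic ↥B → (Nat.card ↥B = p ∨ Nat.card ↥B = 4) →
      F.homSet A B ⊆ (innerFusionSystem S).Hom A) : F = innerFusionSystem S := by
  obtain ⟨e, he⟩ : ∃ e, (p ≠ 2 ∧ e = p) ∨ (p = 2 ∧ e = 4) := by
    by_cases hp : p = 2
    · exact ⟨4, Or.inr ⟨hp, rfl⟩⟩
    · exact ⟨p, Or.inl ⟨hp, rfl⟩⟩
  apply F.eq_inner_of_isPGroup hS hF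
  intro P hP
  have : Finite P := finite_of_le hP
  apply isPGroup_of_coprime_trivial
  rintro ⟨α, hα⟩ hco
  have hco' : Nat.Coprime (orderOf α) p := by
    rwa [← Subgroup.orderOf_coe] at hco
  apply Subtype.ext
  show α = 1
  apply F.aut_eq_one_of_fixes_hyperfocal hS hP hα hco'
  have hsc := F.hyperfocal_stronglyClosed hS hF
  have hnil : Group.IsNilpotent S := hS.isNilpotent
  have key := fixes_of_chain_small hco' he α ((F.hyperfocalSubgroup p).subgroupOf P)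
    ((isPGroup_of_le hS hP).to_subgroup _) ?_ ?_
    (fun j => ((Subgroup.upperCentralSeries S j).map S.subtype).subgroupOf P) (Group.nilpotencyClass S) ?_ ?_ ?_
  · intro x hx
    exact key x (Subgroup.mem_subgroupOf.2 hx)
  · intro x hx
    rw [Subgroup.mem_subgroupOf] at hx ⊢
    have h1 := (hyperfocal_le_iff_coprime F p (F.hyperfocalSubgroup p)).1 le_rfl P hP α hα hco' x
    have h2 := (F.hyperfocalSubgroup p).mul_mem hx h1
    rwa [mul_inv_cancel_left] at h2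
  · intro x _
    rw [pow_orderOf_eq_one, MulAut.one_apply]
  · show ((Subgroup.upperCentralSeries S 0).map S.subtype).subgroupOf P = ⊥
    rw [Subgroup.upperCentralSeries_zero, Subgroup.map_bot, Subgroup.bot_subgroupOf]
  · intro x _
    rw [Subgroup.mem_subgroupOf, Subgroup.upperCentralSeries_nilpotencyClass]
    exact ⟨⟨x, hP x.2⟩, trivial, rfl⟩
  · intro j x hx hxe hxj
    by_cases hx1 : x = 1
    · rw [hx1, map_one, inv_one, one_mul]; exact Subgroup.one_mem _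
    obtain ⟨φ, ⟨-, g, hg, hφ⟩, hφx⟩ := F.exists_small_restrict hS hF he _ h hP hα x
      (Subgroup.mem_subgroupOf.1 hx) hxe hx1
    rw [Subgroup.mem_subgroupOf] at hxj ⊢
    obtain ⟨s, hs, hsx⟩ := hxj
    have h1 := (Subgroup.mem_upperCentralSeries_succ_iff.1 ((Subgroup.upperCentralSeries S (j + 1)).inv_mem hs)) ⟨g, hg⟩
    refine ⟨_, h1, ?_⟩
    have h2 := hφ ⟨x, Subgroup.mem_zpowers _⟩
    rw [hφx] at h2
    have hsx' : (s : Ω) = (x : Ω) := hsx
    simp only [commutatorElement_def, Subgroup.subtype_apply, Subgroup.coe_mul, Subgroup.coe_inv, inv_inv,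
      hsx', h2]
    group

end FusionSystem
end Cfsg
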