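import Cfsg.Agent.Lib.Helper27.CoprimeAut2
import Cfsg.Agent.H1.Critical
import Cfsg.Agent.H1.PAut
import Cfsg.Agent.H1.Small2

/-!
A finite `p`-group has a characteristic subgroup of exponent `p` (`4` if `p = 2`) on which every nontrivial
`p'`-automorphism acts nontrivially.
-/

set_option autoImplicit false

namespace Cfsg.Agent.Fus

open Cfsg.Agent.Lib.Helper27

theorem exists_char_small_faithful {G : Type*} [Group G] [Finite G] {p e : ℕ} [Fact p.Prime]
    (hG : IsPGroup p G) (he : (p ≠ 2 ∧ e = p) ∨ (p = 2 ∧ e = 4)) :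
    ∃ D : Subgroup G, D.Characteristic ∧ (∀ x ∈ D, x ^ e = 1) ∧
      ∀ a : MulAut G, Nat.Coprime (orderOf a) p → (∀ x ∈ D, a x = x) → a = 1 := by
  have hp : p.Prime := Fact.out
  obtain ⟨C, hC, h1, h2, h3⟩ := Cfsg.H1.exists_critical_subgroup hG
  have hmul : ∀ u ∈ C, ∀ v ∈ C, u ^ e = 1 → v ^ e = 1 → (u * v) ^ e = 1 := by
    intro u hu v hv hue hve
    set c := v * u * v⁻¹ * u⁻¹ with hc
    have hcC : c ∈ C ⊓ Subgroup.centralizer (C : Set G) := by
      apply h2
      have := Subgroup.commutator_mem_commutator hv (Subgroup.mem_top u)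
      rwa [commutatorElement_def] at this
    have hrel : v * u = c * (u * v) := by rw [hc]; group
    have hcent : ∀ w ∈ C, Commute c w := fun w hw =>
      (Subgroup.mem_centralizer_iff.1 hcC.2 w hw).symm
    have hcu := hcent u hu
    have hcv := hcent v hv
    have hvp : v ^ p ∈ Subgroup.centralizer (C : Set G) := by
      apply h1
      have h4 := (Cfsg.H1.frattini_pgroup_ge p (hG.to_subgroup C)).2 ⟨v, hv⟩
      exact ⟨_, h4, rfl⟩
    have hcp : c ^ p = 1 := by
      have h5 := pow_mul_comm_central hrel hcv p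
      have h6 : Commute (v ^ p) u := (Subgroup.mem_centralizer_iff.1 hvp u hu).symm
      rw [h6.eq] at h5
      have h7 : c ^ p * (u * v ^ p) = 1 * (u * v ^ p) := by rw [← h5, one_mul]
      exact mul_right_cancel h7
    have hce : c ^ (e.choose 2) = 1 := by
      rcases he with ⟨hp2, rfl⟩ | ⟨rfl, rfl⟩
      · have h8 : 2 < e := lt_of_le_of_ne hp.two_le (Ne.symm hp2)
        obtain ⟨t, ht⟩ := hp.dvd_choose_self (by norm_num) h8
        rw [ht, pow_mul, hcp, one_pow]
      · have : Nat.choose 4 2 = 2 * 3 := by decide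
        rw [this, pow_mul, hcp, one_pow]
    rw [mul_pow_central hrel hcu hcv e, hce, hue, hve]
    simp
  let D : Subgroup G :=
    { carrier := {x | x ∈ C ∧ x ^ e = 1}
      one_mem' := ⟨C.one_mem, one_pow _⟩
      mul_mem' := fun {a b} ha hb => ⟨C.mul_mem ha.1 hb.1, hmul a ha.1 b hb.1 ha.2 hb.2⟩
      inv_mem' := fun {a} ha => ⟨C.inv_mem ha.1, by rw [inv_pow, ha.2, inv_one]⟩ }
  refine ⟨D, ?_, fun x hx => hx.2, ?_⟩
  · rw [Subgroup.characteristic_iff_le_comap]
    intro φ x hx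
    refine ⟨Subgroup.characteristic_iff_le_comap.1 hC φ hx.1, ?_⟩
    show (φ x) ^ e = 1
    rw [← map_pow, hx.2, map_one]
  · intro a ha hfix
    apply Cfsg.H1.aut_trivial_of_trivial_on_self_centralizing hG C hC h3 a ha
    refine fixes_of_fixes_small ha he a C (hG.to_subgroup C) ?_ ?_ ?_
    · intro x hx
      exact Subgroup.characteristic_iff_le_comap.1 hC a hx
    · intro x _
      rw [pow_orderOf_eq_one, MulAut.one_apply]
    · intro x hx hxe
      exact hfix x ⟨hx, hxe⟩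

variable {X : Type*} [Group X]

/-- Restriction of an automorphism to an invariant subgroup. -/
def restrictAut (β : MulAut X) (H : Subgroup X) (h1 : ∀ x ∈ H, β x ∈ H) (h2 : ∀ x ∈ H, β⁻¹ x ∈ H) :
    MulAut H where
  toFun x := ⟨β x, h1 x x.2⟩
  invFun x := ⟨β⁻¹ x, h2 x x.2⟩
  left_inv x := Subtype.ext (by simp)
  right_inv x := Subtype.ext (by simp)
  map_mul' x y := Subtype.ext (by simp)

theorem restrictAut_pow_apply (β : MulAut X) (H : Subgroup X) (h1 : ∀ x ∈ H, β x ∈ H)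
    (h2 : ∀ x ∈ H, β⁻¹ x ∈ H) (k : ℕ) (x : H) :
    ((((restrictAut β H h1 h2) ^ k) x : H) : X) = (β ^ k) x := by
  induction k generalizing x with
  | zero => rfl
  | succ k ih =>
    rw [pow_succ, MulAut.mul_apply, ih, pow_succ, MulAut.mul_apply]
    rfl

/-- Ambient version. -/
theorem exists_small_faithful_sub {p e : ℕ} [Fact p.Prime] (H : Subgroup X) [Finite H]
    (hH : IsPGroup p H) (he : (p ≠ 2 ∧ e = p) ∨ (p = 2 ∧ e = 4)) :
    ∃ D : Subgroup X, D ≤ H ∧ (∀ x ∈ D, x ^ e = 1) ∧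
      (∀ β : MulAut X, (∀ x ∈ H, β x ∈ H) → (∀ x ∈ H, β⁻¹ x ∈ H) → ∀ x ∈ D, β x ∈ D) ∧
      ∀ β : MulAut X, (∀ x ∈ H, β x ∈ H) → (∀ x ∈ H, β⁻¹ x ∈ H) → ∀ k : ℕ, Nat.Coprime k p → β ^ k = 1 →
        (∀ x ∈ D, β x = x) → ∀ x ∈ H, β x = x := by
  obtain ⟨D, hD, hDe, hDf⟩ := exists_char_small_faithful hH he
  refine ⟨D.map H.subtype, Subgroup.map_subtype_le D, ?_, ?_, ?_⟩
  · rintro _ ⟨x, hx, rfl⟩
    have := congrArg Subtype.val (hDe x hx)
    simpa using this
  · rintro β h1 h2 _ ⟨x, hx, rfl⟩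
    exact ⟨restrictAut β H h1 h2 x, Subgroup.characteristic_iff_le_comap.1 hD (restrictAut β H h1 h2) hx, rfl⟩
  · intro β h1 h2 k hk hβk hfix x hx
    have h3 : (restrictAut β H h1 h2) ^ k = 1 := by
      ext y
      rw [restrictAut_pow_apply, hβk]
      rfl
    have h4 : Nat.Coprime (orderOf (restrictAut β H h1 h2)) p :=
      Nat.Coprime.coprime_dvd_left (orderOf_dvd_of_pow_eq_one h3) hk
    have h5 := hDf (restrictAut β H h1 h2) h4 (fun y hy => Subtype.ext (hfix y ⟨y, hy, rfl⟩))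
    have h6 := congrArg (fun a : MulAut H => ((a ⟨x, hx⟩ : H) : X)) h5
    exact h6

end Cfsg.Agent.Fus
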