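import Cfsg.Agent.Fus.SmallControl
import Cfsg.Agent.Fus.SmallCrit
import Cfsg.Agent.Fus.Normal2
import Cfsg.Agent.Fus.Chain
import Cfsg.Agent.Lib.Helper27.FusNormal

/-!
S5297: control of the small cyclic subgroups of the hyperfocal subgroup by `N_F(S)` forces `S ⊴ F`.
-/

set_option autoImplicit false

namespace Cfsg
namespace FusionSystem

open Cfsg.Agent.Fus Cfsg.Agent.Lib.Helper27 Cfsg.Agent.Lib.Helper27.Fus

variable {Ω : Type*} [Group Ω] {S : Subgroup Ω}

theorem isNormal_self_of_small_control (F : FusionSystem S) [Finite S] {p : ℕ} [Fact p.Prime]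
    (hS : IsPGroup p S) (hF : F.IsSaturated p)
    (h : ∀ A B : Subgroup Ω, A ≤ F.hyperfocalSubgroup p → B ≤ F.hyperfocalSubgroup p → IsCyclic ↥A →
      (Nat.card ↥A = p ∨ Nat.card ↥A = 4) → IsCyclic ↥B → (Nat.card ↥B = p ∨ Nat.card ↥B = 4) →
      F.homSet A B ⊆ F.normalizerHom S A) : F.IsNormal S := by
  obtain ⟨e, he⟩ : ∃ e, (p ≠ 2 ∧ e = p) ∨ (p = 2 ∧ e = 4) := by
    by_cases hp : p = 2
    · exact ⟨4, Or.inr ⟨hp, rfl⟩⟩
    · exact ⟨p, Or.inl ⟨hp, rfl⟩⟩
  apply F.isNormal_of_stronglyClosed_of_pCore hS hF F.stronglyClosed_self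
  intro P hc hr g hg hgN
  have hP := hc.1
  have : Finite P := finite_of_le hP
  have hPp := isPGroup_of_le hS hP
  have hsc := F.hyperfocal_stronglyClosed hS hF
  have hnil : Group.IsNilpotent S := hS.isNilpotent
  set Hs := (F.hyperfocalSubgroup p).subgroupOf P with hHs
  have hHinv : ∀ β ∈ F.autGroup P, ∀ x ∈ Hs, β x ∈ Hs := fun β hβ x hx =>
    Subgroup.mem_subgroupOf.2 (hsc.aut_mem hP hβ (Subgroup.mem_subgroupOf.1 hx))
  obtain ⟨D, hDH, hDe, hDinv, hDf⟩ := exists_small_faithful_sub Hs (hPp.to_subgroup Hs) he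
  have hDinv' : ∀ β ∈ F.autGroup P, ∀ x ∈ D, β x ∈ D := fun β hβ =>
    hDinv β (hHinv β hβ) (hHinv β⁻¹ ((F.autGroup P).inv_mem hβ))
  let Zs : ℕ → Subgroup P := fun j => ((Subgroup.upperCentralSeries S j).map S.subtype).subgroupOf P
  let Dj : ℕ → Subgroup P := fun j => D ⊓ Zs j
  have hinv : ∀ β ∈ F.autGroup P, ∀ j, ∀ x ∈ Dj j, β x ∈ Dj j := by
    intro β hβ j x hx
    refine ⟨hDinv' β hβ x hx.1, ?_⟩
    by_cases hx1 : x = 1
    · rw [hx1, map_one]; exact one_mem _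
    obtain ⟨φ, hφ, hφx⟩ := F.exists_small_restrict hS hF he _ h hP hβ x
      (Subgroup.mem_subgroupOf.1 (hDH hx.1)) (hDe x hx.1) hx1
    obtain ⟨hle, σ, hσ, rfl⟩ := (mem_normalizerHom_self_iff F φ).1 hφ
    rw [resAut_apply] at hφx
    obtain ⟨s, hs, hsx⟩ := Subgroup.mem_subgroupOf.1 hx.2
    apply Subgroup.mem_subgroupOf.2
    refine ⟨σ s, Subgroup.characteristic_iff_le_comap.1 inferInstance σ hs, ?_⟩
    rw [← hφx]
    have h1 : s = ⟨(x : Ω), hle (Subgroup.mem_zpowers _)⟩ := Subtype.ext hsx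
    rw [h1]
    rfl
  refine le_pCore_map (B := chainStabilizer (F.autGroup P) Dj hinv) (chainStabilizer_le _ _ _) ?_ ?_ ?_
  · intro β hβ γ hγ
    refine ⟨(F.autGroup P).mul_mem ((F.autGroup P).mul_mem hγ hβ.1) ((F.autGroup P).inv_mem hγ),
      fun j x hx => ?_⟩
    have h1 := hβ.2 j (γ⁻¹ x) (hinv γ⁻¹ ((F.autGroup P).inv_mem hγ) _ x hx)
    have h2 := hinv γ hγ j _ h1
    rw [map_mul, map_inv, MulAut.apply_inv_self] at h2
    exact h2
  · apply isPGroup_of_coprime_trivial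
    rintro ⟨β, hβ⟩ hco
    have hco' : Nat.Coprime (orderOf β) p := by
      rwa [← Subgroup.orderOf_coe] at hco
    apply Subtype.ext
    show β = 1
    have hstep : ∀ x : P, β (x⁻¹ * β x) = x⁻¹ * β x → β x = x := by
      intro x hx
      obtain ⟨m, hm⟩ := hPp (x⁻¹ * β x)
      refine fixed_of_quot_fixed hco' β x ?_ hx hm
      rw [pow_orderOf_eq_one, MulAut.one_apply]
    have hfixD : ∀ j, ∀ x ∈ Dj j, β x = x := by
      intro j
      induction j with
      | zero =>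
        intro x hx
        have h1 : x ∈ Zs 0 := hx.2
        have h2 : Zs 0 = ⊥ := by
          show ((Subgroup.upperCentralSeries S 0).map S.subtype).subgroupOf P = ⊥
          rw [Subgroup.upperCentralSeries_zero, Subgroup.map_bot, Subgroup.bot_subgroupOf]
        rw [h2, Subgroup.mem_bot] at h1
        rw [h1, map_one]
      | succ j ih =>
        intro x hx
        exact hstep x (ih _ (hβ.2 j x hx))
    apply F.aut_eq_one_of_fixes_hyperfocal hS hP hβ.1 hco'
    intro x hx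
    refine hDf β (hHinv β hβ.1) (hHinv β⁻¹ ((F.autGroup P).inv_mem hβ.1)) (orderOf β) hco' (pow_orderOf_eq_one β) ?_ x
      (Subgroup.mem_subgroupOf.2 hx)
    intro y hy
    refine hfixD (Group.nilpotencyClass S) y ⟨hy, ?_⟩
    show y ∈ ((Subgroup.upperCentralSeries S (Group.nilpotencyClass S)).map S.subtype).subgroupOf P
    rw [Subgroup.mem_subgroupOf, Subgroup.upperCentralSeries_nilpotencyClass]
    exact ⟨⟨y, hP y.2⟩, trivial, rfl⟩
  · have hcg : conjAut g hgN ∈ F.autGroup P := F.autInducedBy_le_autGroup hP (conjAut_mem hgN hg)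
    refine ⟨hcg, fun j x hx => ⟨D.mul_mem (D.inv_mem hx.1) (hDinv' _ hcg x hx.1), ?_⟩⟩
    obtain ⟨s, hs, hsx⟩ := Subgroup.mem_subgroupOf.1 hx.2
    apply Subgroup.mem_subgroupOf.2
    have h1 := (Subgroup.mem_upperCentralSeries_succ_iff.1
      ((Subgroup.upperCentralSeries S (j + 1)).inv_mem hs)) ⟨g, hg⟩
    refine ⟨_, h1, ?_⟩
    have hsx' : (s : Ω) = (x : Ω) := hsx
    simp only [commutatorElement_def, Subgroup.subtype_apply, Subgroup.coe_mul, Subgroup.coe_inv, inv_inv,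
      hsx', conjAut_coe]
    group

end FusionSystem
end Cfsg
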