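import Cfsg.Agent.Fus.Normal
import Cfsg.Agent.Fus.Sat3
import Cfsg.Prelude.Def_FusionComponents

/-!
Fully normalized subgroups in subnormal subsystems.
-/

set_option autoImplicit false

namespace Cfsg.FusionSystem

open Cfsg Cfsg.Agent.Fus

variable {Ω : Type*} [Group Ω] {S : Subgroup Ω}

theorem IsFullyNormalized.of_stronglyClosed (F : FusionSystem S) [Finite S] {p : ℕ} [Fact p.Prime]
    (hS : IsPGroup p S) (hF : F.IsSaturated p) {T : Subgroup Ω} (E : FusionSystem T)
    (hEF : E.IsSubsystemOf F) (hT : F.StronglyClosed T) {P : Subgroup Ω} (hPT : P ≤ T)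
    (hP : F.IsFullyNormalized P) : E.IsFullyNormalized P := by
  refine ⟨hPT, fun Q hQ => ?_⟩
  have hQF : F.IsConj Q P := by
    obtain ⟨φ, hφ, hr⟩ := hQ
    exact IsConj.symm F ⟨φ, hEF P hφ, hr⟩
  obtain ⟨-, h1, h2⟩ := hF.fullyNormalized F hS hP
  obtain ⟨e, ρ, he, hρ, h⟩ := F.exists_normalizer_map p hS h1 h2 hQF
  have hle : normalizerIn T Q ≤ normalizerIn S Q := inf_le_inf_right _ hT.1
  have hfin : Finite (normalizerIn T P) := finite_of_le (normalizerIn_le.trans hT.1)
  have hmem : ∀ y : normalizerIn T Q, ((ρ (Subgroup.inclusion hle y) : normalizerIn S P) : Ω) ∈ normalizerIn T P := by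
    intro y
    refine mem_normalizerIn.2 ⟨?_, (mem_normalizerIn.1 (ρ (Subgroup.inclusion hle y)).2).2⟩
    exact hT.map_mem hρ (x := Subgroup.inclusion hle y) (mem_normalizerIn.1 y.2).1
  refine Nat.card_le_card_of_injective (fun y : normalizerIn T Q => (⟨_, hmem y⟩ : normalizerIn T P)) ?_
  intro a b hab
  have h3 : ρ (Subgroup.inclusion hle a) = ρ (Subgroup.inclusion hle b) :=
    Subtype.ext (congrArg (fun z : normalizerIn T P => (z : Ω)) hab)
  exact Subgroup.inclusion_injective hle (hρ.injective F h3)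

theorem IsSubnormalIn.le {T S : Subgroup Ω} {E : FusionSystem T} {F : FusionSystem S} {p : ℕ}
    (h : E.IsSubnormalIn F p) : T ≤ S := by
  induction h with
  | refl F p => exact le_rfl
  | step _ hD ih => exact ih.trans hD.1.2.2.2.1.1

theorem IsSubnormalIn.isFullyNormalized {T S : Subgroup Ω} {E : FusionSystem T} {F : FusionSystem S} {p : ℕ}
    (h : E.IsSubnormalIn F p) : Fact p.Prime → Finite S → IsPGroup p S → F.IsSaturated p →
    ∀ P : Subgroup Ω, P ≤ T → F.IsFullyNormalized P → E.IsFullyNormalized P := by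
  induction h with
  | refl F p => intro _ _ _ _ P _ hP; exact hP
  | step hED hD ih =>
    intro hp hfin hS hF P hPT hP
    have hU := hD.1.2.2.2.1
    have hPD := IsFullyNormalized.of_stronglyClosed _ hS hF _ hD.1.2.2.1 hU (hPT.trans hED.le) hP
    exact ih hp (finite_of_le hU.1) (hS.to_le hU.1) hD.1.1 P hPT hPD

end Cfsg.FusionSystem
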