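import Cfsg.Agent.Fus.TateAux2
import Cfsg.Agent.Fus.Normal2
import Cfsg.Agent.Lib.Helper27.FusFrattini

/-!
A Tate-type theorem for fusion systems (S5222).
-/

set_option autoImplicit false

namespace Cfsg
namespace FusionSystem

open Cfsg.Agent.Fus Cfsg.Agent.Lib.Helper27.Fus
open scoped commutatorElement

variable {Ω : Type*} [Group Ω] {S R : Subgroup Ω}

/-- Conjugation action of `S` on a subgroup it normalizes. -/
def conjS (hSN : S ≤ Subgroup.normalizer (R : Set Ω)) : S →* MulAut R where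
  toFun s := conjAut s (hSN s.2)
  map_one' := by ext r; simp
  map_mul' a b := by
    ext r
    show (a : Ω) * b * r * ((a : Ω) * b)⁻¹ = a * (b * r * (b : Ω)⁻¹) * (a : Ω)⁻¹
    group

theorem conjS_coe (hSN : S ≤ Subgroup.normalizer (R : Set Ω)) (s : S) (r : R) :
    ((conjS hSN s r : R) : Ω) = s * r * (s : Ω)⁻¹ := rfl

theorem mem_autInducedBy_iff_conjS (hSN : S ≤ Subgroup.normalizer (R : Set Ω)) {K : Subgroup Ω} (hK : K ≤ S)
    (u : MulAut R) : u ∈ autInducedBy K R ↔ ∃ s : S, (s : Ω) ∈ K ∧ conjS hSN s = u := by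
  rw [mem_autInducedBy_iff]
  constructor
  · rintro ⟨g, hg, h⟩
    refine ⟨⟨g, hK hg⟩, hg, ?_⟩
    ext r
    exact (h r).symm
  · rintro ⟨s, hs, rfl⟩
    exact ⟨s, hs, fun _ => rfl⟩

theorem eq_one_of_coprime_of_isPGroup {X : Type*} [Group X] {p : ℕ} [Fact p.Prime] {Y U : Subgroup X} [Finite Y]
    (hco : (Nat.card Y).Coprime p) (hU : IsPGroup p U) {y : X} (hy : y ∈ Y) (hyU : y ∈ U) : y = 1 := by
  obtain ⟨k, hk⟩ := hU ⟨y, hyU⟩
  have h1 : y ^ p ^ k = 1 := congrArg Subtype.val hk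
  have h2 : orderOf y ∣ p ^ k := orderOf_dvd_of_pow_eq_one h1
  have h3 : orderOf y ∣ Nat.card Y := by
    have := orderOf_dvd_natCard (⟨y, hy⟩ : Y)
    rwa [Subgroup.orderOf_mk] at this
  have h4 : orderOf y ∣ 1 := by
    have := Nat.dvd_gcd h3 h2
    rwa [Nat.Coprime.pow_right k hco] at this
  exact orderOf_eq_one_iff.1 (Nat.dvd_one.1 h4)

theorem eq_inner_of_normal_frattini (F : FusionSystem S) [Finite S] {p : ℕ} [Fact p.Prime]
    (hS : IsPGroup p S) (hF : F.IsSaturated p) (hAut : F.autGroup S ≤ autInducedBy S S) {Q : Subgroup Ω}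
    (hQ : F.IsNormal Q) (h1 : (commutator S).map S.subtype ≤ Q) (h2 : Q ≤ (frattini S).map S.subtype) :
    F = innerFusionSystem S := by
  apply le_antisymm' _ F.inner_le
  refine F.alperin_induction _ hS hF (hAut.trans (autInducedBy_le_autGroup _ le_rfl)) (fun R hR hbig => ?_)
  have hRle : R ≤ S := hR.1.1
  refine le_trans ?_ ((innerFusionSystem S).autInducedBy_le_autGroup hRle)
  by_contra hcon
  have hfR : Finite R := finite_of_le hRle
  have hQS : Q ≤ S := hQ.1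
  have hQR : Q ≤ R := hQ.le_of_centric_radical hS hR.1 (hR.isRadical F hS)
  have hQsc := hQ.stronglyClosed
  obtain ⟨-, hfa, hrec⟩ := hF.fullyNormalized F hS hR.2.1
  have hcomm : ∀ s ∈ S, ∀ t ∈ S, s * t * s⁻¹ * t⁻¹ ∈ Q := by
    intro s hs t ht
    apply h1
    refine ⟨⁅(⟨s, hs⟩ : S), ⟨t, ht⟩⁆, ?_, rfl⟩
    rw [commutator_def]
    exact Subgroup.commutator_mem_commutator (Subgroup.mem_top _) (Subgroup.mem_top _)
  have hSN : S ≤ Subgroup.normalizer (R : Set Ω) := by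
    intro s hs
    apply mem_normalizer_of_finite
    intro r hr
    have h3 := R.mul_mem (hQR (hcomm s hs r (hRle hr))) hr
    rwa [inv_mul_cancel_right] at h3
  have hUA : autInducedBy S R ≤ F.autGroup R := F.autInducedBy_le_autGroup hRle
  have hUp : IsPGroup p (autInducedBy S R) := isPGroup_autInducedBy hS
  have hTI : ∀ β ∈ F.autGroup R, ∀ t : S, (t : Ω) ∉ R → β * conjS hSN t * β⁻¹ ∈ autInducedBy S R →
      β ∈ autInducedBy S R := by
    intro β hβ t ht h
    have hβm := (F.mem_autGroup_iff hRle β).1 hβ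
    have htext : (t : Ω) ∈ extender S R (R.subtype.comp β.toMonoidHom) := by
      rw [mem_extender_iff']
      obtain ⟨k, hk, hk'⟩ := (mem_autInducedBy_iff _).1 h
      refine ⟨t.2, hSN t.2, k, hk, fun x y hy => ?_⟩
      have h2 := hk' (β x)
      have h3 : y = conjS hSN t x := Subtype.ext hy
      show ((β y : R) : Ω) = k * ((β x : R) : Ω) * k⁻¹
      rw [← h2, h3]
      simp [MulAut.mul_apply]
    obtain ⟨ψ, hψ, hψe⟩ := hrec.exists_extension F β hβm le_rfl
    have hlt : R < extender S R (R.subtype.comp β.toMonoidHom) :=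
      lt_of_le_of_ne (le_extender _ hRle hRle) (fun h => ht (h ▸ htext))
    obtain ⟨-, g, hg, hgx⟩ := hbig _ (card_lt_of_lt ((extender_le_normalizerIn _).trans normalizerIn_le) hlt) hψ
    rw [mem_autInducedBy_iff]
    refine ⟨g, hg, fun x => ?_⟩
    rw [← hψe x (Subgroup.inclusion hlt.le x) rfl]
    exact hgx _
  obtain ⟨t₀, ht₀S, ht₀R⟩ := SetLike.exists_of_lt (IsEssential.lt hS hF hR)
  have hNU : ∀ β ∈ F.autGroup R, (∀ u ∈ autInducedBy S R, β * u * β⁻¹ ∈ autInducedBy S R) →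
      β ∈ autInducedBy S R := fun β hβ h =>
    hTI β hβ ⟨t₀, ht₀S⟩ ht₀R (h _ ((mem_autInducedBy_iff_conjS hSN le_rfl _).2 ⟨_, ht₀S, rfl⟩))
  -- `Aut_F(R)` centralizes `R / Q`
  let A₁ : Subgroup (MulAut R) :=
    { carrier := {β | β ∈ F.autGroup R ∧ ∀ r : R, (r : Ω)⁻¹ * ((β r : R) : Ω) ∈ Q}
      one_mem' := ⟨Subgroup.one_mem _, fun r => by simp⟩
      mul_mem' := by
        rintro a b ⟨ha, ha'⟩ ⟨hb, hb'⟩
        refine ⟨Subgroup.mul_mem _ ha hb, fun r => ?_⟩
        have h3 := Q.mul_mem (hb' r) (ha' (b r))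
        have h4 : (r : Ω)⁻¹ * ((b r : R) : Ω) * (((b r : R) : Ω)⁻¹ * ((a (b r) : R) : Ω)) =
            (r : Ω)⁻¹ * (((a * b) r : R) : Ω) := by rw [MulAut.mul_apply]; group
        rwa [h4] at h3
      inv_mem' := by
        rintro a ⟨ha, ha'⟩
        refine ⟨Subgroup.inv_mem _ ha, fun r => ?_⟩
        have h3 := Q.inv_mem (ha' (a⁻¹ r))
        rw [MulAut.apply_inv_self] at h3
        have h4 : (((a⁻¹ r : R) : Ω)⁻¹ * (r : Ω))⁻¹ = (r : Ω)⁻¹ * ((a⁻¹ r : R) : Ω) := by group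
        rwa [h4] at h3 }
  have hA₁ : F.autGroup R ≤ A₁ := by
    intro β hβ
    have hUA₁ : autInducedBy S R ≤ A₁ := by
      intro u hu
      refine ⟨hUA hu, fun r => ?_⟩
      obtain ⟨g, hg, hgx⟩ := (mem_autInducedBy_iff u).1 hu
      rw [hgx]
      have h3 := hcomm _ (S.inv_mem (hRle r.2)) g hg
      have h4 : (r : Ω)⁻¹ * g * (r : Ω)⁻¹⁻¹ * g⁻¹ = (r : Ω)⁻¹ * (g * r * g⁻¹) := by group
      rwa [h4] at h3
    obtain ⟨b, hb, hbβ⟩ := frattini_sylowIn hfa.isSylowIn hUA₁ (fun _ h => h.1) (by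
      rintro a ha b ⟨hb, hb'⟩
      refine ⟨Subgroup.mul_mem _ (Subgroup.mul_mem _ ha hb) (Subgroup.inv_mem _ ha), fun r => ?_⟩
      have h3 := hQsc.aut_mem hRle ha (x := (a⁻¹ r)⁻¹ * b (a⁻¹ r)) (hb' (a⁻¹ r))
      rw [map_mul, map_inv, MulAut.apply_inv_self] at h3
      exact h3) hβ
    have h3 := hUA₁ (hNU _ (Subgroup.mul_mem _ hb.1 hβ) hbβ)
    have h4 := A₁.mul_mem (A₁.inv_mem hb) h3
    rwa [inv_mul_cancel_left] at h4
  obtain ⟨U', hU'⟩ := hfa.2
  have hmemU' : ∀ a : F.autGroup R, a ∈ (U' : Subgroup (F.autGroup R)) ↔ (a : MulAut R) ∈ autInducedBy S R := by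
    intro a; rw [hU']; exact Subgroup.mem_subgroupOf
  have hVn : ((autInducedBy Q R).subgroupOf (F.autGroup R)).Normal := by
    constructor
    intro v hv a
    obtain ⟨q, hq, hqx⟩ := (mem_autInducedBy_iff _).1 (Subgroup.mem_subgroupOf.1 hv)
    apply Subgroup.mem_subgroupOf.2
    rw [mem_autInducedBy_iff]
    refine ⟨((a : MulAut R) ⟨q, hQR hq⟩ : R), hQsc.aut_mem hRle a.2 hq, fun r => ?_⟩
    show (((a : MulAut R) ((v : MulAut R) ((a : MulAut R)⁻¹ r)) : R) : Ω) = _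
    have h3 : (v : MulAut R) ((a : MulAut R)⁻¹ r) = ⟨q, hQR hq⟩ * (a : MulAut R)⁻¹ r * ⟨q, hQR hq⟩⁻¹ :=
      Subtype.ext (hqx _)
    rw [h3, map_mul, map_mul, map_inv, MulAut.apply_inv_self]
    rfl
  obtain ⟨Y', hY'ne, hY'co, hY'c, hY'U⟩ := exists_normalized_coprime_subgroup U'
    ((autInducedBy Q R).subgroupOf (F.autGroup R))
    (by
      intro v hv
      rw [hmemU']
      exact autInducedBy_mono hQS (Subgroup.mem_subgroupOf.1 hv))
    (by
      intro a ha b hb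
      obtain ⟨s, -, hs⟩ := (mem_autInducedBy_iff_conjS hSN le_rfl _).1 ((hmemU' a).1 ha)
      obtain ⟨t, -, ht⟩ := (mem_autInducedBy_iff_conjS hSN le_rfl _).1 ((hmemU' b).1 hb)
      apply Subgroup.mem_subgroupOf.2
      rw [mem_autInducedBy_iff_conjS hSN hQS]
      refine ⟨s * t * s⁻¹ * t⁻¹, hcomm s s.2 t t.2, ?_⟩
      rw [map_mul, map_mul, map_mul, map_inv, map_inv, hs, ht]
      rfl)
    (by
      intro U₁ hU₁ hsup
      apply le_antisymm hU₁
      have hS₁ : ((U₁.map (F.autGroup R).subtype).comap (conjS hSN)).map S.subtype = S := by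
        apply eq_of_le_sup_frattini
        · rintro _ ⟨s, -, rfl⟩
          exact s.2
        · intro s hs
          have h3 : (⟨conjS hSN ⟨s, hs⟩, hUA ((mem_autInducedBy_iff_conjS hSN le_rfl _).2 ⟨_, hs, rfl⟩)⟩ :
              F.autGroup R) ∈ (U' : Subgroup (F.autGroup R)) :=
            (hmemU' _).2 ((mem_autInducedBy_iff_conjS hSN le_rfl _).2 ⟨_, hs, rfl⟩)
          rw [← hsup] at h3
          obtain ⟨v, hv, u₁, hu₁, hvu⟩ := Subgroup.mem_sup_of_normal_left.1 h3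
          obtain ⟨q, hq, hqv⟩ := (mem_autInducedBy_iff_conjS hSN hQS _).1 (Subgroup.mem_subgroupOf.1 hv)
          have h4 : conjS hSN (q⁻¹ * ⟨s, hs⟩) = (u₁ : MulAut R) := by
            have h5 : (v : MulAut R) * (u₁ : MulAut R) = conjS hSN ⟨s, hs⟩ := congrArg Subtype.val hvu
            rw [map_mul, map_inv, hqv, ← h5, inv_mul_cancel_left]
          have h6 : s = (q : Ω) * ((q⁻¹ * ⟨s, hs⟩ : S) : Ω) := by
            show s = (q : Ω) * ((q : Ω)⁻¹ * s)
            group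
          rw [h6, sup_comm]
          exact Subgroup.mul_mem_sup (h2 hq) ⟨_, ⟨u₁, hu₁, h4.symm⟩, rfl⟩
      intro u hu
      obtain ⟨s, -, hs⟩ := (mem_autInducedBy_iff_conjS hSN le_rfl _).1 ((hmemU' u).1 hu)
      have h3 : (s : Ω) ∈ ((U₁.map (F.autGroup R).subtype).comap (conjS hSN)).map S.subtype := by
        rw [hS₁]; exact s.2
      obtain ⟨s', ⟨u₁, hu₁, hu₁s⟩, hs's⟩ := h3
      have h4 : s' = s := Subtype.ext hs's
      rw [h4, hs] at hu₁s
      have h5 : u₁ = u := Subtype.ext hu₁s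
      rwa [← h5])
    (by
      intro β hβ
      rw [hmemU']
      apply hNU _ β.2
      intro u hu
      have h3 := (Subgroup.mem_normalizer_iff.1 hβ ⟨u, hUA hu⟩).1 ((hmemU' _).2 hu)
      exact (hmemU' _).1 h3)
    (by
      intro htop
      apply hcon
      intro a ha
      have h3 : (⟨a, ha⟩ : F.autGroup R) ∈ (U' : Subgroup (F.autGroup R)) := by rw [htop]; trivial
      exact (hmemU' _).1 h3)
  set Y := Y'.map (F.autGroup R).subtype with hY
  have hYA : Y ≤ F.autGroup R := Subgroup.map_subtype_le _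
  have hYco : (Nat.card Y).Coprime p := by
    rw [hY, Subgroup.card_map_of_injective (Subgroup.subtype_injective _)]; exact hY'co
  have hYne : Y ≠ ⊥ := by
    intro h
    exact hY'ne ((Subgroup.map_eq_bot_iff_of_injective _ (Subgroup.subtype_injective _)).1 h)
  have hYc : ∀ a ∈ Y, ∀ b ∈ Y, a * b = b * a := by
    rintro _ ⟨a, ha, rfl⟩ _ ⟨b, hb, rfl⟩
    exact congrArg Subtype.val (hY'c a ha b hb)
  have hYU : ∀ u ∈ autInducedBy S R, ∀ y ∈ Y, u * y * u⁻¹ ∈ Y := by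
    rintro u hu _ ⟨y, hy, rfl⟩
    exact ⟨_, hY'U ⟨u, hUA hu⟩ ((hmemU' _).2 hu) y hy, rfl⟩
  have hY1 : ∀ y ∈ Y, y ∈ autInducedBy S R → y = 1 := fun y hy hyU =>
    eq_one_of_coprime_of_isPGroup hYco hUp hy hyU
  have hInnU : Inn R ≤ autInducedBy S R := inn_le_autInducedBy hRle
  have hYI : ∀ y ∈ Y, ∀ i ∈ Inn R, i * y = y * i := by
    intro y hy i hi
    have h3 : i * y * i⁻¹ * y⁻¹ = 1 := by
      apply hY1
      · exact Y.mul_mem (hYU i (hInnU hi) y hy) (Y.inv_mem hy)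
      · apply hInnU
        have h4 := (innNormal R).conj_mem i⁻¹ (Subgroup.inv_mem _ hi) y
        have h5 := Subgroup.mul_mem _ hi h4
        have h6 : i * (y * i⁻¹ * y⁻¹) = i * y * i⁻¹ * y⁻¹ := by group
        rwa [h6] at h5
    calc i * y = (i * y * i⁻¹ * y⁻¹) * (y * i) := by group
      _ = y * i := by rw [h3, one_mul]
  have hZ : ∀ y ∈ Y, ∀ r : R, r⁻¹ * y r ∈ Subgroup.center R := by
    intro y hy r
    rw [Subgroup.mem_center_iff]
    intro t
    have h3 := hYI y hy (MulAut.conj r) ⟨r, rfl⟩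
    have h4 := congrArg (fun f : MulAut R => f (y⁻¹ t)) h3
    simp only [MulAut.mul_apply, MulAut.conj_apply, MulAut.apply_inv_self, map_mul, map_inv] at h4
    calc t * (r⁻¹ * y r) = r⁻¹ * (r * t * r⁻¹) * y r := by group
      _ = r⁻¹ * (y r * t * (y r)⁻¹) * y r := by rw [h4]
      _ = r⁻¹ * y r * t := by group
  have hΦ : ∀ y ∈ Y, ∀ r : R, ((r⁻¹ * y r : R) : Ω) ∈ (frattini S).map S.subtype :=
    fun y hy r => h2 ((hA₁ (hYA hy)).2 r)
  have hcU : ∀ t : S, conjS hSN t ∈ autInducedBy S R := fun t =>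
    (mem_autInducedBy_iff_conjS hSN le_rfl _).2 ⟨t, t.2, rfl⟩
  have hcI : ∀ t : S, (t : Ω) ∈ R → conjS hSN t ∈ Inn R := fun t ht => ⟨⟨t, ht⟩, by ext r; rfl⟩
  have hfpf : ∀ t : S, (t : Ω) ∉ R → ∀ y ∈ Y, conjS hSN t * y * (conjS hSN t)⁻¹ = y → y = 1 := by
    intro t ht y hy h
    apply hY1 y hy
    apply hTI y (hYA hy) t ht
    have h3 : y * conjS hSN t * y⁻¹ = conjS hSN t := by
      calc y * conjS hSN t * y⁻¹ = (conjS hSN t * y * (conjS hSN t)⁻¹) * conjS hSN t * y⁻¹ := by rw [h]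
        _ = conjS hSN t := by group
    rw [h3]
    exact hcU t
  have hRn : (R.subgroupOf S).Normal := by
    constructor
    intro r hr s
    exact Subgroup.mem_subgroupOf.2 (conj_mem_of_normalizer (hSN s.2) (Subgroup.mem_subgroupOf.1 hr))
  let _ : CommGroup (S ⧸ R.subgroupOf S) := { (inferInstance : Group (S ⧸ R.subgroupOf S)) with
    mul_comm := by
      intro a b
      obtain ⟨s, rfl⟩ := QuotientGroup.mk'_surjective _ a
      obtain ⟨t, rfl⟩ := QuotientGroup.mk'_surjective _ b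
      rw [← map_mul, ← map_mul]
      apply QuotientGroup.eq.2
      apply Subgroup.mem_subgroupOf.2
      have h3 := hQR (hcomm _ (S.inv_mem t.2) _ (S.inv_mem s.2))
      have h4 : (t : Ω)⁻¹ * (s : Ω)⁻¹ * (t : Ω)⁻¹⁻¹ * (s : Ω)⁻¹⁻¹ = (((s * t)⁻¹ * (t * s) : S) : Ω) := by
        simp only [Subgroup.coe_mul, Subgroup.coe_inv]
        group
      rwa [h4] at h3 }
  have hmk : ∀ s : S, QuotientGroup.mk' (R.subgroupOf S) s = 1 ↔ (s : Ω) ∈ R := fun s =>
    (QuotientGroup.eq_one_iff s).trans Subgroup.mem_subgroupOf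
  apply hYne
  by_cases hcyc : IsCyclic (S ⧸ R.subgroupOf S)
  · obtain ⟨b, hb⟩ := hcyc.exists_generator
    obtain ⟨x, rfl⟩ := QuotientGroup.mk'_surjective _ b
    have hgen : Subgroup.zpowers (x : Ω) ⊔ R = S := by
      apply le_antisymm (sup_le (Subgroup.zpowers_le.2 x.2) hRle)
      intro s hs
      obtain ⟨k, hk⟩ := hb (QuotientGroup.mk' _ ⟨s, hs⟩)
      have hk' : (QuotientGroup.mk' (R.subgroupOf S) x) ^ k = QuotientGroup.mk' _ ⟨s, hs⟩ := hk
      rw [← map_zpow] at hk'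
      have h3 : (x ^ k)⁻¹ * ⟨s, hs⟩ ∈ R.subgroupOf S := QuotientGroup.eq.1 hk'
      have h4 : s = (x : Ω) ^ k * (((x ^ k)⁻¹ * ⟨s, hs⟩ : S) : Ω) := by
        simp only [Subgroup.coe_mul, Subgroup.coe_inv, Subgroup.coe_zpow]
        group
      rw [h4]
      exact Subgroup.mul_mem_sup (Subgroup.zpow_mem _ (Subgroup.mem_zpowers _) k) (Subgroup.mem_subgroupOf.1 h3)
    have hxR : (x : Ω) ∉ R := by
      intro h
      have h3 : S ≤ R := hgen.ge.trans (sup_le (Subgroup.zpowers_le.2 h) le_rfl)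
      exact ht₀R (h3 ht₀S)
    have hcm := commute_of_frattini hS hRle hSN Y hYco hZ hΦ (fun s hs y hy => hYU _ (hcU ⟨s, hs⟩) y hy)
      x x.2 hgen
    rw [eq_bot_iff]
    intro y hy
    apply hfpf x hxR y hy
    have h3 : conjS hSN x * y = y * conjS hSN x := hcm y hy
    rw [h3, mul_inv_cancel_right]
  · have hBp : IsPGroup p (S ⧸ R.subgroupOf S) :=
      hS.of_surjective (QuotientGroup.mk' _) (QuotientGroup.mk'_surjective _)
    obtain ⟨a, b, ha1, hap, hbp, hab⟩ := exists_of_not_isCyclic hBp hcyc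
    obtain ⟨g, rfl⟩ := QuotientGroup.mk'_surjective _ a
    obtain ⟨h, rfl⟩ := QuotientGroup.mk'_surjective _ b
    have hcent : ∀ t : S, (t : Ω) ∈ R → ∀ y ∈ Y, conjS hSN t * y * (conjS hSN t)⁻¹ = y := by
      intro t ht y hy
      rw [hYI y hy _ (hcI t ht), mul_inv_cancel_right]
    refine eq_bot_of_fpf (p := p) Y hYco hYc (conjS hSN g) (conjS hSN h) (fun y hy => hYU _ (hcU g) y hy)
      (fun y hy => hYU _ (hcU h) y hy) ?_ ?_ ?_ ?_ ?_
    · intro y hy
      rw [← map_pow]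
      apply hcent _ _ y hy
      rw [← hmk, map_pow]; exact hap
    · intro y hy
      rw [← map_pow]
      apply hcent _ _ y hy
      rw [← hmk, map_pow]; exact hbp
    · intro y hy
      have h4 := hcent (g * h * g⁻¹ * h⁻¹) (hQR (hcomm g g.2 h h.2)) _ (hYU _ (hcU (h * g)) y hy)
      rw [map_mul, map_mul, map_mul, map_mul, map_inv, map_inv] at h4
      rw [← h4]
      group
    · intro y hy hfix
      exact hfpf g (fun hgR => ha1 ((hmk g).2 hgR)) y hy hfix
    · intro j y hy hfix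
      rw [← map_pow, ← map_mul] at hfix
      refine hfpf (g ^ j * h) (fun hR' => hab j ?_) y hy hfix
      rw [← map_pow, ← map_mul]; exact (hmk _).2 hR'

end FusionSystem
end Cfsg
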