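import Cfsg.Agent.Fus.TateFus
import Cfsg.Agent.Fus.KSat2
import Cfsg.Agent.Fus.Model2

/-!
S5222.
-/

set_option autoImplicit false

namespace Cfsg
namespace FusionSystem

open Cfsg.Agent.Fus Cfsg.Agent.Lib.Helper27.Fus
open scoped commutatorElement

variable {Ω : Type*} [Group Ω] {S : Subgroup Ω}

theorem exists_conj_of_normalizerSystem_inner (F : FusionSystem S) [Finite S]
    (hN : ∀ N : FusionSystem (normalizerIn S S), F.IsNormalizerSystem S N →
      ∀ P : Subgroup Ω, N.Hom P = (innerFusionSystem (normalizerIn S S)).Hom P)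
    (X : Subgroup Ω) (hX : X = S) (φ : X →* Ω) (hφ : φ ∈ F.Hom X) :
    ∃ g ∈ S, ∀ x : X, φ x = g * x * g⁻¹ := by
  subst hX
  have hφX := (F.le_of_mem hφ).2
  have hsurj : ∀ y ∈ X, ∃ x : X, φ x = y := by
    have hinj : Function.Injective (φ.codRestrict X hφX) := fun a b hab =>
      F.injective_of_mem hφ (congrArg Subtype.val hab)
    intro y hy
    obtain ⟨x, hx⟩ := Finite.surjective_of_injective hinj ⟨y, hy⟩
    exact ⟨x, congrArg Subtype.val hx⟩
  have hle : X ≤ normalizerIn X X := le_normalizerIn le_rfl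
  have hsup : X ⊔ X = X := sup_idem X
  have h1 : φ ∈ F.normalizerHom X X := by
    refine ⟨hφ, hle, fun x => hle (hφX x), φ.comp (Subgroup.inclusion hsup.le),
      F.hom_congr hsup.symm hφ _ (fun _ _ _ => rfl), fun x => rfl, ?_⟩
    ext y
    constructor
    · rintro ⟨z, -, rfl⟩
      exact hφX _
    · intro hy
      obtain ⟨x, hx⟩ := hsurj y hy
      exact ⟨Subgroup.inclusion le_sup_left x, Subgroup.mem_subgroupOf.2 x.2, hx⟩
  rw [← F.isNormalizerSystem_normalizerSystem X le_rfl X,
    hN _ (F.isNormalizerSystem_normalizerSystem X le_rfl) X] at h1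
  obtain ⟨-, g, hg, h⟩ := h1
  exact ⟨g, normalizerIn_le hg, h⟩

/-- S5222. -/
theorem normalizerSystem_eq_inner_of_frattini (F : FusionSystem S) [Finite S] {p : ℕ} [Fact p.Prime]
    (hS : IsPGroup p S) (hF : F.IsSaturated p)
    (hN : ∀ N : FusionSystem (normalizerIn S S), F.IsNormalizerSystem S N →
      ∀ P : Subgroup Ω, N.Hom P = (innerFusionSystem (normalizerIn S S)).Hom P)
    (Q : Subgroup Ω) (h1 : (commutator S).map S.subtype ≤ Q) (h2 : Q ≤ (frattini S).map S.subtype)
    (N : FusionSystem (normalizerIn S Q)) (hNQ : F.IsNormalizerSystem Q N) :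
    N = innerFusionSystem (normalizerIn S Q) := by
  have hQS : Q ≤ S := h2.trans (Subgroup.map_subtype_le _)
  have hfQ : Finite Q := finite_of_le hQS
  have hQn : normalizerIn S Q = S := by
    apply le_antisymm normalizerIn_le
    intro s hs
    refine mem_normalizerIn.2 ⟨hs, mem_normalizer_of_finite fun q hq => ?_⟩
    have h3 : s * q * s⁻¹ * q⁻¹ ∈ Q := by
      apply h1
      refine ⟨⁅(⟨s, hs⟩ : S), ⟨q, hQS hq⟩⁆, ?_, rfl⟩
      rw [commutator_def]
      exact Subgroup.commutator_mem_commutator (Subgroup.mem_top _) (Subgroup.mem_top _)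
    have h4 := Q.mul_mem h3 hq
    rwa [inv_mul_cancel_right] at h4
  have hfn : F.IsFullyNormalized Q := by
    refine ⟨hQS, fun Q' _ => ?_⟩
    rw [hQn]
    exact Subgroup.card_le_of_le normalizerIn_le
  have hfin : Finite (normalizerIn S Q) := finite_of_le normalizerIn_le
  have hNp : IsPGroup p (normalizerIn S Q) := hS.to_le normalizerIn_le
  apply N.eq_inner_of_normal_frattini hNp (hNQ.isSaturated hS hF hfn) ?_ (hNQ.isNormal hQS)
  · rw [hQn]; exact h1
  · rw [hQn]; exact h2
  · intro α hα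
    have h3 := (N.mem_autGroup_iff le_rfl α).1 hα
    have h4 : (normalizerIn S Q).subtype.comp α.toMonoidHom ∈ N.Hom (normalizerIn S Q) := h3
    rw [hNQ] at h4
    obtain ⟨g, hg, hgx⟩ := F.exists_conj_of_normalizerSystem_inner hN _ hQn _ h4.1
    exact (mem_autInducedBy_iff α).2 ⟨g, hQn.ge hg, hgx⟩

end FusionSystem
end Cfsg
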