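import Cfsg.Agent.Fus.Normal3
import Cfsg.Agent.Fus.Model

/-!
Normality via a central series with weakly closed terms (S5226).
-/

set_option autoImplicit false

namespace Cfsg
namespace FusionSystem

open Agent.Fus
open scoped commutatorElement

variable {Ω : Type*} [Group Ω] {S : Subgroup Ω}

theorem WeaklyClosed.aut_mem {F : FusionSystem S} {W : Subgroup Ω} (hW : F.WeaklyClosed W) {P : Subgroup Ω}
    (hWP : W ≤ P) (hP : P ≤ S) {α : MulAut P} (hα : α ∈ F.autGroup P) {x : P} (hx : (x : Ω) ∈ W) :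
    ((α x : P) : Ω) ∈ W := by
  have h1 := F.restrict_mem ((F.mem_autGroup_iff hP α).1 hα) hWP
  have h2 := hW.2 _ h1
  rw [← h2]
  exact ⟨⟨x, hx⟩, rfl⟩

theorem WeaklyClosed.le_normalizer {F : FusionSystem S} {W : Subgroup Ω} (hW : F.WeaklyClosed W) :
    S ≤ Subgroup.normalizer (W : Set Ω) := by
  refine Subgroup.le_normalizer_iff.2 (fun g hg x hx => ?_)
  have h2 := hW.2 _ (F.conj_mem hW.1 hg)
  rw [← h2]
  exact ⟨⟨x, hx⟩, rfl⟩

theorem StronglyClosed.weaklyClosed {F : FusionSystem S} [Finite S] {W : Subgroup Ω} (hW : F.StronglyClosed W) :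
    F.WeaklyClosed W :=
  ⟨hW.1, fun φ hφ => hW.eq_of_isConj ⟨φ, hφ, rfl⟩⟩

/-- The invariance property shared by weakly closed and strongly closed subgroups. -/
def AutInv (F : FusionSystem S) (W : Subgroup Ω) : Prop :=
  S ≤ Subgroup.normalizer (W : Set Ω) ∧ ∀ P : Subgroup Ω, W ≤ P → P ≤ S → ∀ α ∈ F.autGroup P, ∀ x : P,
    (x : Ω) ∈ W → ((α x : P) : Ω) ∈ W

theorem WeaklyClosed.autInv {F : FusionSystem S} {W : Subgroup Ω} (hW : F.WeaklyClosed W) : F.AutInv W :=
  ⟨hW.le_normalizer, fun _ hWP hP _ hα _ hx => hW.aut_mem hWP hP hα hx⟩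

theorem StronglyClosed.autInv {F : FusionSystem S} {W : Subgroup Ω} (hW : F.StronglyClosed W) : F.AutInv W :=
  ⟨hW.le_normalizer, fun _ _ hP _ hα _ hx => hW.aut_mem hP hα hx⟩

/-- A strongly closed subgroup with a central series of invariant subgroups lies in every centric radical
subgroup. -/
theorem le_of_autInv_chain (F : FusionSystem S) [Finite S] {p : ℕ} [Fact p.Prime]
    (hS : IsPGroup p S) {Q : Subgroup Ω} (hQ : F.StronglyClosed Q) (C : ℕ → Subgroup Ω) (h0 : C 0 = ⊥)
    (hle : ∀ j, C j ≤ Q) (hinv : ∀ j, F.AutInv (C j)) (hcomm : ∀ j, ⁅C (j + 1), Q⁆ ≤ C j)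
    {P : Subgroup Ω} (hc : F.IsCentric P) (hr : F.IsRadical p P) : ∀ j, ∀ k ≤ j, C k ≤ P := by
  have hPle := hc.1
  have hfP : Finite P := finite_of_le hPle
  intro j
  induction j with
  | zero =>
    intro k hk
    have : k = 0 := by omega
    rw [this, h0]
    exact bot_le
  | succ j ih =>
    intro k hk
    rcases Nat.lt_or_ge k (j + 1) with hk' | hk'
    · exact ih k (by omega)
    have hkj : k = j + 1 := by omega
    subst hkj
    by_contra hnle
    have hlt : P < P ⊔ C (j + 1) := lt_of_le_of_ne le_sup_left (fun h => hnle (by rw [h]; exact le_sup_right))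
    have hPC : P ⊔ C (j + 1) ≤ S := sup_le hPle ((hle _).trans hQ.1)
    have : Finite ↥(P ⊔ C (j + 1)) := finite_of_le hPC
    obtain ⟨g, hg, hgN, hgP⟩ := exists_normalizer_not_mem (isPGroup_of_le hS hPC) hlt
    have hset := Subgroup.coe_mul_of_left_le_normalizer_right P (C (j + 1)) (hPle.trans (hinv _).1)
    have hg' : g ∈ ((P ⊔ C (j + 1) : Subgroup Ω) : Set Ω) := hg
    rw [hset] at hg'
    obtain ⟨a, ha, x, hx, rfl⟩ := Set.mem_mul.1 hg'
    have hxN : x ∈ Subgroup.normalizer (P : Set Ω) := by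
      have := Subgroup.mul_mem _ (Subgroup.inv_mem _ (Subgroup.le_normalizer ha)) hgN
      simpa using this
    have hxP : x ∉ P := fun h => hgP (P.mul_mem ha h)
    have hxQ : x ∈ Q := hle _ hx
    apply hxP
    apply mem_of_conjAut_mem_inn hc (hQ.1 hxQ) hxN
    rw [← hr.2]
    refine mem_pCore_of_stabilizes (isPGroup_of_le hS hPle) (F.autGroup P)
      (fun i => if i ≤ j then (C i).subgroupOf P else if i = j + 1 then Q.subgroupOf P else ⊤) (j + 2) ?_
      ?_ ?_ (F.autInducedBy_le_autGroup hPle (conjAut_mem hxN (hQ.1 hxQ))) ?_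
    · simp
    · intro α hα i y hy
      by_cases hi : i ≤ j
      · simp only [hi, if_true] at hy ⊢
        exact Subgroup.mem_subgroupOf.2 ((hinv i).2 P (ih i hi) hPle α hα y (Subgroup.mem_subgroupOf.1 hy))
      · by_cases hi2 : i = j + 1
        · simp only [hi, hi2, if_false, if_true] at hy ⊢
          simp only [show ¬ (j + 1 ≤ j) by omega, if_false] at hy ⊢
          exact Subgroup.mem_subgroupOf.2 (hQ.aut_mem hPle hα (Subgroup.mem_subgroupOf.1 hy))
        · simp only [hi, hi2, if_false]
          exact Subgroup.mem_top _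
    · intro α _
      refine ⟨0, fun y hy => ?_⟩
      simp only [Nat.zero_le, if_true, h0] at hy
      have h1 : (y : Ω) = 1 := Subgroup.mem_bot.1 (Subgroup.mem_subgroupOf.1 hy)
      have h2 : y = 1 := Subtype.ext h1
      rw [h2, map_one]
    · intro i y hy
      have hform : ((y⁻¹ * conjAut x hxN y : P) : Ω) = ⁅(y : Ω)⁻¹, x⁆ := by
        rw [commutatorElement_def]
        show (y : Ω)⁻¹ * (x * y * x⁻¹) = _
        group
      by_cases hi : i + 1 ≤ j
      · have hi' : i ≤ j := by omega
        simp only [hi, hi', if_true] at hy ⊢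
        apply Subgroup.mem_subgroupOf.2
        rw [hform]
        exact hcomm i (Subgroup.commutator_mem_commutator
          (Subgroup.inv_mem _ (Subgroup.mem_subgroupOf.1 hy)) hxQ)
      · by_cases hi2 : i = j
        · subst hi2
          simp only [show ¬ (i + 1 ≤ i) by omega, if_false, if_true, le_refl] at hy ⊢
          apply Subgroup.mem_subgroupOf.2
          rw [hform]
          have h3 := Subgroup.commutator_mem_commutator hx (Subgroup.inv_mem _ (Subgroup.mem_subgroupOf.1 hy))
          have h4 := Subgroup.inv_mem _ (hcomm i h3)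
          rwa [commutatorElement_inv] at h4
        · by_cases hi3 : i = j + 1
          · subst hi3
            simp only [show ¬ (j + 1 ≤ j) by omega, if_false, if_true]
            apply Subgroup.mem_subgroupOf.2
            rw [hform, commutatorElement_def]
            have h5 : (y : Ω)⁻¹ * x * (y : Ω)⁻¹⁻¹ ∈ Q := hQ.conj_mem (S.inv_mem (hPle y.2)) hxQ
            exact Q.mul_mem h5 (Q.inv_mem hxQ)
          · simp only [show ¬ (i ≤ j) by omega, hi3, if_false]
            exact Subgroup.mem_top _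

/-- S5226. -/
theorem isNormal_iff_weaklyClosed_series (F : FusionSystem S) [Finite S] {p : ℕ} [Fact p.Prime]
    (hS : IsPGroup p S) (hF : F.IsSaturated p) (Q : Subgroup Ω) :
    F.IsNormal Q ↔ F.StronglyClosed Q ∧ ∃ (n : ℕ) (C : Fin (n + 1) → Subgroup Ω), C 0 = ⊥ ∧
      C (Fin.last n) = Q ∧ Monotone C ∧ (∀ i : Fin n, ⁅C i.succ, Q⁆ ≤ C i.castSucc) ∧
      ∀ i : Fin n, F.WeaklyClosed (C i.castSucc) := by
  constructor
  · intro hQ
    refine ⟨hQ.stronglyClosed, ?_⟩
    obtain ⟨n, Qs, h0, hn, hmono, h⟩ := (F.isNormal_iff_series hS hF Q).1 hQ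
    have hsc : ∀ i : Fin (n + 1), F.StronglyClosed (Qs i) := by
      intro i
      refine Fin.cases ?_ (fun i => (h i).1) i
      rw [h0]; exact F.stronglyClosed_bot
    refine ⟨n, Qs, h0, hn, hmono, fun i => ?_, fun i => (hsc _).weaklyClosed⟩
    rw [Subgroup.commutator_comm]
    exact (h i).2
  · rintro ⟨hQ, n, C, h0, hn, hmono, hcomm, hw⟩
    rw [F.isNormal_iff_stronglyClosed hS hF]
    refine ⟨hQ, fun P hc hr => ?_⟩
    have hmin : ∀ j : ℕ, min j n < n + 1 := fun j => by omega
    have key := F.le_of_autInv_chain hS hQ (fun j => C ⟨min j n, hmin j⟩) ?_ ?_ ?_ ?_ hc hr n n le_rfl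
    · have h1 : (⟨min n n, hmin n⟩ : Fin (n + 1)) = Fin.last n := by
        apply Fin.ext; simp
      simp only [h1, hn] at key
      exact key
    · have h1 : (⟨min 0 n, hmin 0⟩ : Fin (n + 1)) = 0 := by
        apply Fin.ext; simp
      simp only [h1, h0]
    · intro j
      rw [← hn]
      exact hmono (Fin.le_last _)
    · intro j
      by_cases hj : j < n
      · have h1 : (⟨min j n, hmin j⟩ : Fin (n + 1)) = (⟨j, hj⟩ : Fin n).castSucc := by
          apply Fin.ext; simp; omega
        simp only [h1]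
        exact (hw _).autInv
      · have h1 : (⟨min j n, hmin j⟩ : Fin (n + 1)) = Fin.last n := by
          apply Fin.ext; simp; omega
        simp only [h1, hn]
        exact hQ.autInv
    · intro j
      by_cases hj : j < n
      · have h1 : (⟨min j n, hmin j⟩ : Fin (n + 1)) = (⟨j, hj⟩ : Fin n).castSucc := by
          apply Fin.ext; simp; omega
        have h2 : (⟨min (j + 1) n, hmin (j + 1)⟩ : Fin (n + 1)) = (⟨j, hj⟩ : Fin n).succ := by
          apply Fin.ext; simp; omega
        simp only [h1, h2]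
        exact hcomm _
      · have h1 : (⟨min j n, hmin j⟩ : Fin (n + 1)) = Fin.last n := by
          apply Fin.ext; simp; omega
        have h2 : (⟨min (j + 1) n, hmin (j + 1)⟩ : Fin (n + 1)) = Fin.last n := by
          apply Fin.ext; simp; omega
        simp only [h1, h2, hn]
        refine Subgroup.commutator_le.2 (fun a ha b hb => ?_)
        rw [commutatorElement_def]
        exact Q.mul_mem (Q.mul_mem (Q.mul_mem ha hb) (Q.inv_mem ha)) (Q.inv_mem hb)

end FusionSystem
end Cfsg
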